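import Mathlib
import Cfsg.Agent.Base
import Cfsg.Agent.Lib.S3C.Defs

/-! Sums of reciprocals of allowed numbers. -/

set_option autoImplicit false

namespace H42.S3

open Subgroup

universe u

namespace ARx

/-- All finite sums of reciprocals of numbers with property `P` are at most `B`. -/
def Bd (P : ℕ → Prop) (B : ℚ) : Prop := ∀ D : Finset ℕ, (∀ m ∈ D, P m) → ∑ c ∈ D, (1 / c : ℚ) ≤ B

theorem eqns_Bd : True := by
  have := @Bd.eq_1
  trivial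

theorem rnn (c : ℕ) : (0 : ℚ) ≤ 1 / c := by positivity

theorem Bd.mono {P Q : ℕ → Prop} {a b : ℚ} (h : Bd P a) (hQ : ∀ c, Q c → P c) (hab : a ≤ b) : Bd Q b :=
  fun D hD => (h D fun m hm => hQ m (hD m hm)).trans hab

theorem Bd.nonneg {P : ℕ → Prop} {a : ℚ} (h : Bd P a) : 0 ≤ a := by
  simpa using h ∅ (by simp)

theorem bd_single (a : ℕ) : Bd (fun c => c = a) (1 / a) := by
  intro D hD
  have : D ⊆ {a} := fun m hm => Finset.mem_singleton.2 (hD m hm)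
  simpa using Finset.sum_le_sum_of_subset_of_nonneg (f := fun c : ℕ => (1 / c : ℚ)) this fun i _ _ => rnn i

theorem Bd.or {P Q : ℕ → Prop} {a b : ℚ} (h : Bd P a) (h' : Bd Q b) : Bd (fun c => P c ∨ Q c) (a + b) := by
  classical
  intro D hD
  rw [← Finset.sum_filter_add_sum_filter_not D P]
  refine add_le_add (h _ fun m hm => (Finset.mem_filter.1 hm).2) (h' _ fun m hm => ?_)
  exact (hD m (Finset.mem_filter.1 hm).1).resolve_left (Finset.mem_filter.1 hm).2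

theorem Bd.mul {P Q : ℕ → Prop} {a b : ℚ} (h : Bd P a) (h' : Bd Q b) :
    Bd (fun c => ∃ x y, P x ∧ Q y ∧ c = x * y) (a * b) := by
  classical
  intro D hD
  choose! x y hx hy hxy using hD
  have hi : Set.InjOn (fun c => (x c, y c)) D := fun c hc d hd hcd => by
    simp only [Prod.mk.injEq] at hcd
    rw [hxy c hc, hxy d hd]
    nth_rewrite 1 [hcd.1, hcd.2]
    rfl
  calc ∑ c ∈ D, (1 / c : ℚ) = ∑ c ∈ D, (1 / x c : ℚ) * (1 / y c : ℚ) := by
        refine Finset.sum_congr rfl fun c hc => ?_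
        nth_rewrite 1 [hxy c hc]
        push_cast
        rw [one_div_mul_one_div]
    _ = ∑ z ∈ D.image (fun c => (x c, y c)), (1 / z.1 : ℚ) * (1 / z.2 : ℚ) := by rw [Finset.sum_image hi]
    _ ≤ ∑ z ∈ D.image x ×ˢ D.image y, (1 / z.1 : ℚ) * (1 / z.2 : ℚ) := by
        refine Finset.sum_le_sum_of_subset_of_nonneg ?_ fun i _ _ => mul_nonneg (rnn _) (rnn _)
        intro z hz
        obtain ⟨c, hc, rfl⟩ := Finset.mem_image.1 hz
        exact Finset.mem_product.2 ⟨Finset.mem_image_of_mem _ hc, Finset.mem_image_of_mem _ hc⟩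
    _ = (∑ i ∈ D.image x, (1 / i : ℚ)) * ∑ j ∈ D.image y, (1 / j : ℚ) := by
        rw [Finset.sum_product, Finset.sum_mul_sum]
    _ ≤ a * b := by
        refine mul_le_mul (h _ fun m hm => ?_) (h' _ fun m hm => ?_) (Finset.sum_nonneg fun i _ => rnn i) h.nonneg
        · obtain ⟨c, hc, rfl⟩ := Finset.mem_image.1 hm
          exact hx c hc
        · obtain ⟨c, hc, rfl⟩ := Finset.mem_image.1 hm
          exact hy c hc

theorem geo_sum {q : ℚ} (hq : 1 < q) (N : ℕ) : ∑ e ∈ Finset.range N, 1 / q ^ e ≤ q / (q - 1) := by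
  have h : ∑ e ∈ Finset.range N, 1 / q ^ e = (q - q / q ^ N) / (q - 1) := by
    have : q - 1 ≠ 0 := by linarith
    have h0 : q ≠ 0 := by linarith
    induction N with
    | zero => simp
    | succ N ih => rw [Finset.sum_range_succ, ih]; field_simp; ring
  rw [h]
  have : 0 ≤ q / q ^ N := by positivity
  exact div_le_div_of_nonneg_right (by linarith) (by linarith)

theorem bd_geo {p : ℕ} (hp : 2 ≤ p) : Bd (fun c => ∃ e, c = p ^ e) (p / (p - 1)) := by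
  classical
  intro D hD
  choose! e he using hD
  have : D ⊆ (Finset.range (D.sup e + 1)).image (p ^ ·) := fun c hc =>
    Finset.mem_image.2 ⟨e c, Finset.mem_range.2 (Nat.lt_succ_of_le (Finset.le_sup hc)), (he c hc).symm⟩
  refine (Finset.sum_le_sum_of_subset_of_nonneg this fun i _ _ => rnn i).trans ?_
  rw [Finset.sum_image fun a _ b _ h => Nat.pow_right_injective hp h]
  push_cast
  exact geo_sum (by exact_mod_cast hp) _

theorem bd_gap {p : ℕ} (hp : 2 ≤ p) (k : ℕ) :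
    Bd (fun c => ∃ e, c = p ^ e ∧ (p ∣ c → p ^ k ∣ c)) (1 + 1 / p ^ k * (p / (p - 1))) := by
  refine ((bd_single 1).or ((bd_single (p ^ k)).mul (bd_geo hp))).mono ?_ (by push_cast; simp)
  rintro c ⟨e, rfl, h⟩
  rcases e with _ | e
  · exact Or.inl (pow_zero p)
  · have := (Nat.pow_dvd_pow_iff_le_right hp).1 (h (dvd_pow_self p e.succ_ne_zero))
    exact Or.inr ⟨_, p ^ (e + 1 - k), rfl, ⟨_, rfl⟩, by rw [← pow_add, Nat.add_sub_cancel' this]⟩

theorem alw_right {x m : ℕ} (h : Alw (x * m)) (hx : ∀ p : ℕ, p.Prime → 5 ≤ p → p ∣ m → ¬ p ∣ x) : Alw m := by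
  refine ⟨right_ne_zero_of_mul h.1, fun p hp h5 hm => ?_⟩
  have hc : p.Coprime x := (Nat.Prime.coprime_iff_not_dvd hp).2 (hx p hp h5 hm)
  obtain ⟨h1, h2⟩ := h.2 p hp h5 (hm.mul_left x)
  exact ⟨(hc.pow_left 2).dvd_of_dvd_mul_left h1, fun h11 => (hc.pow_left 4).dvd_of_dvd_mul_left (h2 h11)⟩

theorem nd24 {b p : ℕ} (hb : b ∣ 24) (hp : p.Prime) (h5 : 5 ≤ p) : ¬ p ∣ b := fun h => by
  have h1 : p ∣ 2 ^ 3 * 3 := h.trans hb
  rcases (Nat.Prime.dvd_mul hp).1 h1 with h2 | h2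
  · have := Nat.le_of_dvd two_pos (hp.dvd_of_dvd_pow h2); omega
  · have := Nat.le_of_dvd three_pos h2; omega

theorem alw_swap {a b m : ℕ} (h : Alw (a * m)) (ha : a ∣ 24) (hb : b ∣ 24) : Alw (b * m) := by
  have hm := alw_right h fun p hp h5 _ => nd24 ha hp h5
  refine ⟨mul_ne_zero (ne_zero_of_dvd_ne_zero (by norm_num) hb) hm.1, fun p hp h5 hd => ?_⟩
  obtain ⟨h1, h2⟩ := hm.2 p hp h5 (((Nat.Prime.dvd_mul hp).1 hd).resolve_left (nd24 hb hp h5))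
  exact ⟨h1.mul_left b, fun h11 => (h2 h11).mul_left b⟩

theorem alw_small {b : ℕ} (hb : b ∣ 24) : Alw b :=
  ⟨ne_zero_of_dvd_ne_zero (by norm_num) hb, fun _ hp h5 hd => absurd hd (nd24 hb hp h5)⟩

/-- split off the `p`-part -/
theorem lift {p : ℕ} (hp : p.Prime) {P Q E : ℕ → Prop} {a b : ℚ} (hE : Bd E a) (hQ : Bd (fun c => Alw c ∧ Q c) b)
    (h : ∀ e m, ¬ p ∣ m → Alw (p ^ e * m) → P (p ^ e * m) → E (p ^ e) ∧ Q m) :
    Bd (fun c => Alw c ∧ P c) (a * b) := by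
  refine (hE.mul hQ).mono ?_ le_rfl
  rintro c ⟨hc, hP⟩
  obtain ⟨e, m, hm, rfl⟩ := Nat.exists_eq_pow_mul_and_not_dvd hc.1 p hp.ne_one
  obtain ⟨h1, h2⟩ := h e m hm hc hP
  refine ⟨_, _, h1, ⟨alw_right hc fun q hq _ hqm hd => hm ?_, h2⟩, rfl⟩
  rwa [← (Nat.prime_dvd_prime_iff_eq hq hp).1 (hq.dvd_of_dvd_pow hd)]

theorem gap_of {p e m k : ℕ} (hp : p.Prime) (hm : ¬ p ∣ m) (h : p ∣ p ^ e * m → p ^ k ∣ p ^ e * m) :
    ∃ f, p ^ e = p ^ f ∧ (p ∣ p ^ e → p ^ k ∣ p ^ e) :=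
  ⟨e, rfl, fun hd => (((Nat.Prime.coprime_iff_not_dvd hp).2 hm).pow_left k).dvd_of_dvd_mul_right (h (hd.mul_right m))⟩

theorem tail (M : ℕ) (hM : 10 ≤ M) :
    Bd (fun c => Alw c ∧ ∀ p : ℕ, p.Prime → p ∣ c → 11 ≤ p ∧ p ≤ M) (1 + 2 / 121 * (1 / 10 - 1 / M)) := by
  induction M, hM using Nat.le_induction with
  | base =>
    refine (bd_single 1).mono (fun c hc => ?_) (by norm_num)
    by_contra h1
    obtain ⟨p, hp, hd⟩ := Nat.exists_prime_and_dvd h1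
    have := hc.2 p hp hd
    omega
  | succ M hM ih =>
    have hM' : (10 : ℚ) ≤ M := by exact_mod_cast hM
    have e1 : (1 : ℚ) / M - 1 / (M + 1) = 1 / (M * (M + 1)) := by field_simp; ring
    have e2 : (0 : ℚ) < 1 / (M * (M + 1)) := by positivity
    by_cases hp : (M + 1).Prime
    · refine (lift hp (bd_gap hp.two_le 4) ih fun e m hm ha hP => ⟨gap_of hp hm fun hd => ?_, fun q hq hd => ?_⟩).mono
        (fun c hc => hc) ?_
      · exact (ha.2 _ hp (by omega) hd).2 (by omega)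
      · have := hP q hq (hd.mul_left _)
        have : q ≠ M + 1 := fun h => hm (h ▸ hd)
        omega
      · push_cast
        have e3 : (1 : ℚ) / (M + 1) ^ 4 * ((M + 1) / (M + 1 - 1)) = 1 / (M + 1) ^ 2 * (1 / (M * (M + 1))) := by
          rw [add_sub_cancel_right]; field_simp
        have e4 : (1 : ℚ) / (M + 1) ^ 2 ≤ 1 / 121 := one_div_le_one_div_of_le (by norm_num) (by nlinarith)
        have e5 : (0 : ℚ) < 1 / M := by positivity
        have e6 : (1 : ℚ) / M ≤ 1 / 10 := one_div_le_one_div_of_le (by norm_num) hM'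
        rw [e3]
        have e7 : (1 : ℚ) / (M + 1) ^ 2 * (1 / (M * (M + 1))) ≤ 1 / 121 * (1 / (M * (M + 1))) :=
          mul_le_mul_of_nonneg_right e4 e2.le
        have e8 : (0 : ℚ) ≤ 1 / (M + 1) ^ 2 * (1 / (M * (M + 1))) := by positivity
        generalize (1 : ℚ) / (M + 1) ^ 2 * (1 / (M * (M + 1))) = t at *
        generalize (1 : ℚ) / (M * (M + 1)) = s at *
        generalize (1 : ℚ) / (M + 1) = v at *
        generalize (1 : ℚ) / M = w at *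
        nlinarith
    · refine ih.mono (fun c hc => ⟨hc.1, fun q hq hd => ?_⟩) (by push_cast; linarith)
      have := hc.2 q hq hd
      have : q ≠ M + 1 := fun h => hp (h ▸ hq)
      omega

theorem b11 : Bd (fun c => Alw c ∧ ∀ p : ℕ, p.Prime → p ∣ c → 11 ≤ p) (606 / 605) := by
  intro D hD
  refine (tail (D.sup id + 10) (by omega) D fun m hm => ⟨(hD m hm).1, fun p hp hd => ⟨(hD m hm).2 p hp hd, ?_⟩⟩).trans ?_
  · have h1 : m ≤ D.sup id := Finset.le_sup (f := id) hm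
    have := Nat.le_of_dvd (Nat.pos_of_ne_zero (hD m hm).1.1) hd
    omega
  · have := rnn (D.sup id + 10)
    linarith

theorem b7 : Bd (fun c => Alw c ∧ ¬ 2 ∣ c ∧ ¬ 3 ∣ c ∧ ¬ 5 ∣ c) (43 / 42 * (606 / 605)) := by
  have hp : Nat.Prime 7 := by norm_num
  refine (lift hp (bd_gap hp.two_le 2) b11 fun e m hm ha hP => ⟨gap_of hp hm fun hd => ?_, fun q hq hd => ?_⟩).mono
    (fun c hc => hc) (by norm_num)
  · exact (ha.2 _ hp (by omega) hd).1
  · by_contra hl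
    have h2 : q ≠ 2 := fun h => hP.1 (h ▸ hd.mul_left _)
    have h3 : q ≠ 3 := fun h => hP.2.1 (h ▸ hd.mul_left _)
    have h5 : q ≠ 5 := fun h => hP.2.2 (h ▸ hd.mul_left _)
    have h7 : q ≠ 7 := fun h => hm (h ▸ hd)
    have hl' : q < 11 := by omega
    interval_cases q <;> first | omega | exact absurd hq (by norm_num)

theorem b5 : Bd (fun c => Alw c ∧ ¬ 2 ∣ c ∧ ¬ 3 ∣ c ∧ True) (21 / 20 * (43 / 42 * (606 / 605))) := by
  have hp : Nat.Prime 5 := by norm_num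
  refine (lift hp (bd_gap hp.two_le 2) b7 fun e m hm ha hP => ⟨gap_of hp hm fun hd => ?_, ?_⟩).mono
    (fun c hc => hc) (by norm_num)
  · exact (ha.2 _ hp (by omega) hd).1
  · exact ⟨fun h => hP.1 (h.mul_left _), fun h => hP.2.1 (h.mul_left _), hm⟩

variable {Q : ℕ → Prop} {b : ℚ}

theorem l3 (hQ : ∀ x m, Q (x * m) → Q m) (h : Bd (fun c => Alw c ∧ ¬ 2 ∣ c ∧ ¬ 3 ∣ c ∧ Q c) b) :
    Bd (fun c => Alw c ∧ ¬ 2 ∣ c ∧ Q c) (3 / 2 * b) :=
  (lift Nat.prime_three (bd_geo (by norm_num)) h fun e m hm _ hP =>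
    ⟨⟨e, rfl⟩, fun h => hP.1 (h.mul_left _), hm, hQ _ _ hP.2⟩).mono (fun _ hc => hc) (by norm_num)

theorem l2 (hQ : ∀ x m, Q (x * m) → Q m) (h : Bd (fun c => Alw c ∧ ¬ 2 ∣ c ∧ Q c) b) :
    Bd (fun c => Alw c ∧ Q c) (2 * b) :=
  (lift Nat.prime_two (bd_geo le_rfl) h fun e m hm _ hP => ⟨⟨e, rfl⟩, hm, hQ _ _ hP⟩).mono (fun _ hc => hc)
    (by norm_num)

theorem l8 (hQ : ∀ x m, Q (x * m) → Q m) (h : Bd (fun c => Alw c ∧ ¬ 2 ∣ c ∧ Q c) b) :
    Bd (fun c => Alw c ∧ ¬ 8 ∣ c ∧ Q c) (7 / 4 * b) := by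
  refine (lift Nat.prime_two (((bd_single 1).or (bd_single 2)).or (bd_single 4)) h fun e m hm _ hP =>
    ⟨?_, hm, hQ _ _ hP.2⟩).mono (fun _ hc => hc) (by norm_num)
  have : e < 3 := by
    by_contra hl
    exact hP.1 ((pow_dvd_pow 2 (not_lt.1 hl)).mul_right m)
  interval_cases e <;> simp

theorem nd_her (k : ℕ) (x m : ℕ) (h : ¬ k ∣ x * m) : ¬ k ∣ m := fun h' => h (h'.mul_left x)

theorem Bd.use {P : ℕ → Prop} {B : ℚ} (h : Bd P B) (C S : Finset ℕ) (hC : ∀ c ∈ C, P c ∧ c ∉ S) (hS : ∀ c ∈ S, P c) :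
    ∑ c ∈ C, (1 / c : ℚ) + ∑ c ∈ S, (1 / c : ℚ) ≤ B := by
  rw [← Finset.sum_union (Finset.disjoint_left.2 fun c hc => (hC c hc).2)]
  exact h _ fun m hm => (Finset.mem_union.1 hm).elim (fun h => (hC m h).1) (hS m)

theorem repl (C : Finset ℕ) (n n' : ℕ) (R : ℕ → Prop) (h1 : ∀ c ∈ C, c ≠ n → R c)
    (h2 : n ∈ C → R n' ∧ n' ∉ C ∧ 0 < n' ∧ n' ≤ n) :
    ∃ C' : Finset ℕ, (∀ c ∈ C', R c) ∧ ∑ c ∈ C, (1 / c : ℚ) ≤ ∑ c ∈ C', (1 / c : ℚ) := by
  by_cases hn : n ∈ C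
  · obtain ⟨a1, a2, a3, a4⟩ := h2 hn
    refine ⟨insert n' (C.erase n), fun c hc => ?_, ?_⟩
    · rcases Finset.mem_insert.1 hc with rfl | hc
      · exact a1
      · exact h1 c (Finset.mem_of_mem_erase hc) (Finset.ne_of_mem_erase hc)
    · rw [Finset.sum_insert fun h => a2 (Finset.mem_of_mem_erase h), ← Finset.add_sum_erase C _ hn]
      exact add_le_add_left (one_div_le_one_div_of_le (by exact_mod_cast a3) (by exact_mod_cast a4)) _
  · exact ⟨C, fun c hc => h1 c hc fun h => hn (h ▸ hc), le_rfl⟩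

theorem drop (C : Finset ℕ) (a k : ℕ) (hk : 0 < k) (R : ℕ → Prop) (h : a ∈ C → R a → k ≤ a) :
    ∃ C' : Finset ℕ, (∀ c ∈ C', c ∈ C ∧ (c = a → ¬ R c)) ∧ ∑ c ∈ C, (1 / c : ℚ) ≤ 1 / k + ∑ c ∈ C', (1 / c : ℚ) := by
  by_cases ha : a ∈ C ∧ R a
  · refine ⟨C.erase a, fun c hc => ⟨Finset.mem_of_mem_erase hc, fun h => absurd h (Finset.ne_of_mem_erase hc)⟩, ?_⟩
    rw [← Finset.add_sum_erase C _ ha.1]
    exact add_le_add_left (one_div_le_one_div_of_le (by exact_mod_cast hk) (by exact_mod_cast h ha.1 ha.2)) _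
  · refine ⟨C, fun c hc => ⟨hc, fun h hR => ha (h ▸ ⟨hc, hR⟩)⟩, ?_⟩
    have := rnn k
    linarith

end ARx

open ARx

theorem ar1 (C : Finset ℕ) (hA : ∀ c ∈ C, Alw c) (h : ∀ c ∈ C, 5 ≤ c) (h5 : (∀ c ∈ C, ¬ 5 ∣ c) ∨ 6 ∉ C) :
    ∑ c ∈ C, (1 / c : ℚ) < 1 := by
  rcases h5 with h5 | h5
  · have := (l2 (nd_her 5) (l3 (nd_her 5) b7)).use C {1, 2, 3, 4}
      (fun c hc => ⟨⟨hA c hc, h5 c hc⟩, by have := h c hc; simp; omega⟩)
      (by simp only [Finset.mem_insert, Finset.mem_singleton]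
          rintro c (rfl | rfl | rfl | rfl) <;> exact ⟨alw_small (by norm_num), by norm_num⟩)
    norm_num at this ⊢
    linarith
  · have := (l2 (fun _ _ h => h) (l3 (fun _ _ h => h) b5)).use C {1, 2, 3, 4, 6}
      (fun c hc => ⟨⟨hA c hc, trivial⟩, by
        have := h c hc
        have : c ≠ 6 := fun h => h5 (h ▸ hc)
        simp; omega⟩)
      (by simp only [Finset.mem_insert, Finset.mem_singleton]
          rintro c (rfl | rfl | rfl | rfl | rfl) <;> exact ⟨alw_small (by norm_num), trivial⟩)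
    norm_num at this ⊢
    linarith

theorem ar2 (C : Finset ℕ) (hA : ∀ c ∈ C, Alw c) (h : ∀ c ∈ C, 3 ≤ c) {n : ℕ} (h3 : 3 ∣ n) (h9 : ¬ 9 ∣ n)
    (hn : n ≠ 3) (hd : ∀ c ∈ C, c ∣ n) (hc : ∀ c ∈ C, 3 ∣ c → c = 3 ∨ c = n) : ∑ c ∈ C, (1 / c : ℚ) < 1 := by
  obtain ⟨m, rfl⟩ := h3
  obtain ⟨C1, a1, a2⟩ := drop C 3 3 three_pos (fun _ => True) fun _ _ => le_rfl
  obtain ⟨C2, c1, c2⟩ := repl C1 (3 * m) (2 * m) (fun c => Alw c ∧ ¬ 3 ∣ c ∧ 3 ≤ c)
    (fun c hc' hne => ⟨hA c (a1 c hc').1, fun h3 => (hc c (a1 c hc').1 h3).elim (fun h => (a1 c hc').2 h trivial) hne,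
      h c (a1 c hc').1⟩)
    (fun hm => by
      have hm' := (a1 _ hm).1
      have := h _ hm'
      refine ⟨⟨alw_swap (hA _ hm') (by norm_num) (by norm_num), by omega, by omega⟩, fun h2 => ?_, by omega, by omega⟩
      have := Nat.dvd_of_mul_dvd_mul_right (by omega) (hd _ (a1 _ h2).1)
      omega)
  have := (l2 (Q := fun c => ¬ 3 ∣ c ∧ True) (fun x m h => ⟨nd_her 3 x m h.1, trivial⟩) b5).use C2 {1, 2}
    (fun c hc => ⟨⟨(c1 c hc).1, (c1 c hc).2.1, trivial⟩, by have := (c1 c hc).2.2; simp; omega⟩)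
    (by simp only [Finset.mem_insert, Finset.mem_singleton]
        rintro c (rfl | rfl) <;> exact ⟨alw_small (by norm_num), by norm_num, trivial⟩)
  norm_num at this a2 c2 ⊢
  linarith

theorem ar3 (C : Finset ℕ) (hA : ∀ c ∈ C, Alw c) (h : ∀ c ∈ C, 4 ≤ c) (h8 : ∀ c ∈ C, ¬ 8 ∣ c) :
    ∑ c ∈ C, (1 / c : ℚ) < 1 := by
  have := (l8 (fun _ _ h => h) (l3 (fun _ _ h => h) b5)).use C {1, 2, 3}
    (fun c hc => ⟨⟨hA c hc, h8 c hc, trivial⟩, by have := h c hc; simp; omega⟩)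
    (by simp only [Finset.mem_insert, Finset.mem_singleton]
        rintro c (rfl | rfl | rfl) <;> exact ⟨alw_small (by norm_num), by norm_num, trivial⟩)
  norm_num at this ⊢
  linarith

theorem ar4 (C : Finset ℕ) (hA : ∀ c ∈ C, Alw c) (h : ∀ c ∈ C, 4 ≤ c) (h5 : (∀ c ∈ C, ¬ 5 ∣ c) ∨ 6 ∉ C) {n c₀ : ℕ}
    (h8 : 8 ∣ n) (h16 : ¬ 16 ∣ n) (hn : n ≠ 8) (hd : ∀ c ∈ C, c ∣ n) (hc : ∀ c ∈ C, 8 ∣ c → c = n ∨ c = c₀) :
    ∑ c ∈ C, (1 / c : ℚ) < 1 := by
  obtain ⟨m, rfl⟩ := h8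
  obtain ⟨C1, a1, a2⟩ := drop C c₀ 8 (by norm_num) (fun c => 8 ∣ c) fun h0 h8 =>
    Nat.le_of_dvd (by have := h _ h0; omega) h8
  have key : ∀ R : ℕ → Prop, (∀ c ∈ C, R c) → (R (8 * m) → R (3 * m)) →
      ∃ C' : Finset ℕ, (∀ c ∈ C', Alw c ∧ ¬ 8 ∣ c ∧ 4 ≤ c ∧ R c) ∧ ∑ c ∈ C1, (1 / c : ℚ) ≤ ∑ c ∈ C', (1 / c : ℚ) :=
    fun R hR hR' => repl C1 (8 * m) (3 * m) _
      (fun c hc' hne => ⟨hA c (a1 c hc').1, fun h8 => (hc c (a1 c hc').1 h8).elim hne (fun h => (a1 c hc').2 h h8),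
        h c (a1 c hc').1, hR c (a1 c hc').1⟩)
      (fun hm => by
        have hm' := (a1 _ hm).1
        have := h _ hm'
        refine ⟨⟨alw_swap (hA _ hm') (by norm_num) (by norm_num), by omega, by omega, hR' (hR _ hm')⟩, fun h2 => ?_,
          by omega, by omega⟩
        have := Nat.dvd_of_mul_dvd_mul_right (by omega) (hd _ (a1 _ h2).1)
        omega)
  rcases h5 with h5 | h5
  · obtain ⟨C2, c1, c2⟩ := key (fun c => ¬ 5 ∣ c) h5 (by omega)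
    have := (l8 (nd_her 5) (l3 (nd_her 5) b7)).use C2 {1, 2, 3}
      (fun c hc => ⟨⟨(c1 c hc).1, (c1 c hc).2.1, (c1 c hc).2.2.2⟩, by have := (c1 c hc).2.2.1; simp; omega⟩)
      (by simp only [Finset.mem_insert, Finset.mem_singleton]
          rintro c (rfl | rfl | rfl) <;> exact ⟨alw_small (by norm_num), by norm_num, by norm_num⟩)
    norm_num at this a2 c2 ⊢
    linarith
  · obtain ⟨C2, c1, c2⟩ := key (fun c => c ≠ 6) (fun c hc h => h5 (h ▸ hc)) (by omega)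
    have := (l8 (fun _ _ h => h) (l3 (fun _ _ h => h) b5)).use C2 {1, 2, 3, 6}
      (fun c hc => ⟨⟨(c1 c hc).1, (c1 c hc).2.1, trivial⟩, by
        have := (c1 c hc).2.2.1
        have := (c1 c hc).2.2.2
        simp; omega⟩)
      (by simp only [Finset.mem_insert, Finset.mem_singleton]
          rintro c (rfl | rfl | rfl | rfl) <;> exact ⟨alw_small (by norm_num), by norm_num, trivial⟩)
    norm_num at this a2 c2 ⊢
    linarith

end H42.S3
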