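import Mathlib
import Cfsg.Agent.Base
import Cfsg.Agent.Lib.S3C.Defs
import Cfsg.Agent.Lib.PGroup.MaxClass2

/-! Centralizers of order three and four. -/

set_option autoImplicit false
set_option linter.unusedSectionVars false

namespace H42.S3

open Subgroup

universe u

variable {G : Type*} [Group G] [Finite G]

namespace C4

theorem syl_conj {p : ℕ} [Fact p.Prime] (P Q : Sylow p G) : ∃ c : G, ∀ a, a ∈ Q ↔ c * a * c⁻¹ ∈ P := by
  obtain ⟨c, rfl⟩ := MulAction.exists_smul_eq G Q P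
  refine ⟨c, fun a => ?_⟩
  rw [← SetLike.mem_coe, ← SetLike.mem_coe (p := c • Q), Sylow.coe_smul]
  exact (Set.smul_mem_smul_set_iff (a := MulAut.conj c)).symm

theorem gen_of {x w : G} {p : ℕ} (hp : p.Prime) (hx : orderOf x = p) (hw : w ∈ zpowers x) (w1 : w ≠ 1) :
    x ∈ zpowers w := by
  have h : orderOf w = p := ((Nat.dvd_prime hp).1 (hx ▸ orderOf_dvd_of_mem_zpowers hw)).resolve_left
    fun e => w1 (orderOf_eq_one_iff.1 e)
  exact (eq_of_le_of_card_ge (zpowers_le.2 hw) (by rw [Nat.card_zpowers, Nat.card_zpowers, h, hx])).ge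
    (mem_zpowers x)

theorem comm_zp {g w x : G} (h : Commute g w) (hx : x ∈ zpowers w) : Commute g x := by
  obtain ⟨i, rfl⟩ := hx
  exact h.zpow_right i

theorem cz_one : cz (1 : G) = Nat.card G := by
  rw [cz, show centralizer ({1} : Set G) = ⊤ from eq_top_iff.2 fun g _ => mem_cz.2 (Commute.one_right g), card_top]

end C4

open C4

theorem three_vals {x : G} (hx : cz x = 3) : ¬ 9 ∣ Nat.card G ∧ ∀ g : G, 3 ∣ cz g → g = 1 ∨ cz g = 3 := by
  by_cases x1 : x = 1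
  · rw [x1, cz_one] at hx
    exact ⟨by rw [hx]; decide, fun g hg => Or.inr (Nat.dvd_antisymm (hx ▸ cz_dvd g) hg)⟩
  have f3 : Fact (Nat.Prime 3) := ⟨by decide⟩
  have ox : orderOf x = 3 := ((Nat.dvd_prime f3.out).1 (hx ▸ ord_dvd_cz x)).resolve_left
    fun e => x1 (orderOf_eq_one_iff.1 e)
  have zc : zpowers x = centralizer {x} := eq_of_le_of_card_ge (by rw [zpowers_le, mem_cz])
    (by rw [Nat.card_zpowers, ox]; exact hx.le)
  have p3 : ∀ a : G, orderOf a = 3 → IsPGroup 3 (zpowers a) := fun a ha =>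
    IsPGroup.of_card (n := 1) (by rw [Nat.card_zpowers, ha]; rfl)
  obtain ⟨P, hP⟩ := (p3 x ox).exists_le_sylow
  have xP : x ∈ P := hP (mem_zpowers x)
  have : Nontrivial P := ⟨⟨⟨x, xP⟩, 1, fun e => x1 (congrArg Subtype.val e)⟩⟩
  have := P.isPGroup'.center_nontrivial
  obtain ⟨⟨w, hw⟩, w1⟩ := exists_ne (1 : center P)
  have Pc : (P : Subgroup G) ≤ zpowers x := fun a ha => zc.ge (mem_cz.2 (comm_zp (g := a) (w := (w : G))
    (congrArg Subtype.val (mem_center_iff.1 hw ⟨a, ha⟩)) (gen_of f3.out ox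
      (zc.ge (mem_cz.2 (congrArg Subtype.val (mem_center_iff.1 hw ⟨x, xP⟩)).symm))
      fun e => w1 (Subtype.ext (Subtype.ext e)))))
  refine ⟨fun h => ?_, fun g hg => ?_⟩
  · have h1 := (P.pow_dvd_card_of_pow_dvd_card (n := 2) h).trans (card_dvd_of_le Pc)
    rw [Nat.card_zpowers, ox] at h1
    exact absurd h1 (by decide)
  obtain ⟨a, ha⟩ := exists_prime_orderOf_dvd_card' 3 hg
  rw [← Subgroup.orderOf_coe] at ha
  obtain ⟨Q, hQ⟩ := (p3 a ha).exists_le_sylow
  obtain ⟨c, hc⟩ := syl_conj P Q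
  have a1 : c * a * c⁻¹ ≠ 1 := fun e => by rw [conj_eq_one_iff.1 e] at ha; simp at ha
  have m : c * g * c⁻¹ ∈ zpowers x := zc.ge (mem_cz.2 (comm_zp ((mem_cz.1 a.2).symm.conj c)
    (gen_of f3.out ox (Pc ((hc a).1 (hQ (mem_zpowers _)))) a1)))
  refine or_iff_not_imp_left.2 fun g1 => ?_
  rw [cz_conj (isConj_iff.2 ⟨c, rfl⟩ : IsConj g _), ← hx, cz, cz]
  congr 2
  ext b
  rw [mem_cz, mem_cz]
  exact ⟨fun h => comm_zp h (gen_of f3.out ox m fun e => g1 (conj_eq_one_iff.1 e)), fun h => comm_zp h m⟩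

theorem four_sylow (hR : Rat G) {x : G} (hx : cz x = 4) : ¬ 16 ∣ Nat.card G := fun h => by
  have : Fact (Nat.Prime 2) := ⟨Nat.prime_two⟩
  obtain ⟨P, hP⟩ := (IsPGroup.of_card (p := 2) (n := 2) hx).exists_le_sylow
  have xP : x ∈ P := hP (mem_cz.2 (Commute.refl x))
  obtain ⟨n, hn⟩ := IsPGroup.iff_card.1 P.isPGroup'
  have h4 : 4 ≤ n := (Nat.pow_dvd_pow_iff_le_right one_lt_two).1 (hn ▸ P.pow_dvd_card_of_pow_dvd_card (n := 4) h)
  obtain ⟨k, rfl⟩ : ∃ k, n = k + 3 := ⟨n - 3, by omega⟩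
  have hc := H5.nilpotencyClass_eq_of_card_centralizer_le (k + 1) P hn ⟨x, xP⟩ (le_trans
    (Nat.card_le_card_of_injective (fun a => (⟨a.1.1, mem_cz.2 (congrArg Subtype.val (mem_cz.1 a.2).eq)⟩ :
      centralizer ({x} : Set G))) fun a b e => Subtype.ext (Subtype.ext (congrArg (·.1) e))) hx.le)
  have := P.isPGroup'.isNilpotent
  obtain ⟨h1, h2⟩ := H5.index_commutator_of_maxClass hn hc
  obtain ⟨a, b, m, hm, ha, hi, -⟩ := H5.exists_gens_of_index_four P.isPGroup' h1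
    (fun x => by simpa [pow_two] using h2 x) (H5.commutator_ne_bot_of_class (by omega))
  have e := (zpowers a).card_mul_index
  rw [hi, Nat.card_zpowers, ha, hn, ← pow_succ] at e
  have e' := Nat.pow_right_injective le_rfl e
  have d := hR.mul_totient_dvd (a : G)
  rw [Subgroup.orderOf_coe, ha, Nat.totient_prime_pow_succ Nat.prime_two, show 2 - 1 = 1 from rfl, mul_one,
    ← pow_add] at d
  have := (Nat.pow_dvd_pow_iff_le_right one_lt_two).1 (hn ▸ P.pow_dvd_card_of_pow_dvd_card d)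
  omega

theorem eight_vals {x : G} (hx : cz x = 4) (h16 : ¬ 16 ∣ Nat.card G) :
    ∃ z : G, ∀ g : G, 8 ∣ cz g → g = 1 ∨ IsConj g z := by
  by_cases h8 : 8 ∣ Nat.card G
  swap
  · exact ⟨1, fun g hg => absurd (hg.trans (cz_dvd g)) h8⟩
  have : Fact (Nat.Prime 2) := ⟨Nat.prime_two⟩
  have c8 : ∀ P : Sylow 2 G, Nat.card P = 8 := fun P => by
    obtain ⟨n, hn⟩ := IsPGroup.iff_card.1 P.isPGroup'
    have h3 : 3 ≤ n := (Nat.pow_dvd_pow_iff_le_right one_lt_two).1 (hn ▸ P.pow_dvd_card_of_pow_dvd_card (n := 3) h8)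
    have h4 : ¬ 4 ≤ n := fun h => h16 ((pow_dvd_pow 2 h).trans (hn ▸ card_subgroup_dvd_card (P : Subgroup G)))
    rw [hn, show n = 3 by omega]
    rfl
  obtain ⟨P, hP⟩ := (IsPGroup.of_card (p := 2) (n := 2) hx).exists_le_sylow
  have xP : x ∈ P := hP (mem_cz.2 (Commute.refl x))
  set Z := centralizer (P : Set G) with hZ
  have ZC : Z ≤ centralizer {x} := centralizer_le (by simpa using xP)
  have c2 : Nat.card Z ≤ 2 := by
    have h1 : Nat.card Z ∣ 2 ^ 2 := (card_dvd_of_le ZC).trans hx.dvd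
    obtain ⟨k, hk, e⟩ := (Nat.dvd_prime_pow Nat.prime_two).1 h1
    have : k ≠ 2 := by
      rintro rfl
      have m := (eq_of_le_of_card_ge ZC (hx.trans e.symm).le).ge (mem_cz.2 (Commute.refl x))
      have := card_le_of_le (show (P : Subgroup G) ≤ centralizer {x} from fun a ha =>
        mem_cz.2 (mem_centralizer_iff.1 m a ha))
      rw [c8 P] at this
      exact absurd (this.trans hx.le) (by decide)
    rw [e]
    interval_cases k <;> simp_all
  have uq : ∀ a ∈ Z, ∀ b ∈ Z, a ≠ 1 → b ≠ 1 → a = b := fun a ha b hb a1 b1 => by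
    by_contra ne
    have : ({1, a, b} : Set G).ncard ≤ (Z : Set G).ncard := Set.ncard_le_ncard (by
      rintro _ (rfl | rfl | rfl)
      exacts [Z.one_mem, ha, hb])
    rw [Set.ncard_eq_three.2 ⟨1, a, b, a1.symm, b1.symm, ne, rfl⟩] at this
    exact absurd (this.trans c2) (by decide)
  have key : ∀ g : G, 8 ∣ cz g → ∃ c, c * g * c⁻¹ ∈ Z := fun g hg => by
    obtain ⟨K, hK⟩ := Sylow.exists_subgroup_card_pow_prime 2 (n := 3) hg
    have hK' : Nat.card (K.map (centralizer ({g} : Set G)).subtype) = 2 ^ 3 := by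
      rw [card_map_of_injective (subtype_injective _), hK]
    obtain ⟨Q, hQ⟩ := (IsPGroup.of_card hK').exists_le_sylow
    have e := eq_of_le_of_card_ge hQ (by rw [hK']; exact (c8 Q).le)
    obtain ⟨c, hc⟩ := syl_conj P Q
    refine ⟨c, mem_centralizer_iff.2 fun a ha => ?_⟩
    have := mem_cz.1 (map_subtype_le K (e.ge ((hc (c⁻¹ * a * c)).2 (by simpa [mul_assoc] using ha))))
    simpa [mul_assoc] using (this.conj c).eq
  by_cases ex : ∃ z ∈ Z, z ≠ 1
  · obtain ⟨z, hz, z1⟩ := ex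
    refine ⟨z, fun g hg => or_iff_not_imp_left.2 fun g1 => ?_⟩
    obtain ⟨c, hc⟩ := key g hg
    exact isConj_iff.2 ⟨c, uq _ hc z hz (fun e => g1 (conj_eq_one_iff.1 e)) z1⟩
  · push Not at ex
    refine ⟨1, fun g hg => Or.inl ?_⟩
    obtain ⟨c, hc⟩ := key g hg
    exact conj_eq_one_iff.1 (ex _ hc)

end H42.S3
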