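import Mathlib
import Cfsg.Agent.Base
import Cfsg.Agent.Lib.S3C.Defs

/-! Two module lemmas. -/

set_option autoImplicit false

namespace H42.S3

open Subgroup

universe u

namespace MOD

variable {L N : Type*} [Group L] [AddCommGroup N] [DistribMulAction L N]

/-- The trace of `x` under the first `p` powers of `g`. -/
def tr (p : ℕ) (g : L) (x : N) : N := ∑ i ∈ Finset.range p, g ^ i • x

theorem smul_tr {p : ℕ} {g : L} (hg : g ^ p = 1) (x : N) : g • tr p g x = tr p g x := by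
  have h1 := Finset.sum_range_succ (fun i => g ^ i • x) p
  rw [Finset.sum_range_succ', hg, pow_zero, add_left_inj] at h1
  rw [tr, Finset.smul_sum, ← h1]
  exact Finset.sum_congr rfl fun i _ => by rw [pow_succ', mul_smul]

theorem tr_smul {p : ℕ} {g s : L} (h : Commute s g) (x : N) : tr p g (s • x) = s • tr p g x := by
  rw [tr, tr, Finset.smul_sum]
  exact Finset.sum_congr rfl fun i _ => by rw [← mul_smul, ← mul_smul, (h.pow_right i).eq]

theorem tr_sub (p : ℕ) (g : L) (x y : N) : tr p g (x - y) = tr p g x - tr p g y := by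
  simp only [tr, smul_sub, Finset.sum_sub_distrib]

theorem tr_pow {p j : ℕ} (hp : p.Prime) {u : L} (hu : u ^ p = 1) (h0 : j ≠ 0) (hj : j < p) (n : N) :
    tr p (u ^ j) (u • n - n) = 0 := by
  have h1 : (u ^ j) ^ p = 1 := by rw [← pow_mul, mul_comm, pow_mul, hu, one_pow]
  have h2 : j.Coprime (orderOf u) :=
    Nat.Coprime.coprime_dvd_right (orderOf_dvd_of_pow_eq_one hu) ((Nat.coprime_of_lt_prime h0 hj hp).symm)
  obtain ⟨k, hk⟩ := exists_pow_eq_self_of_coprime h2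
  have h3 : (u ^ j) ^ k ∈ MulAction.stabilizer L (tr p (u ^ j) n) := pow_mem (smul_tr h1 n) k
  rw [hk] at h3
  rw [tr_sub, tr_smul ((Commute.refl u).pow_right j), h3, sub_self]

theorem exists_moved {p : ℕ} (hp : p.Prime) (hN : ∀ n : N, p • n = 0 → n = 0) {u w : L} (hu : u ^ p = 1)
    (hc : Commute w u) {n : N} (hn : u • n ≠ n) :
    ∃ i : ℕ, u • tr p (w * u ^ i) n ≠ tr p (w * u ^ i) n := by
  by_contra h
  push Not at h
  have h1 : ∀ i, tr p (w * u ^ i) (u • n - n) = 0 := fun i => by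
    rw [tr_sub, tr_smul (hc.symm.mul_right ((Commute.refl u).pow_right i)), h, sub_self]
  have h2 : ∑ i ∈ Finset.range p, tr p (w * u ^ i) (u • n - n) =
      ∑ j ∈ Finset.range p, w ^ j • tr p (u ^ j) (u • n - n) := by
    simp only [tr, Finset.smul_sum]
    rw [Finset.sum_comm]
    refine Finset.sum_congr rfl fun j _ => Finset.sum_congr rfl fun i _ => ?_
    rw [(hc.pow_right i).mul_pow, mul_smul, ← pow_mul, ← pow_mul, mul_comm]
  rw [Finset.sum_eq_zero fun i _ => h1 i, Finset.sum_eq_single_of_mem 0 (Finset.mem_range.2 hp.pos)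
    fun j hj j0 => by rw [tr_pow hp hu j0 (Finset.mem_range.1 hj), smul_zero]] at h2
  refine hn (sub_eq_zero.1 (hN _ ?_))
  simpa [tr, smul_sub] using h2.symm

end MOD

open MOD

theorem hy {L N : Type*} [Group L] [Finite L] [AddCommGroup N] [DistribMulAction L N] {p : ℕ} (hp : p.Prime)
    (hN : ∀ n : N, p • n = 0 → n = 0) (V : Subgroup L) (hV : ∀ a ∈ V, ∀ b ∈ V, Commute a b)
    (he : ∀ a ∈ V, a ^ p = 1) {u : L} (hu : u ∈ V) {n₀ : N} (h0 : u • n₀ ≠ n₀) :
    ∃ n : N, u • n ≠ n ∧ (MulAction.stabilizer L n).relIndex V = p := by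
  obtain ⟨_, ⟨n, hn, rfl⟩, hmax⟩ := (wellFounded_gt (α := Subgroup L)).has_min
    {S | ∃ n : N, u • n ≠ n ∧ MulAction.stabilizer L n ⊓ V = S} ⟨_, n₀, h0, rfl⟩
  refine ⟨n, hn, ?_⟩
  have key : ∀ w ∈ V, ∃ i : ℕ, w * u ^ i ∈ MulAction.stabilizer L n := by
    intro w hw
    obtain ⟨i, hi⟩ := exists_moved hp hN (he u hu) (hV w hw u hu) hn
    have hwi : w * u ^ i ∈ V := V.mul_mem hw (V.pow_mem hu i)
    have h1 : MulAction.stabilizer L n ⊓ V ≤ MulAction.stabilizer L (tr p (w * u ^ i) n) ⊓ V := by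
      refine fun s hs => ⟨?_, hs.2⟩
      show s • _ = _
      rw [← tr_smul (hV s hs.2 _ hwi), (hs.1 : s • n = n)]
    have h2 := (eq_or_lt_of_le h1).resolve_right (hmax _ ⟨_, hi, rfl⟩)
    exact ⟨i, (h2.ge ⟨smul_tr (he _ hwi) n, hwi⟩).1⟩
  set S := (MulAction.stabilizer L n).subgroupOf V with hS
  haveI : S.Normal := ⟨fun s hs g => by
    have : g * s * g⁻¹ = s := mul_inv_eq_iff_eq_mul.2 (Subtype.ext (hV _ g.2 _ s.2).eq)
    rwa [this]⟩
  haveI := Fact.mk hp
  have h1 : orderOf (QuotientGroup.mk' S ⟨u, hu⟩) = p := by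
    refine orderOf_eq_prime ?_ fun e => hn (mem_subgroupOf.1 ((QuotientGroup.eq_one_iff _).1 e))
    rw [← map_pow, show (⟨u, hu⟩ : V) ^ p = 1 from Subtype.ext (he u hu), map_one]
  rw [← h1, orderOf_eq_card_of_forall_mem_zpowers]
  · rfl
  · intro x
    obtain ⟨w, rfl⟩ := QuotientGroup.mk'_surjective S x
    obtain ⟨i, hi⟩ := key w w.2
    have h2 : QuotientGroup.mk' S (w * ⟨u, hu⟩ ^ i) = 1 := (QuotientGroup.eq_one_iff _).2 (mem_subgroupOf.2 hi)
    rw [map_mul, map_pow, mul_eq_one_iff_eq_inv] at h2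
    rw [h2]
    exact inv_mem (pow_mem (mem_zpowers _) i)

theorem v3 {L N : Type*} [Group L] [AddCommGroup N] [Finite N] [DistribMulAction L N] (D : AddSubgroup N) {z a : L}
    {e p : ℕ} (hp : p.Prime) (hz : ∀ n ∈ D, z • n ∈ D) (ha : ∀ n ∈ D, a • z • n = z ^ e • a • n)
    (hf : ∀ j : ℕ, ¬ p ∣ j → ∀ n ∈ D, z ^ j • n = n → n = 0) (he : ¬ p ∣ e) (he2 : ¬ e ^ 2 ≡ 1 [MOD p]) :
    Nat.card {n : N // n ∈ D ∧ a • n = n} ^ 3 ≤ Nat.card D := by
  have hzp : ∀ (j : ℕ), ∀ n ∈ D, z ^ j • n ∈ D := by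
    intro j
    induction j with
    | zero => intro n hn; rwa [pow_zero, one_smul]
    | succ j ih => intro n hn; rw [pow_succ', mul_smul]; exact hz _ (ih n hn)
  have hap : ∀ (j : ℕ), ∀ n ∈ D, a • z ^ j • n = z ^ (e * j) • a • n := by
    intro j
    induction j with
    | zero => intro n _; simp
    | succ j ih =>
      intro n hn
      rw [pow_succ', mul_smul, ha _ (hzp j n hn), ih n hn, ← mul_smul, ← pow_add, mul_add, mul_one, add_comm]
  have inj : ∀ i j : ℕ, ¬ i ≡ j [MOD p] → ∀ y ∈ D, z ^ i • y = z ^ j • y → y = 0 := by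
    have aux : ∀ i j : ℕ, i ≤ j → ¬ i ≡ j [MOD p] → ∀ y ∈ D, z ^ i • y = z ^ j • y → y = 0 := by
      intro i j hij h y hy e1
      obtain ⟨k, rfl⟩ := Nat.exists_eq_add_of_le hij
      rw [pow_add, mul_smul, smul_left_cancel_iff] at e1
      refine hf k (fun hk => h ?_) y hy e1.symm
      exact (Nat.modEq_iff_dvd' hij).2 (by simpa using hk)
    intro i j h y hy e1
    rcases le_total i j with hij | hij
    · exact aux i j hij h y hy e1
    · exact aux j i hij (fun h' => h h'.symm) y hy e1.symm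
  have n01 : ¬ 1 ≡ e [MOD p] := fun h => he2 (by simpa using (h.pow 2).symm)
  have n02 : ¬ 1 ≡ e * e [MOD p] := fun h => he2 (by rw [sq]; exact h.symm)
  have n12 : ¬ e ≡ e * e [MOD p] := fun h => n01 (Nat.ModEq.cancel_left_of_coprime
    ((Nat.Prime.coprime_iff_not_dvd hp).2 he) (by rwa [mul_one]))
  have zero : ∀ x0 ∈ D, ∀ x1 ∈ D, ∀ x2 ∈ D, a • x0 = x0 → a • x1 = x1 → a • x2 = x2 →
      x0 + z • x1 + z • z • x2 = 0 → x0 = 0 ∧ x1 = 0 ∧ x2 = 0 := by
    intro x0 h0 x1 h1 x2 h2 f0 f1 f2 e0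
    have step : ∀ i : ℕ, x0 + z ^ i • x1 + z ^ (i + i) • x2 = 0 →
        x0 + z ^ (e * i) • x1 + z ^ (e * i + e * i) • x2 = 0 := by
      intro i h
      have := congrArg (a • ·) h
      simp only [smul_add, smul_zero] at this
      rwa [hap i x1 h1, hap _ x2 h2, f0, f1, f2, mul_add] at this
    have sub : ∀ i j : ℕ, ¬ i ≡ j [MOD p] → x0 + z ^ i • x1 + z ^ (i + i) • x2 = 0 →
        x0 + z ^ j • x1 + z ^ (j + j) • x2 = 0 → x1 + (z ^ i • x2 + z ^ j • x2) = 0 := by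
      intro i j hij a1 a2
      refine inj i j hij _ (D.add_mem h1 (D.add_mem (hzp i _ h2) (hzp j _ h2))) ?_
      simp only [smul_add, ← mul_smul, ← pow_add]
      rw [add_comm j i]
      linear_combination (norm := abel_nf) a1 - a2
    have r0 : x0 + z ^ 1 • x1 + z ^ (1 + 1) • x2 = 0 := by rwa [pow_add, pow_one, mul_smul]
    have r1 := step 1 r0
    rw [mul_one] at r1
    have r2 := step e r1
    have s1 := sub 1 e n01 r0 r1
    have s2 := sub 1 (e * e) n02 r0 r2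
    have z2 : x2 = 0 := inj e (e * e) n12 x2 h2 (by linear_combination (norm := abel_nf) s1 - s2)
    subst z2
    have z1 : x1 = 0 := by simpa using s1
    subst z1
    exact ⟨by simpa using e0, rfl, rfl⟩
  set F := {n : N // n ∈ D ∧ a • n = n}
  have hc : Nat.card F ^ 3 = Nat.card (F × F × F) := by rw [Nat.card_prod, Nat.card_prod]; ring
  rw [hc]
  refine Nat.card_le_card_of_injective (fun x : F × F × F => (⟨x.1.1 + z • x.2.1.1 + z • z • x.2.2.1,
    D.add_mem (D.add_mem x.1.2.1 (hz _ x.2.1.2.1)) (hz _ (hz _ x.2.2.2.1))⟩ : D)) ?_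
  rintro ⟨x0, x1, x2⟩ ⟨y0, y1, y2⟩ h
  have h1 : x0.1 + z • x1.1 + z • z • x2.1 = y0.1 + z • y1.1 + z • z • y2.1 := congrArg Subtype.val h
  obtain ⟨e0, e1, e2⟩ := zero (x0.1 - y0.1) (D.sub_mem x0.2.1 y0.2.1) (x1.1 - y1.1) (D.sub_mem x1.2.1 y1.2.1)
    (x2.1 - y2.1) (D.sub_mem x2.2.1 y2.2.1) (by rw [smul_sub, x0.2.2, y0.2.2])
    (by rw [smul_sub, x1.2.2, y1.2.2]) (by rw [smul_sub, x2.2.2, y2.2.2])
    (by simp only [smul_sub]; linear_combination (norm := abel_nf) h1)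
  exact Prod.ext (Subtype.ext (sub_eq_zero.1 e0))
    (Prod.ext (Subtype.ext (sub_eq_zero.1 e1)) (Subtype.ext (sub_eq_zero.1 e2)))

end H42.S3
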