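import Mathlib
import Cfsg.Agent.Base
import Cfsg.Agent.Lib.S3C.Defs
import Cfsg.Agent.Lib.Mod88.Eig

/-! Eigenspace count in a rational group. -/

set_option autoImplicit false

namespace H42.S3

open Subgroup

universe u

namespace Tl

open H88.Mod Module

theorem four_le_totient {n : ℕ} (h2 : 2 ∣ n) (h : 10 ≤ n) : 4 ≤ n.totient := by
  obtain ⟨j, h1, h3, ho, hj⟩ : ∃ j, 1 < j ∧ j + 1 < n ∧ Odd j ∧ (2 * j = n + 2 ∨ 2 * j = n + 4) := by
    rcases Nat.even_or_odd (n / 2) with k | k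
    · exact ⟨n / 2 + 1, by omega, by omega, k.add_one, by omega⟩
    · exact ⟨n / 2 + 2, by omega, by omega, k.add_even even_two, by omega⟩
  have hc : n.Coprime j := by
    have d1 : n.gcd j ∣ 2 * j := (Nat.gcd_dvd_right _ _).mul_left 2
    have d2 : n.gcd j ∣ 2 ^ 2 := by
      rcases hj with e | e <;> rw [e] at d1
      · exact ((Nat.dvd_add_right (Nat.gcd_dvd_left _ _)).1 d1).trans (by norm_num)
      · exact (Nat.dvd_add_right (Nat.gcd_dvd_left _ _)).1 d1
    exact (((Nat.coprime_two_right.2 ho).coprime_dvd_left (Nat.gcd_dvd_right _ _)).pow_right 2).eq_one_of_dvd d2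
  have hs : ({1, j, n - 1} : Finset ℕ) ⊆ (Finset.range n).filter n.Coprime := by
    intro x hx
    simp only [Finset.mem_insert, Finset.mem_singleton] at hx
    rw [Finset.mem_filter, Finset.mem_range]
    rcases hx with rfl | rfl | rfl
    · exact ⟨by omega, Nat.coprime_one_right _⟩
    · exact ⟨by omega, hc⟩
    · exact ⟨by omega, (Nat.coprime_self_sub_right (by omega)).2 (Nat.coprime_one_right _)⟩
  have := Finset.card_le_card hs
  rw [Finset.card_eq_three.2 ⟨1, j, n - 1, by omega, by omega, by omega, rfl⟩, ← Nat.totient_eq_card_coprime] at this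
  have := (Nat.totient_even (show 2 < n by omega)).two_dvd
  omega

theorem lin {X W : Type*} [Group X] [Finite X] (hR : Rat X) {p : ℕ} [hp : Fact p.Prime]
    [AddCommGroup W] [Module (ZMod p) W] [Finite W] (ρ : Representation (ZMod p) X W) (Γ : Subgroup X)
    (hΓ : ¬ p ∣ Nat.card Γ) {v : W} (hv : v ≠ 0) (hn : ∀ g ∈ Γ, ∃ c : ZMod p, ρ g v = c • v) {h : X}
    (hh : h ∈ Γ) {l : ZMod p} (hl : orderOf l = p - 1) (hhv : ρ h v = l • v) (D : Submodule (ZMod p) W)
    (hD : ∀ a, (∀ g ∈ Γ, ρ g v = v → ρ g a = a) → a ∈ D) :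
    p ≤ finrank (ZMod p) D ∨ (p - 1).totient ≤ finrank (ZMod p) D := by
  classical
  have := Fintype.ofFinite Γ
  have inj : ∀ {a b : ZMod p}, a • v = b • v → a = b := fun e => smul_left_injective _ hv e
  choose c hc using fun g : Γ => hn g g.2
  let ψ0 : Γ →* ZMod p :=
    { toFun := c
      map_one' := inj (by rw [← hc]; simp)
      map_mul' := fun a b => inj (by
        rw [← hc, coe_mul, map_mul, Module.End.mul_apply, hc, map_smul, hc, smul_smul, mul_comm]) }
  let ψ := ψ0.toHomUnits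
  have hψ : ∀ g : Γ, ρ g v = (ψ g : ZMod p) • v := hc
  let τ : Representation (ZMod p) Γ W := ρ.comp Γ.subtype
  have hH : (Fintype.card Γ : ZMod p) ≠ 0 := by
    rwa [Ne, ZMod.natCast_eq_zero_iff, ← Nat.card_eq_fintype_card]
  have key : ∀ k : ℕ, k.Coprime (p - 1) →
      (finrank (ZMod p) (Eig τ (ψ ^ k)) : ZMod p) = finrank (ZMod p) (Eig τ ψ) := fun k hk => by
    have := hp.out.two_le
    obtain ⟨k', h1, h2⟩ := exists_coprime (by omega) hk (Nat.card_pos (α := X)).ne'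
    refine mul_left_cancel₀ hH ?_
    rw [finrank_Eig_cast hH, finrank_Eig_cast hH]
    refine Fintype.sum_equiv (powCoprime (h2.symm.coprime_dvd_left Γ.card_subgroup_dvd_card)) _ _ fun g => ?_
    rw [powCoprime_apply, MonoidHom.pow_apply, ← inv_pow, map_pow ψ, pow_eq_pow_iff_modEq.2
      (h1.of_dvd (orderOf_dvd_of_pow_eq_one (ZMod.units_pow_card_sub_one_eq_one p _)))]
    congr 1
    obtain ⟨d, hd⟩ := isConj_iff.1 (hR g k' (h2.coprime_dvd_right (orderOf_dvd_natCard _)))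
    show LinearMap.trace _ _ (ρ g) = LinearMap.trace _ _ (ρ ((g : X) ^ k'))
    rw [← hd, map_mul, LinearMap.trace_mul_comm, ← map_mul, inv_mul_cancel_left]
  have le : ∀ k : ℕ, Eig τ (ψ ^ k) ≤ D := fun k a ha => hD a fun g hg e => by
    have e1 : (ψ ⟨g, hg⟩ : ZMod p) = 1 := inj (by rw [← hψ, one_smul]; exact e)
    have := ha ⟨g, hg⟩
    rwa [MonoidHom.pow_apply, Units.val_pow_eq_pow_val, e1, one_pow, one_smul] at this
  refine (le_or_gt p _).imp_right fun hlt => ?_
  have h0 : (finrank (ZMod p) (Eig τ ψ) : ZMod p) ≠ 0 := by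
    rw [Ne, ZMod.natCast_eq_zero_iff]
    refine Nat.not_dvd_of_pos_of_lt (finrank_pos_iff_exists_ne_zero.2 ⟨⟨v, hψ⟩, fun e => hv (congrArg Subtype.val e)⟩)
      (lt_of_le_of_lt (Submodule.finrank_mono ?_) hlt)
    exact fun a ha => le 1 fun g => by rw [MonoidHom.pow_apply, pow_one]; exact ha g
  have ex : ∀ k : ((Finset.range (p - 1)).filter (p - 1).Coprime), ∃ w : Eig τ (ψ ^ k.1), w ≠ 0 := fun k => by
    refine (finrank_pos_iff_exists_ne_zero (R := ZMod p)).1 (Nat.pos_of_ne_zero fun e => h0 ?_)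
    rw [← key k (Finset.mem_filter.1 k.2).2.symm, e, Nat.cast_zero]
  choose w hw using ex
  have el : (ψ ⟨h, hh⟩ : ZMod p) = l := inj (by rw [← hψ]; exact hhv)
  have li := Module.End.eigenvectors_linearIndependent' (ρ h) (fun k => l ^ k.1) (fun a b e => Subtype.ext
    (pow_injOn_Iio_orderOf (x := l) ((Finset.mem_range.1 (Finset.mem_filter.1 a.2).1).trans_eq hl.symm)
      ((Finset.mem_range.1 (Finset.mem_filter.1 b.2).1).trans_eq hl.symm) e)) (fun k => (w k : W)) fun k =>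
    ⟨Module.End.mem_eigenspace_iff.2 (by
      have := (w k).2 ⟨h, hh⟩
      rwa [MonoidHom.pow_apply, Units.val_pow_eq_pow_val, el] at this), fun e => hw k (Subtype.ext e)⟩
  have li' : LinearIndependent (ZMod p) fun k => (⟨w k, le _ (w k).2⟩ : D) :=
    LinearIndependent.of_comp D.subtype li
  have := li'.fintype_card_le_finrank
  rwa [Fintype.card_coe, ← Nat.totient_eq_card_coprime] at this

end Tl

theorem tlg {X : Type*} [Group X] [Finite X] (hR : Rat X) {p : ℕ} (hp : p.Prime) (h5 : 5 ≤ p) (V : Subgroup X)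
    [V.Normal] (hV : ∀ a ∈ V, ∀ b ∈ V, Commute a b) (he : ∀ a ∈ V, a ^ p = 1) (Γ : Subgroup X)
    (hΓ : ¬ p ∣ Nat.card Γ) {v : X} (hv : v ∈ V) (hv1 : v ≠ 1) (hn : ∀ g ∈ Γ, g * v * g⁻¹ ∈ zpowers v) {h : X}
    (hh : h ∈ Γ) {l : ℕ} (hl : orderOf (l : ZMod p) = p - 1) (hhv : h * v * h⁻¹ = v ^ l) (D : Subgroup X)
    (hD : ∀ a, a ∈ D ↔ a ∈ V ∧ ∀ g ∈ Γ, Commute g v → Commute g a) :
    p ^ 2 ∣ Nat.card D ∧ (11 ≤ p → p ^ 4 ∣ Nat.card D) := by
  have := Fact.mk hp
  obtain ⟨L, W, _, _, _, _, _, π, e, -, -, -, ei, er, e0, ea, en, ec⟩ := bridge V hV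
  obtain ⟨_⟩ : Nonempty (Module (ZMod p) W) := ⟨AddCommGroup.zmodModule fun w => ei (by
    rw [en, e0, he _ ((er _).2 ⟨w, rfl⟩)])⟩
  let ρ : Representation (ZMod p) X W :=
    { toFun := fun g => (DistribSMul.toAddMonoidHom W (π g)).toZModLinearMap p
      map_one' := LinearMap.ext fun x => by simp
      map_mul' := fun g g' => LinearMap.ext fun x => by simp [mul_smul] }
  have hρ : ∀ g w, e (ρ g w) = g * e w * g⁻¹ := ec
  obtain ⟨v, rfl⟩ := (er v).1 hv
  let D' : Submodule (ZMod p) W :=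
    { carrier := {w | e w ∈ D}
      add_mem' := fun {a b} ha hb => by
        show e (a + b) ∈ D
        rw [ea]; exact mul_mem ha hb
      zero_mem' := by
        show e 0 ∈ D
        rw [e0]; exact one_mem _
      smul_mem' := fun c w hw => by
        show e (c • w) ∈ D
        rw [← ZMod.natCast_zmod_val c, Nat.cast_smul_eq_nsmul, en]
        exact pow_mem hw _ }
  have hc : Nat.card D = p ^ Module.finrank (ZMod p) D' := by
    have := Module.natCard_eq_pow_finrank (K := ZMod p) (V := D')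
    rw [Nat.card_zmod] at this
    rw [← this]
    refine (Nat.card_congr (Equiv.ofBijective (fun w : D' => (⟨e w, w.2⟩ : D))
      ⟨fun a b k => Subtype.ext (ei (congrArg Subtype.val k)), fun a => ?_⟩)).symm
    obtain ⟨w, hw⟩ := (er a).1 ((hD a).1 a.2).1
    exact ⟨⟨w, show e w ∈ D from hw ▸ a.2⟩, Subtype.ext hw⟩
  have key := Tl.lin hR ρ Γ hΓ (v := v) (fun k => hv1 (by rw [k, e0])) (fun g hg => by
      obtain ⟨m, hm⟩ := mem_powers_iff_mem_zpowers.2 (hn g hg)
      exact ⟨m, ei (by rw [hρ, Nat.cast_smul_eq_nsmul, en]; exact hm.symm)⟩) hh hl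
    (ei (by rw [hρ, Nat.cast_smul_eq_nsmul, en, hhv])) D' fun a ha =>
      (hD _).2 ⟨(er _).2 ⟨a, rfl⟩, fun g hg k => mul_inv_eq_iff_eq_mul.1 (by
        rw [← hρ, ha g hg (ei (by rw [hρ, k.eq, mul_inv_cancel_right]))])⟩
  rw [hc]
  have h2 : 2 ∣ p - 1 := (hp.even_sub_one (by omega)).two_dvd
  have t1 := (Nat.totient_even (show 2 < p - 1 by omega)).two_dvd
  have t2 := Nat.totient_pos.2 (show 0 < p - 1 by omega)
  refine ⟨pow_dvd_pow _ (by omega), fun h11 => pow_dvd_pow _ ?_⟩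
  have := Tl.four_le_totient h2 (by omega)
  omega

end H42.S3
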