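import Mathlib
import Cfsg.Agent.Base
import Cfsg.Agent.Lib.S3C.Defs
import Cfsg.Agent.Lib.S3C.TL

/-! Maximal centralizers in the socle of a normal Sylow subgroup. -/

set_option autoImplicit false

namespace H42.S3

open Subgroup

universe u

variable {L : Type*} [Group L] [Finite L] {p : ℕ} {V Y U : Subgroup L}

/-- elements of `p`-power order lie in a normal Sylow subgroup -/
theorem uu_mem_sylow [Fact p.Prime] (P : Sylow p L) (hP : (P : Subgroup L).Normal) {g : L} {k : ℕ}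
    (hg : g ^ p ^ k = 1) : g ∈ (P : Subgroup L) := by
  have h1 : IsPGroup p (zpowers g) := by
    rintro ⟨_, i, rfl⟩
    refine ⟨k, Subtype.ext ?_⟩
    show (g ^ i) ^ p ^ k = 1
    rw [← zpow_natCast, ← zpow_mul, mul_comm, zpow_mul, zpow_natCast, hg, one_zpow]
  obtain ⟨Q, hQ⟩ := h1.exists_le_sylow
  obtain ⟨c, rfl⟩ := MulAction.exists_smul_eq L P Q
  have h2 : c • P = P := Sylow.smul_eq_of_normal
  rw [h2] at hQ
  exact hQ (mem_zpowers g)

theorem exists_UU (hR : Rat L) (hN : NS L) (hp : p.Prime) (h5 : 5 ≤ p) (hd : p ∣ Nat.card L) :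
    ∃ V Y U : Subgroup L, UU p V Y U := by
  classical
  haveI := Fact.mk hp
  obtain ⟨P⟩ : Nonempty (Sylow p L) := inferInstance
  haveI hPn : (P : Subgroup L).Normal := hN p hp h5 P
  let V : Subgroup L :=
    { carrier := {v | v ∈ (P : Subgroup L) ∧ (∀ g ∈ (P : Subgroup L), Commute g v) ∧ v ^ p = 1}
      one_mem' := ⟨one_mem _, fun g _ => Commute.one_right g, one_pow _⟩
      mul_mem' := fun {a b} ha hb => ⟨mul_mem ha.1 hb.1, fun g hg => (ha.2.1 g hg).mul_right (hb.2.1 g hg), by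
        rw [(hb.2.1 a ha.1).mul_pow, ha.2.2, hb.2.2, one_mul]⟩
      inv_mem' := fun {a} ha => ⟨inv_mem ha.1, fun g hg => (ha.2.1 g hg).inv_right, by
        rw [inv_pow, ha.2.2, inv_one]⟩ }
  have memV : ∀ v, v ∈ V ↔ v ∈ (P : Subgroup L) ∧ (∀ g ∈ (P : Subgroup L), Commute g v) ∧ v ^ p = 1 :=
    fun v => Iff.rfl
  haveI nV : V.Normal := ⟨fun v hv c => by
    obtain ⟨h1, h2, h3⟩ := (memV v).1 hv
    refine (memV _).2 ⟨hPn.conj_mem v h1 c, fun g hg => ?_, by rw [conj_pow, h3]; group⟩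
    have := (h2 (c⁻¹ * g * c) (by simpa using hPn.conj_mem g hg c⁻¹)).eq
    show g * (c * v * c⁻¹) = c * v * c⁻¹ * g
    calc g * (c * v * c⁻¹) = c * (c⁻¹ * g * c * v) * c⁻¹ := by group
      _ = _ := by rw [this]; group⟩
  have hex : ∃ v ∈ V, v ≠ 1 := by
    haveI : Nontrivial P := by
      rw [← Finite.one_lt_card_iff_nontrivial, P.card_eq_multiplicity]
      exact Nat.one_lt_pow ((hp.factorization_pos_of_dvd Nat.card_pos.ne' hd).ne') hp.one_lt
    haveI := P.isPGroup'.center_nontrivial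
    have hc : IsPGroup p (center P) := P.isPGroup'.to_subgroup _
    obtain ⟨k, hk⟩ := hc.exists_card_eq
    have hk0 : k ≠ 0 := by
      rintro rfl
      exact (Finite.one_lt_card (α := center P)).ne' (by simpa using hk)
    obtain ⟨z, hz⟩ := exists_prime_orderOf_dvd_card' (G := center P) p (hk ▸ dvd_pow_self p hk0)
    refine ⟨((z : P) : L), (memV _).2 ⟨(z : P).2, fun g hg => ?_, ?_⟩, fun h => ?_⟩
    · exact congrArg Subtype.val (mem_center_iff.1 z.2 ⟨g, hg⟩)
    · have := pow_orderOf_eq_one z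
      rw [hz] at this
      exact_mod_cast congrArg (fun x : center P => ((x : P) : L)) this
    · have : z = 1 := Subtype.ext (Subtype.ext h)
      rw [this, orderOf_one] at hz
      exact hp.one_lt.ne hz
  obtain ⟨u, ⟨huV, hu1⟩, hmax⟩ := Set.exists_max_image {v | v ∈ V ∧ v ≠ 1} (fun v => cz v) (Set.toFinite _) hex
  let Y := centralizer ({u} : Set L)
  let U := V ⊓ centralizer (Y : Set L)
  have memU : ∀ a : L, a ∈ U ↔ a ∈ V ∧ ∀ y ∈ Y, Commute y a := fun a => by
    simp only [U, mem_inf, mem_centralizer_iff]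
    rfl
  have hou : orderOf u = p := orderOf_eq_prime ((memV u).1 huV).2.2 hu1
  refine ⟨V, Y, U, nV, fun v hv => ((memV v).1 hv).2.2,
    fun g k hg v hv => ((memV v).1 hv).2.1 g (uu_mem_sylow P hPn hg), memU, fun a ha ha1 => ?_, ?_⟩
  · refine (eq_of_le_of_card_ge (fun y hy => mem_cz.2 (((memU a).1 ha).2 y hy)) ?_).symm
    exact hmax a ⟨((memU a).1 ha).1, ha1⟩
  · let N := normalizer (zpowers u : Set L)
    have hYN : Y ≤ N := by
      intro y hy
      refine mem_normalizer_fintype ?_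
      rintro _ ⟨i, rfl⟩
      rw [((mem_cz.1 hy).zpow_right i).eq, mul_inv_cancel_right]
      exact ⟨i, rfl⟩
    have hPY : (P : Subgroup L) ≤ Y := fun g hg => mem_cz.2 (((memV u).1 huV).2.1 g hg)
    have hPN := hPY.trans hYN
    have hi : ¬ p ∣ ((P : Subgroup L).subgroupOf N).index := fun h =>
      P.not_dvd_index (h.trans (relIndex_dvd_index_of_le hPN))
    have hco : (Nat.card ((P : Subgroup L).subgroupOf N)).Coprime ((P : Subgroup L).subgroupOf N).index := by
      rw [Nat.card_congr (subgroupOfEquivOfLe hPN).toEquiv, P.card_eq_multiplicity]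
      exact ((Nat.Prime.coprime_iff_not_dvd hp).2 hi).pow_left _
    obtain ⟨Γ, hΓ⟩ := exists_right_complement'_of_coprime hco
    have hdec : ∀ y ∈ N, ∃ x ∈ (P : Subgroup L), ∃ g ∈ Γ.map N.subtype, y = x * g := by
      intro y hy
      obtain ⟨⟨x, g⟩, hxg⟩ := hΓ.2 ⟨y, hy⟩
      exact ⟨(x : N), mem_subgroupOf.1 x.2, (g : N), mem_map_of_mem _ g.2, (congrArg Subtype.val hxg).symm⟩
    obtain ⟨l, hl, hlc⟩ := exists_prim hp
    obtain ⟨c, hc⟩ := isConj_iff.1 (hR u l (hou ▸ hlc))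
    have hcN : c ∈ N := by
      refine mem_normalizer_fintype ?_
      rintro _ ⟨i, rfl⟩
      rw [← conj_zpow, hc]
      exact zpow_mem (pow_mem (mem_zpowers u) l) i
    obtain ⟨x, hx, h, hh, rfl⟩ := hdec c hcN
    have hhu : h * u * h⁻¹ = u ^ l := by
      have h1 := ((((memV u).1 huV).2.1 x hx).pow_right l).eq
      calc h * u * h⁻¹ = x⁻¹ * (x * h * u * (x * h)⁻¹) * x := by group
        _ = x⁻¹ * (u ^ l * x) := by rw [hc]; group
        _ = u ^ l := by rw [← h1]; group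
    refine (tlg hR hp h5 V (fun a ha b hb => ((memV b).1 hb).2.1 a ((memV a).1 ha).1)
      (fun a ha => ((memV a).1 ha).2.2) (Γ.map N.subtype) ?_ huV hu1 ?_ hh hl hhu U fun a => ?_).1
    · rw [card_map_of_injective N.subtype_injective, hΓ.symm.index_eq_card.symm]
      exact hi
    · rintro _ ⟨g, _, rfl⟩
      exact (mem_normalizer_iff.1 g.2 u).1 (mem_zpowers u)
    · rw [memU]
      refine and_congr_right fun haV => ⟨fun h g _ hg => h g (mem_cz.2 hg), fun h y hy => ?_⟩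
      obtain ⟨x, hx, g, hg, rfl⟩ := hdec y (hYN hy)
      refine (((memV a).1 haV).2.1 x hx).mul_left (h g hg ?_)
      have := (((memV u).1 huV).2.1 x hx).inv_left.mul_left (mem_cz.1 hy)
      rwa [inv_mul_cancel_left] at this

theorem UU.comm (h : UU p V Y U) : ∀ a ∈ V, ∀ b ∈ V, Commute a b :=
  fun a ha b hb => h.cen a 1 (by rw [pow_one, h.expV a ha]) b hb

theorem UU.le (h : UU p V Y U) (hp : p.Prime) : U ≤ V ∧ V ≤ Y ∧ ∃ u ∈ U, u ≠ 1 := by
  have hUV : U ≤ V := fun a ha => ((h.memU a).1 ha).1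
  have hex : ∃ u ∈ U, u ≠ 1 := by
    by_contra hn
    push Not at hn
    have : U = ⊥ := (eq_bot_iff_forall U).2 hn
    have hb := h.big
    rw [this, card_bot, Nat.dvd_one] at hb
    exact (Nat.one_lt_pow two_ne_zero hp.one_lt).ne' hb
  obtain ⟨u, hu, hu1⟩ := hex
  refine ⟨hUV, fun v hv => ?_, u, hu, hu1⟩
  rw [← h.eqY u hu hu1, mem_cz]
  exact h.comm v hv u (hUV hu)

omit [Finite L] in
theorem uu_commute_conj {a b : L} (c : L) : Commute (c * a * c⁻¹) (c * b * c⁻¹) ↔ Commute a b := by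
  constructor
  · intro h
    have := h.eq
    show a * b = b * a
    calc a * b = c⁻¹ * (c * a * c⁻¹ * (c * b * c⁻¹)) * c := by group
      _ = _ := by rw [this]; group
  · intro h
    have := h.eq
    show c * a * c⁻¹ * (c * b * c⁻¹) = c * b * c⁻¹ * (c * a * c⁻¹)
    calc c * a * c⁻¹ * (c * b * c⁻¹) = c * (a * b) * c⁻¹ := by group
      _ = _ := by rw [this]; group

theorem UU.norm (h : UU p V Y U) {u c : L} (hu : u ∈ U) (hu1 : u ≠ 1) (hc : c * u * c⁻¹ ∈ U) :
    c ∈ normalizer (Y : Set L) ∧ c ∈ normalizer (U : Set L) := by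
  have hc1 : c * u * c⁻¹ ≠ 1 := fun e => hu1 (by
    calc u = c⁻¹ * (c * u * c⁻¹) * c := by group
      _ = 1 := by rw [e]; group)
  have hY : ∀ y, y ∈ Y ↔ c * y * c⁻¹ ∈ Y := fun y => by
    have e1 : y ∈ Y ↔ Commute y u := by rw [← h.eqY u hu hu1, mem_cz]
    have e2 : c * y * c⁻¹ ∈ Y ↔ Commute (c * y * c⁻¹) (c * u * c⁻¹) := by rw [← h.eqY _ hc hc1, mem_cz]
    rw [e1, e2, uu_commute_conj]
  refine ⟨mem_normalizer_iff.2 hY, mem_normalizer_fintype fun a ha => ?_⟩
  obtain ⟨haV, haY⟩ := (h.memU a).1 ha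
  refine (h.memU _).2 ⟨h.nV.conj_mem a haV c, fun y hy => ?_⟩
  have : c⁻¹ * y * c ∈ Y := (hY _).2 (by simpa [mul_assoc] using hy)
  have h2 := (uu_commute_conj c).2 (haY _ this)
  simpa [mul_assoc] using h2

theorem UU.u2 (h : UU p V Y U) (hp : p.Prime) (K : Subgroup L) {z m : L} (hz : z ∈ U) (hzK : z ∉ K)
    (hU : ∀ x ∈ U, m * x * m⁻¹ ∈ U) (hK : ∀ x ∈ U, x ∈ K → m * x * m⁻¹ ∈ K) (hm : z⁻¹ * (m * z * m⁻¹) ∈ K) :
    m ∈ Y := by
  obtain ⟨hUV, hVY, u, hu, hu1⟩ := h.le hp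
  obtain ⟨a, b, k, -, -, hab, -, ha, hb⟩ := parts m hp
  have haY : a ∈ Y := by
    rw [← h.eqY u hu hu1, mem_cz]
    exact h.cen a k ha u (hUV hu)
  have hbm : ∀ x ∈ V, b * x * b⁻¹ = m * x * m⁻¹ := fun x hx => by
    have := (h.cen a k ha _ (h.nV.conj_mem x hx b)).eq
    rw [hab]
    calc b * x * b⁻¹ = a * (b * x * b⁻¹) * a⁻¹ := by rw [this]; group
      _ = _ := by group
  letI : CommGroup V := { (inferInstance : Group V) with mul_comm := fun x y => Subtype.ext (h.comm _ x.2 _ y.2).eq }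
  haveI := h.nV
  let φ : V →* V := (MulAut.conjNormal b : MulAut V).toMonoidHom
  have hφ : ∀ x : V, ((φ x : V) : L) = b * x * b⁻¹ := fun x => rfl
  let z₀ : V := ⟨z, hUV hz⟩
  let g : ℕ → V := fun i => φ^[i] z₀
  have hg0 : g 0 = z₀ := rfl
  have hgs : ∀ i, g (i + 1) = φ (g i) := fun i => Function.iterate_succ_apply' _ _ _
  have hgi : ∀ i, (g i : L) = b ^ i * z * (b ^ i)⁻¹ := fun i => by
    induction i with
    | zero => simp [hg0, z₀]
    | succ i ih => rw [hgs, hφ, ih, pow_succ']; group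
  have hgo : g (orderOf b) = g 0 := Subtype.ext (by rw [hgi, hgi, pow_orderOf_eq_one, pow_zero])
  have hmem : ∀ i, z₀⁻¹ * g i ∈ (U ⊓ K).subgroupOf V := fun i => by
    induction i with
    | zero => rw [hg0, inv_mul_cancel]; exact one_mem _
    | succ i ih =>
      have e : z₀⁻¹ * g (i + 1) = (z₀⁻¹ * φ z₀) * φ (z₀⁻¹ * g i) := by
        rw [hgs, map_mul, map_inv]; group
      rw [e]
      refine mul_mem (mem_subgroupOf.2 ?_) (mem_subgroupOf.2 ?_)
      · show z⁻¹ * (b * z * b⁻¹) ∈ U ⊓ K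
        rw [hbm z (hUV hz)]
        exact mem_inf.2 ⟨mul_mem (inv_mem hz) (hU z hz), hm⟩
      · rw [hφ, hbm _ (z₀⁻¹ * g i).2]
        have := mem_subgroupOf.1 ih
        exact ⟨hU _ this.1, hK _ this.1 this.2⟩
  let s : V := ∏ i ∈ Finset.range (orderOf b), g i
  have hs : φ s = s := by
    have e1 := Finset.prod_range_succ g (orderOf b)
    have e2 := Finset.prod_range_succ' g (orderOf b)
    rw [e1, hgo] at e2
    have e3 := mul_right_cancel e2
    rw [map_prod]
    simp only [← hgs]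
    exact e3.symm
  have hdec : s = z₀ ^ orderOf b * ∏ i ∈ Finset.range (orderOf b), (z₀⁻¹ * g i) := by
    rw [Finset.prod_mul_distrib, Finset.prod_const, Finset.card_range, ← mul_assoc, ← mul_pow, mul_inv_cancel,
      one_pow, one_mul]
  have hw := mem_subgroupOf.1 (prod_mem (S := (U ⊓ K).subgroupOf V) (t := Finset.range (orderOf b))
    fun i _ => hmem i)
  have hsU : (s : L) ∈ U := by
    rw [hdec]
    exact mul_mem (pow_mem hz _) hw.1
  have hs1 : (s : L) ≠ 1 := by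
    intro e
    rw [hdec] at e
    have e' : z ^ orderOf b ∈ K := by
      have := eq_inv_of_mul_eq_one_left e
      have h3 : z ^ orderOf b = ((∏ i ∈ Finset.range (orderOf b), (z₀⁻¹ * g i) : V) : L)⁻¹ := this
      rw [h3]
      exact inv_mem hw.2
    have hzo : (orderOf b).Coprime (orderOf z) :=
      Nat.Coprime.coprime_dvd_right (orderOf_dvd_of_pow_eq_one (h.expV z (hUV hz))) hb
    obtain ⟨j, hj⟩ := exists_pow_eq_self_of_coprime (x := z) hzo
    exact hzK (hj ▸ pow_mem e' j)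
  have hbY : b ∈ Y := by
    rw [← h.eqY _ hsU hs1, mem_cz]
    have := congrArg Subtype.val hs
    rw [hφ] at this
    exact mul_inv_eq_iff_eq_mul.1 this
  rw [hab]
  exact mul_mem haY hbY

end H42.S3
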