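import Mathlib
import Cfsg.Agent.Base
import Cfsg.Agent.Lib.S3C.Defs
import Cfsg.Agent.Lib.S3C.UU
import Cfsg.Agent.Lib.S3C.MOD

/-! Existence of the counting configuration. -/

set_option autoImplicit false

namespace H42.S3

open Subgroup

universe u

variable {L N : Type*} [Group L] [Finite L] [AddCommGroup N] [Finite N] [DistribMulAction L N] {r p : ℕ}

namespace Cf

omit [Finite L] [Finite N] in
theorem fix_smul {K : Subgroup L} {g : L} (hg : g ∈ normalizer (K : Set L)) {n : N} (hn : ∀ x ∈ K, x • n = n) :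
    ∀ x ∈ K, x • g • n = g • n := fun x hx => by
  have := hn _ ((mem_normalizer_iff.1 (inv_mem hg) x).1 hx)
  rw [inv_inv, mul_smul, mul_smul, inv_smul_eq_iff] at this
  exact this

omit [Finite L] [Finite N] in
theorem sum_smul {U : Subgroup L} [Fintype U] {g : L} (hg : g ∈ normalizer (U : Set L)) (n : N) :
    ∑ x : U, (x : L) • g • n = g • ∑ x : U, (x : L) • n := by
  rw [Finset.smul_sum]
  refine (Fintype.sum_equiv (U.normalizerMonoidHom ⟨g, hg⟩).toEquiv _ _ fun x => ?_).symm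
  show g • (x : L) • n = (g * x * g⁻¹) • g • n
  rw [mul_smul, inv_smul_smul, mul_smul]

omit [Finite L] in
theorem norm_of_comm {K : Subgroup L} {g : L} (h : ∀ x ∈ K, Commute g x) : g ∈ normalizer (K : Set L) :=
  centralizer_le_normalizer _ (mem_centralizer_iff.2 fun x hx => (h x hx).symm.eq)

end Cf

open Cf

theorem AS.exists_cfg (h : AS L N r p) :
    ∃ (V Y U κ B : Subgroup L) (z u : L) (D : AddSubgroup N), Cfg r p V Y U κ B z u D := by
  classical
  have := Fact.mk h.hr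
  have := Fact.mk h.hp
  obtain ⟨V, Y, U, uu⟩ := exists_UU h.rat h.ns h.hp h.five h.dvd
  obtain ⟨UV, VY, z, hz, z1⟩ := uu.le h.hp
  obtain ⟨n0, h0⟩ : ∃ n : N, z • n ≠ n := by
    by_contra k
    exact z1 (h.faith z fun n => by_contra fun e => k ⟨n, e⟩)
  have cU : ∀ a ∈ U, ∀ b ∈ U, Commute a b := fun a ha b hb => uu.comm a (UV ha) b (UV hb)
  obtain ⟨n1, h1, i1⟩ := hy h.hp h.inj U cU (fun a ha => uu.expV a (UV ha)) hz h0
  set κ := U ⊓ MulAction.stabilizer L n1 with hκ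
  have idx : κ.relIndex U = p := by rw [hκ, inf_relIndex_left, i1]
  obtain ⟨u, uκ, u1⟩ : ∃ u ∈ κ, u ≠ 1 := by
    by_contra k
    have : κ = ⊥ := (eq_bot_iff_forall _).2 fun x hx => by_contra fun e => k ⟨x, hx, e⟩
    rw [this, relIndex_bot_left] at idx
    have b := uu.big
    rw [idx, pow_two] at b
    exact h.hp.one_lt.ne' (Nat.dvd_one.1 (Nat.dvd_of_mul_dvd_mul_left h.hp.pos (by rwa [mul_one])))
  have := Fintype.ofFinite U
  let N' : AddSubgroup N :=
    { carrier := {n | (∀ x ∈ κ, x • n = n) ∧ ∑ x : U, (x : L) • n = 0}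
      add_mem' := fun {a b} ha hb => ⟨fun x hx => by rw [smul_add, ha.1 x hx, hb.1 x hx], by
        simp only [smul_add, Finset.sum_add_distrib, ha.2, hb.2, add_zero]⟩
      zero_mem' := ⟨fun x _ => smul_zero x, by simp⟩
      neg_mem' := fun {a} ha => ⟨fun x hx => by rw [smul_neg, ha.1 x hx], by
        simp only [smul_neg, Finset.sum_neg_distrib, ha.2, neg_zero]⟩ }
  have pres : ∀ g : L, g ∈ normalizer (U : Set L) → g ∈ normalizer (κ : Set L) → ∀ n ∈ N', g • n ∈ N' :=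
    fun g g1 g2 n hn => ⟨fix_smul g2 hn.1, by rw [sum_smul g1, hn.2, smul_zero]⟩
  have presY : ∀ y ∈ Y, ∀ n ∈ N', y • n ∈ N' := fun y hy =>
    pres y (norm_of_comm fun x hx => ((uu.memU x).1 hx).2 y hy)
      (norm_of_comm fun x hx => ((uu.memU x).1 hx.1).2 y hy)
  have hm : z • n1 - n1 ∈ N' := by
    refine ⟨fun x hx => ?_, ?_⟩
    · rw [smul_sub, fix_smul (K := κ) (norm_of_comm fun x hx => cU z hz x hx.1) (fun x hx => hx.2) x hx,
        show x • n1 = n1 from hx.2]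
    · simp only [smul_sub, Finset.sum_sub_distrib, sub_eq_zero]
      exact Fintype.sum_equiv (Equiv.mulRight ⟨z, hz⟩) _ _ fun x => (mul_smul _ _ _).symm
  have stU : ∀ n ∈ N', n ≠ 0 → ∀ x ∈ U, x • n = n ↔ x ∈ κ := fun n hn n0 x hx => by
    refine ⟨fun e => ?_, hn.1 x⟩
    have le : κ ≤ U ⊓ MulAction.stabilizer L n := fun y hy => ⟨hy.1, hn.1 y hy⟩
    have mu := relIndex_mul_relIndex κ _ U le inf_le_left
    rw [idx] at mu
    rcases (Nat.dvd_prime h.hp).1 (Dvd.intro_left _ mu) with k | k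
    · exfalso
      have k' := relIndex_eq_one.1 k
      have s := hn.2
      rw [Finset.sum_congr rfl fun (x : U) _ => show (x : L) • n = n from (k' x.2).2, Finset.sum_const,
        Finset.card_univ, ← Nat.card_eq_fintype_card] at s
      obtain ⟨j, hj⟩ := IsPGroup.iff_card.1 (show IsPGroup p U from fun x =>
        ⟨1, Subtype.ext (by simpa using uu.expV x (UV x.2))⟩)
      rw [hj] at s
      clear hj
      induction j with
      | zero => exact n0 (by simpa using s)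
      | succ j ih => exact ih (h.inj _ (by rwa [pow_succ', mul_smul] at s))
    · rw [k] at mu
      exact relIndex_eq_one.1 (Nat.eq_of_mul_eq_mul_right h.hp.pos (mu.trans (one_mul p).symm)) ⟨hx, e⟩
  obtain ⟨T⟩ : Nonempty (Sylow r Y) := inferInstance
  let X : SubMulAction (T : Subgroup Y) N := ⟨N', fun t n hn => presY _ t.1.2 n hn⟩
  obtain ⟨n2, f2, ne2⟩ := T.isPGroup'.exists_fixed_point_of_prime_dvd_card_of_fixed_point X
    (a := ⟨0, N'.zero_mem⟩) (by
      have := addOrderOf_dvd_natCard (⟨_, hm⟩ : N')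
      rwa [addOrderOf_eq_prime (p := r) (Subtype.ext (h.expN _))
        fun e => h1 (sub_eq_zero.1 (congrArg Subtype.val e))] at this)
    fun t => Subtype.ext (smul_zero _)
  obtain ⟨B, le, ⟨n3, m3, ne3, hB⟩, mx⟩ := Finite.exists_le_maximal
    (p := fun B : Subgroup L => ∃ n ∈ N', n ≠ 0 ∧ B = Y ⊓ MulAction.stabilizer L n)
    ⟨n2.1, n2.2, fun e => ne2 (Subtype.ext e.symm), rfl⟩
  let D : AddSubgroup N :=
    { carrier := {n | n ∈ N' ∧ ∀ b ∈ B, b • n = n}
      add_mem' := fun {a b} ha hb => ⟨add_mem ha.1 hb.1, fun x hx => by rw [smul_add, ha.2 x hx, hb.2 x hx]⟩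
      zero_mem' := ⟨zero_mem _, fun x _ => smul_zero x⟩
      neg_mem' := fun {a} ha => ⟨neg_mem ha.1, fun x hx => by rw [smul_neg, ha.2 x hx]⟩ }
  have BY : B ≤ Y := hB ▸ inf_le_left
  refine ⟨V, Y, U, κ, B, z, u, D, uu, inf_le_left, idx, hz, fun k => h1 k.2, uκ, u1, BY, fun e => ne3 ?_,
    fun n hn => stU n hn.1, fun n hn n0 y hy => ⟨fun e => ?_, hn.2 y⟩,
    fun g g1 g2 g3 n hn => ⟨pres g g1 g2 n hn.1, fix_smul g3 hn.2⟩, ?_⟩
  · exact AddSubgroup.mem_bot.1 (e ▸ (⟨m3, fun b hb => (hB ▸ hb).2⟩ : n3 ∈ D))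
  · exact mx ⟨n, hn.1, n0, rfl⟩ (fun b hb => ⟨BY hb, hn.2 b hb⟩) ⟨hy, e⟩
  · rintro rfl k
    refine T.not_dvd_index (k.trans (index_dvd_of_le fun t ht => ?_))
    exact le ⟨t.2, congrArg Subtype.val (f2 ⟨t, ht⟩)⟩

end H42.S3
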