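import Mathlib
import Cfsg.Agent.Base
import Cfsg.Agent.Lib.S3C.Defs
import Cfsg.Agent.Lib.ThreeTrans.SymHom

/-! Self-centralizing involutions. -/

set_option autoImplicit false
set_option linter.unusedSectionVars false

namespace H42.S3

open Subgroup

universe u

variable {G : Type*} [Group G] [Finite G]

namespace F2

theorem ncard_class (x : G) : {s | IsConj x s}.ncard * cz x = Nat.card G := by
  have e : {s | IsConj x s} = MulAction.orbit (ConjAct G) x := by
    ext s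
    exact (ConjAct.mem_orbit_conjAct.trans isConj_comm).symm
  rw [e, ← MulAction.index_stabilizer, cz, nat_card_centralizer_nat_card_stabilizer, index_mul_card]
  rfl

theorem cz_two {t : G} (t1 : t ≠ 1) (hc : ∀ g : G, Commute g t → g = 1 ∨ g = t) : cz t = 2 := by
  rw [cz, ← SetLike.coe_sort_coe, Nat.card_coe_set_eq, Set.ncard_eq_two]
  refine ⟨1, t, t1.symm, Set.ext fun g => ⟨fun h => hc g (mem_cz.1 h), ?_⟩⟩
  rintro (rfl | rfl)
  exacts [one_mem _, mem_cz.2 (Commute.refl _)]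

theorem eq_one_of_odd {K : Subgroup G} (hK : Odd (Nat.card K)) {a : G} (ha : a ∈ K) (h : a * a = 1) : a = 1 :=
  orderOf_eq_one_iff.1 (Nat.eq_one_of_dvd_coprimes (Nat.coprime_two_left.2 hK)
    (orderOf_dvd_of_pow_eq_one (by rw [pow_two, h])) (K.orderOf_dvd_natCard ha))

end F2

open F2

theorem fix2 {t : G} (ht : orderOf t = 2) (hc : ∀ g : G, Commute g t → g = 1 ∨ g = t) :
    ∃ K : Subgroup G, K.index = 2 ∧ Odd (Nat.card K) ∧ (∀ a ∈ K, ∀ b ∈ K, Commute a b) ∧
      ∀ g : G, g ∉ K → ∀ a ∈ K, g * a * g⁻¹ = a⁻¹ := by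
  have t1 : t ≠ 1 := by rintro rfl; simp at ht
  have tt : t * t = 1 := by rw [← pow_two, ← ht, pow_orderOf_eq_one]
  set S := {s | IsConj t s} with hS
  have tS : t ∈ S := IsConj.refl t
  have sq : ∀ s ∈ S, s * s = 1 := fun s hs => by
    obtain ⟨c, rfl⟩ := isConj_iff.1 hs
    rw [conj_mul, tt]; simp
  have inv : ∀ s ∈ S, s⁻¹ = s := fun s hs => inv_eq_of_mul_eq_one_right (sq s hs)
  have one : (1 : G) ∉ S := fun h => t1 (isConj_one_left.1 h)
  have key : ∀ s ∈ S, ∀ s' ∈ S, s * s' ∉ S := fun s hs s' hs' h => by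
    have c : s * s' = s' * s := by rw [← inv _ h, mul_inv_rev, inv s hs, inv s' hs']
    obtain ⟨g, rfl⟩ := isConj_iff.1 hs'
    rcases hc (g⁻¹ * s * g) (by
      have : g⁻¹ * s * g * t = g⁻¹ * (s * (g * t * g⁻¹)) * g := by group
      rw [Commute, SemiconjBy, this, c]; group) with e | e
    · exact one ((show s = 1 by simpa [mul_assoc] using congrArg (fun a => g * a * g⁻¹) e) ▸ hs)
    · rw [show s = g * t * g⁻¹ by rw [← e]; group, sq _ hs'] at h
      exact one h
  have cnt : Sᶜ.ncard = S.ncard := by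
    have h1 : S.ncard * cz t = Nat.card G := ncard_class t
    have h2 := Set.ncard_add_ncard_compl S
    rw [cz_two t1 hc] at h1
    omega
  have left : ∀ s ∈ S, ∀ a ∉ S, ∃ s' ∈ S, s * s' = a := fun s hs a ha => by
    have : (fun s' => s * s') '' S = Sᶜ := Set.eq_of_subset_of_ncard_le
      (by rintro _ ⟨s', hs', rfl⟩; exact key s hs s' hs')
      (by rw [Set.ncard_image_of_injective _ (mul_right_injective s), cnt])
    exact this.ge ha
  have right : ∀ s ∈ S, ∀ a ∉ S, ∃ s' ∈ S, s' * s = a := fun s hs a ha => by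
    have : (fun s' => s' * s) '' S = Sᶜ := Set.eq_of_subset_of_ncard_le
      (by rintro _ ⟨s', hs', rfl⟩; exact key s' hs' s hs)
      (by rw [Set.ncard_image_of_injective _ (mul_left_injective s), cnt])
    exact this.ge ha
  let K : Subgroup G :=
    { carrier := Sᶜ
      mul_mem' := fun {a b} ha hb => by
        obtain ⟨s, hs, rfl⟩ := right t tS a ha
        obtain ⟨s', hs', rfl⟩ := left t tS b hb
        rw [mul_assoc, ← mul_assoc t, tt, one_mul]
        exact key s hs s' hs'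
      one_mem' := one
      inv_mem' := fun {a} ha h => ha (by rwa [← inv_inv a, inv _ h]) }
  have hi : ∀ g : G, g ∉ K → ∀ a ∈ K, g * a * g⁻¹ = a⁻¹ := fun g hg a ha => by
    have hg : g ∈ S := not_not.1 hg
    obtain ⟨s, hs, rfl⟩ := left g hg a ha
    rw [← mul_assoc, sq g hg, one_mul, mul_inv_rev, inv s hs]
  have tK : t ∉ K := not_not.2 tS
  refine ⟨K, index_eq_two_iff.2 ⟨t, fun b => ?_⟩, ?_, fun a ha b hb => ?_, hi⟩
  · by_cases hb : b ∈ K
    · exact Or.inr ⟨hb, fun h => tK ((K.mul_mem_cancel_left hb).1 h)⟩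
    · exact Or.inl ⟨key b (not_not.1 hb) t tS, hb⟩
  · by_contra h
    have : Fact (Nat.Prime 2) := ⟨Nat.prime_two⟩
    obtain ⟨a, ha⟩ := exists_prime_orderOf_dvd_card' 2 (Nat.not_odd_iff_even.1 h).two_dvd
    have a2 : (a : G) * a = 1 := by rw [← pow_two, ← ha, ← coe_pow, pow_orderOf_eq_one]; rfl
    have := hi t tK a a.2
    rw [inv_eq_of_mul_eq_one_right a2, mul_inv_eq_iff_eq_mul] at this
    rcases hc a this.symm with e | e
    · rw [show a = 1 from Subtype.ext e] at ha; simp at ha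
    · exact tK (e ▸ a.2)
  · have := hi t tK _ (mul_mem ha hb)
    rw [← conj_mul, hi t tK a ha, hi t tK b hb, ← mul_inv_rev, inv_inj] at this
    exact this.symm

theorem s3_of_two (hA : AH G) (h2 : 2 < Nat.card G) {x : G} (hx : cz x = 2) :
    Nonempty (G ≃* Equiv.Perm (Fin 3)) := by
  have x1 : x ≠ 1 := by
    rintro rfl
    rw [cz, show centralizer ({1} : Set G) = ⊤ from eq_top_iff.2 fun g _ => mem_cz.2 (Commute.one_right g),
      card_top] at hx
    omega
  have ox : orderOf x = 2 := ((Nat.dvd_prime Nat.prime_two).1 (hx ▸ ord_dvd_cz x)).resolve_left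
    fun e => x1 (orderOf_eq_one_iff.1 e)
  have xx : x * x = 1 := by rw [← pow_two, ← ox, pow_orderOf_eq_one]
  have zc : zpowers x = centralizer {x} := eq_of_le_of_card_ge (by rw [zpowers_le, mem_cz])
    (by rw [Nat.card_zpowers, ox]; exact hx.le)
  have hc : ∀ g : G, Commute g x → g = 1 ∨ g = x := fun g hg => by
    classical
    have := zc.ge (mem_cz.2 hg)
    rw [mem_zpowers_iff_mem_range_orderOf, ox, Finset.mem_image] at this
    obtain ⟨i, hi, rfl⟩ := this
    rw [Finset.mem_range] at hi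
    interval_cases i <;> simp
  obtain ⟨K, k1, k2, k3, k4⟩ := fix2 ox hc
  have xK : x ∉ K := fun h => x1 (eq_one_of_odd k2 h xx)
  have cK := K.card_mul_index
  rw [k1] at cK
  have ck : ∀ k ∈ K, k ≠ 1 → cz k = Nat.card K := fun k hk k1 => by
    rw [cz]
    congr 2
    ext g
    rw [mem_cz]
    refine ⟨fun h => by_contra fun hg => k1 (eq_one_of_odd k2 hk ?_), fun h => k3 g h k hk⟩
    have := k4 g hg k hk
    rw [h.eq, mul_inv_cancel_right] at this
    exact mul_eq_one_iff_eq_inv.2 this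
  obtain ⟨k, hk, k0⟩ : ∃ k ∈ K, k ≠ 1 := by
    by_contra! h
    rw [(eq_bot_iff_forall K).2 h, card_bot] at cK
    omega
  have sub : (K : Set G) ⊆ {1, k, k⁻¹} := fun a ha => by
    by_cases a1 : a = 1
    · exact Or.inl a1
    obtain ⟨g, rfl⟩ := isConj_iff.1 (hA k a ((ck k hk k0).trans (ck a ha a1).symm))
    by_cases hg : g ∈ K
    · exact Or.inr (Or.inl (by rw [(k3 g hg k hk).eq, mul_inv_cancel_right]))
    · exact Or.inr (Or.inr (k4 g hg k hk))
  have c3 : Nat.card K ≤ 3 := (Set.ncard_le_ncard sub).trans (Set.ncard_insert_le _ _ |>.trans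
    (Nat.succ_le_succ (Set.ncard_insert_le _ _ |>.trans (by simp))))
  have c4 : Nat.card K = 3 := by
    obtain ⟨j, hj⟩ := k2
    omega
  have k5 : k ^ 3 = 1 := orderOf_dvd_iff_pow_eq_one.1 (c4 ▸ K.orderOf_dvd_natCard hk)
  have hi := k4 x xK k hk
  have hti : x⁻¹ = x := inv_eq_of_mul_eq_one_right xx
  have h1 : x * k = k⁻¹ * x := by rw [← hi]; group
  have h3 : k⁻¹ * k⁻¹ = k := by
    rw [← mul_inv_rev, inv_eq_iff_mul_eq_one, ← k5, pow_succ, pow_two]
  obtain ⟨φ, e1, e2⟩ := H94.exists_hom_perm3 (a := x) (b := x * k) xx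
    (by calc x * k * (x * k) = x * k * x⁻¹ * k := by rw [hti]; group
        _ = 1 := by rw [hi]; group)
    (by calc x * (x * k) * x = (x * x) * k * x := by group
        _ = k⁻¹ * k⁻¹ * x := by rw [xx, h3, one_mul]
        _ = k⁻¹ * (x * k) := by rw [h1, mul_assoc]
        _ = x * k * x⁻¹ * (x * k) := by rw [hi]
        _ = x * k * x * (x * k) := by rw [hti])
  have hinj := H94.perm3_injective φ (by rw [e1, e2]; simpa using k0)
  have hb : Function.Bijective φ := by
    refine (Nat.bijective_iff_injective_and_card φ).mpr ⟨hinj, ?_⟩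
    rw [Nat.card_perm, ← cK, c4]; simp [Nat.factorial]
  exact ⟨(MulEquiv.ofBijective φ hb).symm⟩

theorem exists_CY (hR : Rat G) {y t : G} (h : Six y t) : ∃ O : Subgroup G, CY y t O := by
  have y3 : y ^ 3 = 1 := by rw [← h.oy, pow_orderOf_eq_one]
  have tt : t * t = 1 := by rw [← pow_two, ← h.ot, pow_orderOf_eq_one]
  have z3 : ∀ a ∈ zpowers y, a ^ 3 = 1 := by
    rintro _ ⟨i, rfl⟩
    rw [← zpow_natCast, ← zpow_mul, mul_comm, zpow_mul, zpow_natCast, y3, one_zpow]
  have z2 : ∀ a ∈ zpowers y, a * a = 1 → a = 1 := fun a ha e => by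
    rw [← z3 a ha, pow_succ, pow_two, e, one_mul]
  set C := centralizer ({y} : Set G) with hC
  have nY : ((zpowers y).subgroupOf C).Normal := ⟨fun a ha g => by
    obtain ⟨i, hi⟩ := mem_subgroupOf.1 ha
    have : Commute (g : G) a := hi ▸ (mem_cz.1 g.2).zpow_right i
    rw [mem_subgroupOf, coe_mul, coe_mul, this.eq, coe_inv, mul_inv_cancel_right]
    exact ha⟩
  let π := QuotientGroup.mk' ((zpowers y).subgroupOf C)
  have π1 : ∀ a : C, π a = 1 ↔ (a : G) ∈ zpowers y := fun a => QuotientGroup.eq_one_iff a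
  let t' : C := ⟨t, mem_cz.2 h.comm⟩
  let y' : C := ⟨y, mem_cz.2 (Commute.refl y)⟩
  have t2 : t' * t' = 1 := Subtype.ext tt
  have πy : π y' = 1 := (π1 _).2 (mem_zpowers y)
  have t1 : π t' ≠ 1 := fun e => by
    have := h.ot
    rw [z2 t ((π1 _).1 e) tt] at this
    simp at this
  have πt : π t' * π t' = 1 := by rw [← map_mul, t2, map_one]
  obtain ⟨K, k1, k2, k3, k4⟩ := fix2 (t := π t') (orderOf_eq_prime (by rw [pow_two, πt]) t1) fun g hg => by
    obtain ⟨g, rfl⟩ : ∃ a, π a = g := QuotientGroup.mk'_surjective _ g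
    have m : t⁻¹ * (g * t * (g : G)⁻¹) ∈ zpowers y := (π1 (t'⁻¹ * (g * t' * g⁻¹))).1 (by
      rw [map_mul, map_mul, map_mul, map_inv, map_inv, hg.eq]; group)
    have c : Commute t (t⁻¹ * (g * t * (g : G)⁻¹)) := by
      obtain ⟨i, hi⟩ := m
      exact hi ▸ h.comm.zpow_right i
    have e := z2 _ m (by
      have := c.mul_pow 2
      rwa [mul_inv_cancel_left, conj_pow, pow_two, tt, mul_one, mul_inv_cancel, one_mul, pow_two,
        eq_comm] at this)
    obtain ⟨i, hi⟩ := h.cen g (mul_inv_eq_iff_eq_mul.1 (inv_mul_eq_one.1 e).symm) (mem_cz.1 g.2)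
    have e2 : π g = π t' ^ i := by
      rw [show g = (t' * y') ^ i from Subtype.ext (by simpa using hi.symm), map_zpow, map_mul, πy, mul_one]
    rcases Int.even_or_odd' i with ⟨j, rfl | rfl⟩
    · left; rw [e2, zpow_mul, zpow_two, πt, one_zpow]
    · right; rw [e2, zpow_add_one, zpow_mul, zpow_two, πt, one_zpow, one_mul]
  have tK : π t' ∉ K := fun m => t1 (eq_one_of_odd k2 m πt)
  have mO : ∀ g : C, (g : G) ∈ (K.comap π).map C.subtype ↔ π g ∈ K := fun g =>
    ⟨fun ⟨a, ha, e⟩ => Subtype.ext e ▸ ha, fun hg => ⟨g, hg, rfl⟩⟩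
  have OC : (K.comap π).map C.subtype ≤ C := map_subtype_le _
  have tC : ∀ g, g * t ∈ (K.comap π).map C.subtype → g ∈ C := fun g hg => (C.mul_mem_cancel_right t'.2).1 (OC hg)
  have alt : ∀ g : C, π (g * t') ∈ K ↔ π g ∉ K := fun g => by
    rw [map_mul, mul_mem_iff_of_index_two k1]
    simp [tK]
  refine ⟨(K.comap π).map C.subtype, ?_, (mO y').2 (πy ▸ K.one_mem), fun g => ⟨fun hg => ?_, fun hg => ?_⟩,
    fun g hg a ha => ?_, ?_⟩
  · have : Fact (Nat.Prime 3) := ⟨by decide⟩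
    refine IsPGroup.iff_card.2 ⟨_, Nat.eq_prime_pow_of_unique_prime_dvd Nat.card_pos.ne' fun {q} hq hd => ?_⟩
    have := Fact.mk hq
    obtain ⟨⟨_, x, hx, rfl⟩, ox⟩ := exists_prime_orderOf_dvd_card' q hd
    rw [← Subgroup.orderOf_coe] at ox
    change orderOf (x : G) = q at ox
    have fin : π x ^ 3 = 1 → q = 3 := fun e => by
      have : ((x : G) ^ 3) ^ 3 = 1 := z3 _ ((π1 (x ^ 3)).1 (by rw [map_pow, e]))
      rw [← pow_mul] at this
      have h9 : q ∣ 3 ^ 2 := ox ▸ orderOf_dvd_of_pow_eq_one this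
      exact (Nat.prime_dvd_prime_iff_eq hq (by decide)).1 (hq.dvd_of_dvd_pow h9)
    by_cases q2 : q = 2
    · refine fin ?_
      rw [eq_one_of_odd k2 hx (by
        rw [← map_mul, show x * x = 1 from Subtype.ext (by
          rw [coe_mul, ← pow_two, ← q2, ← ox, pow_orderOf_eq_one]; rfl), map_one]), one_pow]
    by_contra q3
    obtain ⟨c, c1, c2⟩ := hR.two (x := x) (y := y) (mem_cz.1 x.2) (j := 2) (k := 1)
      (by rw [ox, h.oy]; exact (Nat.coprime_primes hq (by decide)).2 q3)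
      (by rw [ox]; exact (Nat.coprime_primes (by decide) hq).2 (Ne.symm q2)) (Nat.coprime_one_left _)
    rw [pow_one, mul_inv_eq_iff_eq_mul] at c2
    have e : π ⟨c, mem_cz.2 c2⟩ * π x * (π ⟨c, mem_cz.2 c2⟩)⁻¹ = π x ^ 2 := by
      rw [← map_inv, ← map_mul, ← map_mul, ← map_pow]
      exact congrArg π (Subtype.ext c1)
    refine q3 (fin ?_)
    by_cases m : π ⟨c, mem_cz.2 c2⟩ ∈ K
    · rw [(k3 _ m _ hx).eq, mul_inv_cancel_right, pow_two, left_eq_mul] at e
      rw [e, one_pow]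
    · rw [pow_succ, ← e, k4 _ m _ hx, inv_mul_cancel]
  · by_cases m : π ⟨g, mem_cz.2 hg⟩ ∈ K
    · exact Or.inl ((mO ⟨g, mem_cz.2 hg⟩).2 m)
    · exact Or.inr ((mO (⟨g, mem_cz.2 hg⟩ * t')).2 ((alt _).2 m))
  · exact mem_cz.1 (hg.elim (fun k => OC k) (tC g))
  · obtain ⟨a, ha, rfl⟩ := ha
    refine (π1 (⟨g, tC g hg⟩ * a * ⟨g, tC g hg⟩⁻¹ * a)).1 ?_
    rw [map_mul, map_mul, map_mul, map_inv, k4 _ ((alt _).1 ((mO (⟨g, tC g hg⟩ * t')).1 hg)) _ ha, inv_mul_cancel]
  · rw [card_map_of_injective (subtype_injective _), cz, ← (K.comap π).card_mul_index,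
      index_comap_of_surjective _ (QuotientGroup.mk'_surjective _), k1, mul_comm]

end H42.S3
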