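import Mathlib
import Cfsg.Agent.Base
import Cfsg.Agent.Lib.S3C.Defs

/-! Quadratic elements of order three in characteristic five. -/

set_option autoImplicit false

namespace H42.S3

open Subgroup

universe u

variable {H W : Type*} [Group H] [Finite H] [AddCommGroup W] [DistribMulAction H W]

omit [Finite H] in
theorem Qd.conj {g : H} (h : Qd W g) (c : H) : Qd W (c * g * c⁻¹) := fun w => by
  have := congrArg (c • ·) (h (c⁻¹ • w))
  simpa [smul_add, mul_smul] using this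

omit [Finite H] in
theorem Qd.inv {g : H} (h : Qd W g) : Qd W g⁻¹ := fun w => by
  have := h (g⁻¹ • g⁻¹ • w)
  simp only [smul_inv_smul] at this
  rw [← this]; abel

omit [Finite H] in
theorem Qd.inv_smul {g : H} (h : Qd W g) (w : W) : g⁻¹ • w = -w - g • w := by
  have := h (g⁻¹ • w)
  simp only [smul_inv_smul] at this
  rw [← sub_eq_zero, ← this]; abel

omit [Finite H] in
theorem M5.eq_zero (hM : M5 H W) {g : H} (h : Qd W g) {w : W} (hw : g • w = w) : w = 0 := by
  have h1 := h w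
  rw [hw, hw] at h1
  have h2 := hM.five w
  calc w = 2 • (w + w + w) - 5 • w := by abel
    _ = 0 := by rw [h1, h2]; simp

omit [Finite H] in
theorem M5.ne_one (hM : M5 H W) {g : H} (h : Qd W g) : g ≠ 1 := by
  rintro rfl
  obtain ⟨w, hw⟩ := hM.nt
  exact hw (hM.eq_zero h (one_smul _ _))

theorem M5.ord (hM : M5 H W) {g : H} (h : Qd W g) : orderOf g = 3 := by
  haveI : Fact (Nat.Prime 3) := ⟨Nat.prime_three⟩
  refine orderOf_eq_prime (hM.faith _ fun w => ?_) (hM.ne_one h)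
  have h1 := h (g • w)
  have h2 := h w
  rw [pow_three, mul_smul, mul_smul, ← sub_eq_zero, ← sub_self (0 : W)]
  nth_rewrite 1 [← h1]
  rw [← h2]; abel

theorem M5.l1 (hM : M5 H W) {g : H} (h : Qd W g) (A : Subgroup H) (hA : ∀ a ∈ A, ∀ b ∈ A, Commute a b)
    (hg : ∀ a ∈ A, g * a * g⁻¹ ∈ A) : ∀ a ∈ A, Commute g a := by
  intro b hb
  have hg' : ∀ a ∈ A, g⁻¹ * a * g ∈ A := fun a ha => by
    have h3 : g⁻¹ = g * g := by
      rw [inv_eq_iff_mul_eq_one, ← pow_three, ← hM.ord h, pow_orderOf_eq_one]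
    have := hg _ (hg a ha)
    rwa [show g * (g * a * g⁻¹) * g⁻¹ = (g * g) * a * (g * g)⁻¹ by group, ← h3, inv_inv] at this
  let ρ := DistribMulAction.toAddMonoidEnd H W
  have hQ : ∀ x : H, Qd W x → ρ x⁻¹ = -1 - ρ x := fun x hx => AddMonoidHom.ext fun w => hx.inv_smul w
  have hc : ∀ a ∈ A, ∀ a' ∈ A, Commute (ρ a) (ρ a') := fun a ha a' ha' => (hA a ha a' ha').map ρ
  obtain ⟨c, hcd⟩ : ∃ c, c = g⁻¹ * b * g * b⁻¹ := ⟨_, rfl⟩
  have hcA : c ∈ A := hcd ▸ A.mul_mem (hg' b hb) (A.inv_mem hb)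
  obtain ⟨d, hdd⟩ : ∃ d, d = g⁻¹ * c⁻¹ * g := ⟨_, rfl⟩
  have hdA : d ∈ A := hdd ▸ hg' _ (A.inv_mem hcA)
  have e0 : ρ c⁻¹ * ρ g = ρ g * ρ d := by rw [← map_mul, ← map_mul, hdd]; congr 1; group
  have e1 : ρ g * (ρ c - ρ d) = ρ c⁻¹ - 1 := by
    have h1 := hQ _ (h.conj b)
    rw [show b * g * b⁻¹ = g * c by rw [hcd]; group, mul_inv_rev, map_mul, map_mul, hQ g h, mul_sub, e0] at h1
    rw [mul_sub, ← sub_eq_zero, ← sub_eq_zero.2 h1]
    noncomm_ring
  have e2 : ρ b * ρ g = ρ g * (ρ c * ρ b) := by rw [← map_mul, ← map_mul, ← map_mul, hcd]; congr 1; group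
  have e3 : (ρ c⁻¹ - 1) * ρ b = (ρ c⁻¹ - 1) * ρ c * ρ b := by
    have k1 : Commute (ρ c⁻¹ - 1) (ρ b) := (hc _ (A.inv_mem hcA) _ hb).sub_left (Commute.one_left _)
    have k2 : Commute (ρ c * ρ b) (ρ c - ρ d) :=
      ((hc _ hcA _ hcA).sub_right (hc _ hcA _ hdA)).mul_left ((hc _ hb _ hcA).sub_right (hc _ hb _ hdA))
    rw [k1.eq, ← e1, ← mul_assoc, e2, mul_assoc, k2.eq, mul_assoc, mul_assoc]
  have e4 : ρ c⁻¹ - 1 = (ρ c⁻¹ - 1) * ρ c := by
    have := congrArg (· * ρ b⁻¹) e3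
    simpa only [mul_assoc, ← map_mul, mul_inv_cancel, map_one, mul_one] using this
  have e5 : (ρ c - 1) * (ρ c - 1) = 0 := by
    have k := congrArg (ρ c * ·) e4
    have k1 : ρ c * ρ c⁻¹ = 1 := by rw [← map_mul, mul_inv_cancel, map_one]
    simp only [← mul_assoc, mul_sub, k1, mul_one] at k
    rw [← sub_eq_zero.2 k]
    noncomm_ring
  have e6 : ∀ n : ℕ, ρ c ^ n = 1 + n • (ρ c - 1) := fun n => by
    induction n with
    | zero => simp
    | succ n ih =>
      calc ρ c ^ (n + 1) = (1 + n • (ρ c - 1)) * (1 + (ρ c - 1)) := by rw [pow_succ, ih, add_sub_cancel]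
        _ = 1 + (n + 1) • (ρ c - 1) + n • ((ρ c - 1) * (ρ c - 1)) := by
          rw [add_mul, one_mul, mul_add, mul_one, smul_mul_assoc, succ_nsmul]; abel
        _ = _ := by rw [e5, nsmul_zero, add_zero]
  have e7 : c ^ 5 = 1 := hM.faith _ fun w => by
    have k : ρ (c ^ 5) w = w := by
      rw [map_pow, e6]
      show w + 5 • (ρ c - 1) w = w
      rw [hM.five, add_zero]
    exact k
  have e8 : c = 1 := by
    refine orderOf_eq_one_iff.1 (Nat.eq_one_of_dvd_coprimes ((Nat.Prime.coprime_iff_not_dvd Nat.prime_five).2 hM.cop)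
      (orderOf_dvd_of_pow_eq_one e7) (orderOf_dvd_natCard c))
  rw [hcd] at e8
  show g * b = b * g
  calc g * b = g * (g⁻¹ * b * g * b⁻¹) * b := by rw [e8, mul_one]
    _ = b * g := by group

omit [Finite H] in
theorem Qd.key {a b : H} (ha : Qd W a) (hb : Qd W b) (hab : Commute a b) (w : W) :
    a • (b • w - a⁻¹ • w) = b • (b • w - a⁻¹ • w) := by
  have h1 := hb w
  rw [smul_sub, smul_sub, smul_inv_smul, ha.inv_smul, smul_sub, smul_neg, ← mul_smul b a, ← hab.eq, mul_smul,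
    ← sub_eq_zero, ← neg_zero, ← h1]
  abel

theorem M5.qq (hM : M5 H W) {a b : H} (ha : Qd W a) (hb : Qd W b) (hab : Commute a b) (h : Qd W (a * b)) :
    a = b := by
  have k : a⁻¹ * b = 1 := hM.faith _ fun w => by
    have h1 := ha.inv.key hb hab.inv_left w
    rw [inv_inv] at h1
    have h2 : (a * b) • (b • w - a • w) = b • w - a • w := by rw [mul_smul, ← h1, smul_inv_smul]
    rw [mul_smul, sub_eq_zero.1 (hM.eq_zero h h2), inv_smul_smul]
  exact inv_mul_eq_one.1 k

theorem M5.ex_fix (hM : M5 H W) {a b : H} (ha : Qd W a) (hb : Qd W b) (hab : Commute a b) (h : a * b ≠ 1) :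
    ∃ v : W, v ≠ 0 ∧ a • v = b • v := by
  by_contra hn
  push Not at hn
  refine h (hM.faith _ fun w => ?_)
  have : b • w - a⁻¹ • w = 0 := by
    by_contra h0
    exact hn _ h0 (ha.key hb hab w)
  rw [mul_smul, sub_eq_zero.1 this, smul_inv_smul]

omit [Finite H] in
theorem M5.two_inj (hM : M5 H W) {w : W} (h : 2 • w = 0) : w = 0 := by
  calc w = 5 • w - 2 • (2 • w) := by abel
    _ = 0 := by rw [hM.five, h]; simp

theorem M5.eight (hM : M5 H W) : 8 ∣ Nat.card H := by
  obtain ⟨w, hw⟩ := hM.nt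
  obtain ⟨h, hh⟩ := hM.eig w
  have h5 := hM.five w
  have h2 : h ^ 2 • w = -w := by
    rw [pow_two, mul_smul, hh, smul_comm, hh, eq_neg_iff_add_eq_zero, ← h5]; abel
  have h4 : h ^ 4 • w = w := by rw [show 4 = 2 + 2 by rfl, pow_add, mul_smul, h2, smul_neg, h2, neg_neg]
  have hk : ∀ k : ℕ, h ^ (4 * k) • w = w := fun k => by
    rw [pow_mul]; exact (MulAction.stabilizer H w).pow_mem h4 k
  have hd : 4 ∣ orderOf h := by
    by_contra hn
    have e : h ^ (2 * (orderOf h % 4)) • w = w ∧ h ^ (orderOf h % 4) • w = w := by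
      have e1 : h ^ (orderOf h % 4) • w = w := by
        have := hk (orderOf h / 4)
        calc h ^ (orderOf h % 4) • w = h ^ (orderOf h % 4) • h ^ (4 * (orderOf h / 4)) • w := by rw [this]
          _ = w := by rw [← mul_smul, ← pow_add, Nat.mod_add_div, pow_orderOf_eq_one, one_smul]
      exact ⟨by rw [two_mul, pow_add, mul_smul, e1, e1], e1⟩
    have k : h ^ 2 • w = w := by
      have : orderOf h % 4 = 1 ∨ orderOf h % 4 = 2 ∨ orderOf h % 4 = 3 := by omega
      rcases this with t | t | t <;> rw [t] at e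
      · exact e.1
      · exact e.2
      · have := e.1
        rwa [show 2 * 3 = 2 + 4 by rfl, pow_add, mul_smul, h4] at this
    refine hw (hM.two_inj ?_)
    rw [two_nsmul]
    nth_rewrite 1 [← k]
    rw [h2, neg_add_cancel]
  have := hM.rat.mul_totient_dvd (h ^ (orderOf h / 4))
  rwa [orderOf_pow_orderOf_div (ord_ne h) hd, show 4 * Nat.totient 4 = 8 by decide] at this

theorem card_eq_class_mul {G : Type*} [Group G] [Finite G] (x : G) :
    Nat.card G = Nat.card {g : G // IsConj x g} * cz x := by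
  rw [← (centralizer ({x} : Set G)).index_mul_card]
  congr 1
  have e := MulAction.index_stabilizer (ConjAct G) x
  have e1 : (MulAction.stabilizer (ConjAct G) x).index = (centralizer ({x} : Set G)).index := by
    rw [← index_comap_of_surjective (f := (ConjAct.toConjAct (G := G)).toMonoidHom) _ ConjAct.toConjAct.surjective]
    congr 1
    ext g
    simp [mem_centralizer_singleton_iff, ConjAct.smul_def, mul_inv_eq_iff_eq_mul]
  rw [← e1, e, ← Nat.card_coe_set_eq]
  refine Nat.card_congr (Equiv.subtypeEquivRight fun g => ?_)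
  rw [ConjAct.mem_orbit_conjAct, isConj_comm]

theorem mem_zpowers_three {G : Type*} [Group G] {y g : G} (hy : orderOf y = 3) (h : g ∈ zpowers y) :
    g = 1 ∨ g = y ∨ g = y⁻¹ := by
  obtain ⟨i, rfl⟩ := h
  have h3 : y ^ (3 : ℤ) = 1 := by rw [zpow_ofNat, ← hy, pow_orderOf_eq_one]
  have e : y ^ i = y ^ (i % 3) := by
    nth_rewrite 1 [← Int.emod_add_mul_ediv i 3]
    rw [zpow_add, zpow_mul, h3, one_zpow, mul_one]
  have : i % 3 = 0 ∨ i % 3 = 1 ∨ i % 3 = 2 := by omega
  show y ^ i = 1 ∨ y ^ i = y ∨ y ^ i = y⁻¹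
  rcases this with t | t | t <;> rw [e, t]
  · simp
  · simp
  · refine Or.inr (Or.inr (eq_inv_of_mul_eq_one_left ?_))
    rw [← h3, ← zpow_add_one]; rfl

theorem M5.class_le (hM : M5 H W) {y : H} (h : Qd W y) (hn : ∀ c : H, c * y * c⁻¹ ∈ zpowers y) :
    Nat.card {g : H // IsConj y g} ≤ 2 := by
  classical
  have : {g : H | IsConj y g} ⊆ ({y, y⁻¹} : Set H) := by
    intro g hg
    obtain ⟨c, rfl⟩ := isConj_iff.1 hg
    rcases mem_zpowers_three (hM.ord h) (hn c) with t | t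
    · exact absurd t (hM.ne_one (h.conj c))
    · exact t
  exact (Set.ncard_le_ncard this).trans ((Set.ncard_insert_le _ _).trans (by simp))

theorem M5.not_normal (hM : M5 H W) {y : H} (h : Qd W y) {k : ℕ} (hk : cz y = 2 * 3 ^ k) :
    ∃ c : H, c * y * c⁻¹ ∉ zpowers y := by
  by_contra hn
  push Not at hn
  have h1 := hM.class_le h hn
  have h2 := hM.eight
  rw [card_eq_class_mul y, hk] at h2
  have h3 : 0 < Nat.card {g : H // IsConj y g} := Nat.card_pos_iff.2 ⟨⟨⟨y, IsConj.refl y⟩⟩, inferInstance⟩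
  have h4 : 8 ∣ Nat.card {g : H // IsConj y g} * 2 := by
    rw [← mul_assoc] at h2
    exact (Nat.Coprime.pow_right k (by norm_num)).dvd_of_dvd_mul_right h2
  omega

theorem exists_abelian_normal {G : Type*} [Group G] (hs : Group.IsSolvable G) (N : Subgroup G) [N.Normal]
    (hN : N ≠ ⊥) : ∃ A : Subgroup G, A.Normal ∧ A ≠ ⊥ ∧ A ≤ N ∧ ∀ a ∈ A, ∀ b ∈ A, Commute a b := by
  classical
  have hex : ∃ n, N ⊓ derivedSeries G n = ⊥ := by
    obtain ⟨n, hn⟩ := hs
    exact ⟨n, by rw [hn, inf_bot_eq]⟩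
  have h0 : Nat.find hex ≠ 0 := fun h => hN (by simpa [h] using Nat.find_spec hex)
  obtain ⟨m, hm⟩ := Nat.exists_eq_succ_of_ne_zero h0
  refine ⟨N ⊓ derivedSeries G m, inferInstance, Nat.find_min hex (by omega), inf_le_left, fun a ha b hb => ?_⟩
  have h1 := Nat.find_spec hex
  rw [hm] at h1
  rw [← commutatorElement_eq_one_iff_commute, ← mem_bot, ← h1]
  exact ⟨N.mul_mem (N.mul_mem ha.1 ((inferInstance : N.Normal).conj_mem _ (N.inv_mem ha.1) b |> fun h => by
    simpa [mul_assoc] using h)) (N.one_mem) |> fun h => by simpa [commutatorElement_def, mul_assoc] using h,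
    commutator_mem_commutator ha.2 hb.2⟩

theorem M5.not_three (hM : M5 H W) {y : H} (h : Qd W y) : cz y ≠ 3 := by
  intro h3
  have : Nontrivial H := ⟨y, 1, hM.ne_one h⟩
  obtain ⟨A, hA, h0, -, hc⟩ := exists_abelian_normal hM.solv ⊤ top_ne_bot
  have h1 : A ≤ centralizer {y} := fun a ha => mem_cz.2 (hM.l1 h A hc (fun a ha => hA.conj_mem a ha y) a ha).symm
  have h2 : Nat.card A = 3 := by
    have := card_dvd_of_le h1
    rw [show Nat.card (centralizer ({y} : Set H)) = 3 from h3] at this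
    exact ((Nat.dvd_prime Nat.prime_three).1 this).resolve_left fun h => h0 (card_eq_one.1 h)
  have e1 : A = centralizer {y} := eq_of_le_of_card_ge h1 (by rw [h2]; exact h3.le)
  have e2 : zpowers y = centralizer {y} :=
    eq_of_le_of_card_ge (by rw [zpowers_le, mem_cz]) (by rw [Nat.card_zpowers, hM.ord h]; exact h3.le)
  have h4 := hM.class_le h fun c => by
    rw [e2, ← e1]; exact hA.conj_mem _ (by rw [e1, mem_cz]) c
  have h5 := Nat.le_of_dvd Nat.card_pos hM.eight
  rw [card_eq_class_mul y, h3] at h5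
  omega

end H42.S3
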