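import Mathlib
import Cfsg.Agent.Base
import Cfsg.Agent.Lib.S3C.Defs
import Cfsg.Agent.Lib.S3C.Q0

/-! The case of a normal two-subgroup. -/

set_option autoImplicit false

namespace H42.S3

open Subgroup

universe u

namespace L6A

/-- The facts on `y`, `t` and the quotient map by `⟨t⟩` that are used. -/
structure Cx {H Q : Type*} [Group H] [Group Q] (π : H →* Q) (y t : H) : Prop where
  ker : ∀ x, π x = 1 ↔ x = 1 ∨ x = t
  ht : ∀ g, g * t = t * g
  tt : t * t = 1
  t1 : t ≠ 1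
  y3 : y * y * y = 1
  k3 : ∀ u, Commute u (y * u * y⁻¹) → Commute y u
  cy : ∀ x, Commute y x → π x * π x = 1 → π x = 1
  k1 : ∀ A : Subgroup H, A.Normal → (∀ a ∈ A, ∀ b ∈ A, Commute a b) → ∀ a ∈ A, π a = 1

/-- Normal subgroups with abelian image. -/
def Good {H Q : Type*} [Group H] [Group Q] (π : H →* Q) (M : Subgroup H) : Prop :=
  M.Normal ∧ ∀ a ∈ M, ∀ b ∈ M, π a * π b = π b * π a

variable {H Q : Type*} [Group H] [Group Q] {π : H →* Q} {y t : H} (X : Cx π y t)
include X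

theorem Cx.eq {u v : H} (h : π u = π v) : u = v ∨ u = t * v := by
  rcases (X.ker (u * v⁻¹)).1 (by rw [map_mul, h, map_inv, mul_inv_cancel]) with e | e
  · exact .inl (mul_inv_eq_one.1 e)
  · exact .inr (mul_inv_eq_iff_eq_mul.1 e)

theorem Cx.πt : π t = 1 := (X.ker t).2 (.inr rfl)

theorem Cx.cen {z : H} (h : π z = 1) (g : H) : Commute g z := by
  rcases (X.ker z).1 h with rfl | rfl
  exacts [Commute.one_right g, X.ht g]

theorem Cx.sq {z : H} (h : π z = 1) : z * z = 1 := by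
  rcases (X.ker z).1 h with rfl | rfl
  exacts [one_mul 1, X.tt]

theorem Cx.left {a b c : H} (h : π (a * b) = 1) (hb : Commute c b) : Commute c a := by
  simpa using (X.cen h c).mul_right hb.inv_right

theorem Cx.right {a b c : H} (h : π (a * b) = 1) (ha : Commute c a) : Commute c b := by
  simpa using ha.inv_right.mul_right (X.cen h c)

theorem Cx.f3 (x : H) : y * (y * (y * x * y⁻¹) * y⁻¹) * y⁻¹ = x := by
  calc _ = (y * y * y) * x * (y * y * y)⁻¹ := by group
    _ = x := by rw [X.y3]; group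

theorem Cx.ac {u v w : H} (h1 : u * w = t * (w * u)) (h2 : v * w = t * (w * v)) : Commute (u * v) w := by
  show u * v * w = w * (u * v)
  rw [mul_assoc, h2, ← mul_assoc, X.ht, mul_assoc, ← mul_assoc u, h1, ← mul_assoc, ← mul_assoc, X.tt]
  group

theorem Cx.sym {u w : H} (h : u * w = t * (w * u)) : w * u = t * (u * w) := by
  rw [h, ← mul_assoc, X.tt, one_mul]

theorem Cx.k2 {x : H} (h : π (y * x * y⁻¹) = π x) : Commute y x := by
  refine mul_inv_eq_iff_eq_mul.1 ?_
  rcases X.eq h with e | e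
  · exact e
  have e2 : y * (y * x * y⁻¹) * y⁻¹ = x := by
    rw [e, ← mul_assoc, X.ht, mul_assoc t, mul_assoc t, e, ← mul_assoc, X.tt, one_mul]
  have := X.f3 x
  rwa [e2] at this

section
variable {M : Subgroup H} (hM : Good π M)
include hM

theorem Cx.alt {a b : H} (ha : a ∈ M) (hb : b ∈ M) : Commute a b ∨ a * b = t * (b * a) :=
  X.eq (by rw [map_mul, map_mul, hM.2 a ha b hb])

theorem Cx.g1 {a : H} (ha : a ∈ M) : π a * π a = 1 := by
  have := hM.1
  rw [← map_mul]
  refine X.k1 (M ⊓ centralizer M) inferInstance (fun u hu v hv => hv.2 u hu.1) _ ⟨mul_mem ha ha, fun b hb => ?_⟩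
  rcases X.alt hM ha hb with e | e
  · exact (e.mul_left e).eq.symm
  · exact (X.ac e e).eq.symm

theorem Cx.g2 {a : H} (ha : a ∈ M) : π (a * (y * a * y⁻¹) * (y * (y * a * y⁻¹) * y⁻¹)) = 1 := by
  have h1 := hM.1.conj_mem a ha y
  have h2 := hM.1.conj_mem _ h1 y
  refine X.cy _ (X.k2 ?_) (X.g1 hM (mul_mem (mul_mem ha h1) h2))
  rw [← conj_mul, ← conj_mul, X.f3, map_mul π _ a, ← hM.2 a ha _ (mul_mem h1 h2), ← map_mul, mul_assoc a]

theorem Cx.g3 {a : H} (ha : a ∈ M) (h : π a ≠ 1) : a * (y * a * y⁻¹) = t * (y * a * y⁻¹ * a) :=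
  (X.alt hM ha (hM.1.conj_mem a ha y)).resolve_left fun e => h (X.cy a (X.k3 a e) (X.g1 hM ha))

theorem Cx.trick {M' : Subgroup H} (hM' : Good π M') {a b : H} (ha : a ∈ M) (h : π a ≠ 1) (hb : b ∈ M')
    (h1 : Commute b a) (h2 : Commute b (y * a * y⁻¹)) : π b = 1 := by
  by_contra h'
  have cj : ∀ {u v : H}, Commute u v → Commute (y * u * y⁻¹) (y * v * y⁻¹) := fun e => e.map (MulAut.conj y)
  have h3 := cj (X.right (X.g2 hM ha) (h1.mul_right h2))
  rw [X.f3] at h3
  have h4 := cj h1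
  have ea := X.g3 hM ha h
  have eb := X.g3 hM' hb h'
  have k : Commute (a * b) (y * (a * b) * y⁻¹) := by
    rw [← conj_mul]
    generalize y * a * y⁻¹ = a' at *
    generalize y * b * y⁻¹ = b' at *
    calc a * b * (a' * b') = a * a' * (b * b') := by rw [mul_assoc, ← mul_assoc b, h2.eq]; group
      _ = t * (a' * a * t) * b' * b := by rw [ea, eb]; group
      _ = a' * (a * b') * b := by rw [X.ht, ← mul_assoc t, X.tt]; group
      _ = _ := by rw [← h3.eq]; group
  have k' : π (a * b) = 1 := X.cy _ (X.k3 _ k) (by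
    rw [← map_mul, ← pow_two, h1.symm.mul_pow, map_mul, pow_two, pow_two, map_mul, map_mul, X.g1 hM ha,
      X.g1 hM' hb, one_mul])
  rw [(X.left k' h2.symm).eq] at ea
  exact X.t1 (right_eq_mul.1 ea)

theorem Cx.k4 {b m : H} (hb : b ∈ M) (h : π b ≠ 1) (hm : m ∈ M) :
    π m = 1 ∨ π (m * b) = 1 ∨ π (m * (y * b * y⁻¹)) = 1 ∨ π (m * b * (y * b * y⁻¹)) = 1 := by
  have hb' := hM.1.conj_mem b hb y
  have e := X.g3 hM hb h
  rcases X.alt hM hm hb with e1 | e1 <;> rcases X.alt hM hm hb' with e2 | e2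
  · exact .inl (X.trick hM hM hb h hm e1 e2)
  · exact .inr (.inl (X.trick hM hM hb h (mul_mem hm hb) (e1.mul_left (Commute.refl b)) (X.ac e2 e)))
  · exact .inr (.inr (.inl (X.trick hM hM hb h (mul_mem hm hb') (X.ac e1 (X.sym e)) (e2.mul_left (Commute.refl _)))))
  · refine .inr (.inr (.inr (X.trick hM hM hb h (mul_mem (mul_mem hm hb) hb') (X.ac ?_ (X.sym e))
      ((X.ac e2 e).mul_left (Commute.refl _)))))
    rw [mul_assoc, ← mul_assoc b m, ← mul_assoc t, ← e1, mul_assoc]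

end

variable [Finite H] [Group.IsSolvable H]

omit X in
theorem exG (N : Subgroup H) (hN : N.Normal) (h : ¬ N ≤ π.ker) : ∃ M, Good π M ∧ ∃ a ∈ M, a ∈ N ∧ π a ≠ 1 := by
  obtain ⟨M, ⟨h1, h2, h3⟩, hm⟩ := exists_minimal_of_wellFoundedLT
    (fun L : Subgroup H => L.Normal ∧ L ≤ N ∧ ¬ L ≤ π.ker) ⟨N, hN, le_rfl, h⟩
  have lt : ⁅M, M⁆ < M := Group.IsSolvable.commutator_lt_of_ne_bot fun e => h3 (e ▸ bot_le)
  have k : ⁅M, M⁆ ≤ π.ker := by
    by_contra k
    exact lt.not_ge (hm ⟨inferInstance, lt.le.trans h2, k⟩ lt.le)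
  obtain ⟨a, ha, ha'⟩ := SetLike.not_le_iff_exists.1 h3
  refine ⟨M, ⟨h1, fun a ha b hb => ?_⟩, a, ha, h2 ha, ha'⟩
  have := k (commutator_mem_commutator ha hb)
  rwa [MonoidHom.mem_ker, map_commutatorElement, commutatorElement_eq_one_iff_mul_comm] at this

theorem Cx.cM {M : Subgroup H} (hM : Good π M) {b c : H} (hb : b ∈ M) (h : π b ≠ 1) (h1 : Commute c b)
    (h2 : Commute c (y * b * y⁻¹)) : π c = 1 := by
  have := hM.1
  have hc : c ∈ centralizer (M : Set H) := fun m hm => Commute.eq (Commute.symm (by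
    rcases X.k4 hM hb h hm with e | e | e | e
    exacts [X.cen e c, X.left e h1, X.left e h2, X.left (by rwa [mul_assoc] at e) (h1.mul_right h2)]))
  by_contra k
  obtain ⟨M', hM', a, ha, ha1, ha2⟩ := exG (π := π) (centralizer (M : Set H)) inferInstance fun e => k (e hc)
  exact ha2 (X.trick hM hM' hb h ha (ha1 b hb).symm (ha1 _ (hM.1.conj_mem b hb y)).symm)

theorem Cx.fin (hy : π y ≠ 1) {s : H} (hs : s * y * s⁻¹ = y⁻¹) (hss : π s * π s = 1)
    (h5 : ∀ x : H, ∃ c, c * x * c⁻¹ = x ^ 5) : False := by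
  obtain ⟨M, hM, a, ha, -, ha1⟩ := exG (π := π) ⊤ inferInstance fun e => hy (e (mem_top y))
  have si : (π s)⁻¹ = π s := inv_eq_of_mul_eq_one_left hss
  obtain ⟨b, hb, h, hsb⟩ : ∃ b ∈ M, π b ≠ 1 ∧ π s * π b = π b * π s := by
    have ha' := hM.1.conj_mem a ha s
    by_cases e : π (a * (s * a * s⁻¹)) = 1
    · refine ⟨a, ha, ha1, mul_inv_eq_iff_eq_mul.1 (mul_left_cancel (a := π a) ?_)⟩
      rw [X.g1 hM ha]
      simpa only [map_mul, map_inv] using e
    · refine ⟨_, mul_mem ha ha', e, ?_⟩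
      have c := hM.2 a ha _ ha'
      simp only [map_mul, map_inv, si] at c ⊢
      calc _ = π s * π a * π s * π a * π s := by group
        _ = _ := by rw [← c]
  have hb' := hM.1.conj_mem b hb y
  have e3 := X.sym (X.g3 hM hb h)
  obtain ⟨x, hx⟩ : ∃ x, x = y * s * b := ⟨_, rfl⟩
  have hxb : π (x * b * x⁻¹) = π (y * b * y⁻¹) := by
    simp only [hx, map_mul, map_inv]
    calc _ = π y * (π s * π b) * (π s)⁻¹ * (π y)⁻¹ := by group
      _ = _ := by rw [hsb]; group
  have hd : π (x * x) = π (y * b * y⁻¹ * b) := by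
    rw [← hs]
    simp only [hx, map_mul, map_inv, si]
    calc _ = π y * (π s * π b) * π y * π s * π b := by group
      _ = _ := by rw [hsb]; group
  have bb : y * b * y⁻¹ * (y * b * y⁻¹) = b * b := by
    rw [conj_mul, (X.cen ((map_mul π b b).trans (X.g1 hM hb)) y).eq, mul_inv_cancel_right]
  have b4 := X.sq ((map_mul π b b).trans (X.g1 hM hb))
  have gb' := X.g1 hM hb'
  have cb := hM.2 b hb _ hb'
  have kM := fun c => X.cM hM (c := c) hb h
  have k4 := fun c => X.k4 hM hb h (hM.1.conj_mem b hb c)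
  generalize y * b * y⁻¹ = b' at *
  have d1 : b' * b * (b' * b) = t := by
    calc _ = b' * t * t * (b * b') * b := by rw [mul_assoc b' t, X.tt]; group
      _ = t * (b' * b') * (b * b) := by rw [mul_assoc _ t, ← e3, X.ht]; group
      _ = t := by rw [bb, mul_assoc, b4, mul_one]
  have d2 : b' * b * b = t * (b * (b' * b)) := by nth_rewrite 1 [e3]; group
  have hdd : x * x * (x * x) = t ∧ x * x * b = t * (b * (x * x)) := by
    rcases X.eq hd with e | e <;> rw [e]
    · exact ⟨d1, d2⟩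
    · refine ⟨?_, ?_⟩
      · rw [mul_assoc, ← mul_assoc (b' * b), X.ht, ← mul_assoc, ← mul_assoc t, X.tt, one_mul, d1]
      · rw [mul_assoc, d2, ← mul_assoc b t, X.ht b, mul_assoc]
  have cd : ∀ c, c * x * c⁻¹ = t * x → Commute c (x * x) := fun c hc => mul_inv_eq_iff_eq_mul.1 (by
    rw [← conj_mul, hc, mul_assoc, ← mul_assoc x, X.ht, ← mul_assoc, ← mul_assoc t, X.tt, one_mul])
  have f0 : ∀ c, c * x * c⁻¹ = t * x → ¬ Commute c b := fun c hc hcb => by
    have h1 : Commute c (b' * b) := X.right (a := (x * x)⁻¹) (by rw [map_mul, map_inv, hd, inv_mul_cancel])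
      (cd c hc).inv_right
    rw [← (X.cen (kM c hcb (by simpa using h1.mul_right hcb.inv_right)) x).eq, mul_inv_cancel_right] at hc
    exact X.t1 (right_eq_mul.1 hc)
  have f1 : ∀ c, c * x * c⁻¹ = t * x → π (c * b * c⁻¹) ≠ π b := fun c hc e => by
    rcases X.eq e with e | e
    · exact f0 c hc (mul_inv_eq_iff_eq_mul.1 e)
    refine f0 (x * x * c) ?_ (mul_inv_eq_iff_eq_mul.1 ?_)
    · calc _ = x * x * (c * x * c⁻¹) * (x * x)⁻¹ := by group
        _ = _ := by rw [hc, ← mul_assoc, X.ht]; group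
    · calc _ = x * x * (c * b * c⁻¹) * (x * x)⁻¹ := by group
        _ = _ := by rw [e, ← mul_assoc, X.ht, mul_assoc t, hdd.2, ← mul_assoc, X.tt]; group
  obtain ⟨c, hc⟩ := h5 x
  rw [show x ^ 5 = x * x * (x * x) * x by simp only [pow_succ, pow_zero, one_mul, mul_assoc], hdd.1] at hc
  rcases k4 c with e | e | e | e
  · exact h (by simpa using e)
  · exact f1 c hc (mul_right_cancel ((map_mul π _ b).symm.trans (e.trans (X.g1 hM hb).symm)))
  · refine f1 (x⁻¹ * c) ?_ ?_
    · calc _ = x⁻¹ * (c * x * c⁻¹) * x := by group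
        _ = _ := by rw [hc, ← mul_assoc, X.ht]; group
    · have := (mul_right_cancel ((map_mul π _ b').symm.trans (e.trans gb'.symm))).trans hxb.symm
      simp only [map_mul, map_inv] at this ⊢
      calc _ = (π x)⁻¹ * (π c * π b * (π c)⁻¹) * π x := by group
        _ = _ := by rw [this]; group
  · have h1 : Commute (x * x) (b * b') := X.right (a := (x * x)⁻¹)
      (by rw [map_mul, map_inv, hd, map_mul, map_mul, cb, inv_mul_cancel]) (Commute.refl _).inv_right
    have h2 : Commute (x * x) b := by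
      have := ((cd c hc).symm.inv_right.mul_right (X.left (by rwa [mul_assoc] at e) h1)).mul_right (cd c hc).symm
      rwa [show c⁻¹ * (c * b * c⁻¹) * c = b by group] at this
    exact X.t1 (right_eq_mul.1 (h2.eq.symm.trans hdd.2))

end L6A

variable {H W : Type*} [Group H] [Finite H] [AddCommGroup W] [DistribMulAction H W]

theorem M5.caseA (hM : M5 H W) {y t : H} (hq : Qd W y) (h : Six y t) (ht : ∀ g : H, Commute g t) : False := by
  have := hM.solv
  have t2 : t ^ 2 = 1 := h.ot ▸ pow_orderOf_eq_one t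
  have y3 : y ^ 3 = 1 := h.oy ▸ pow_orderOf_eq_one y
  have t1 : t ≠ 1 := fun e => by simpa [e] using h.ot
  have y1 : y ≠ 1 := fun e => by simpa [e] using h.oy
  have : (zpowers t).Normal := ⟨by
    rintro _ ⟨k, rfl⟩ g
    rw [((ht g).zpow_right k).eq, mul_inv_cancel_right]
    exact ⟨k, rfl⟩⟩
  obtain ⟨π, hπ⟩ : ∃ π : H →* H ⧸ zpowers t, ∀ x, π x = 1 ↔ x = 1 ∨ x = t :=
    ⟨QuotientGroup.mk' _, fun x => by
      rw [← MonoidHom.mem_ker, QuotientGroup.ker_mk']
      refine ⟨fun hx => ?_, by rintro (rfl | rfl) <;> simp⟩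
      obtain ⟨k, rfl⟩ := mem_powers_iff_mem_zpowers.2 hx
      rcases Nat.mod_two_eq_zero_or_one k with e | e <;> simp only [← pow_mod_orderOf t k, h.ot, e] <;> simp⟩
  have πt := (hπ t).2 (.inr rfl)
  have πy : π y ≠ 1 := fun e => ((hπ y).1 e).elim y1 fun e => by simpa [e, h.ot] using h.oy
  have cyc : ∀ x, Commute y x → ∃ k : ℕ, x ^ 4 = y ^ k ∧ π x = π y ^ k := fun x hx => by
    obtain ⟨k, rfl⟩ := mem_powers_iff_mem_zpowers.2 (h.cen x (ht x) hx.symm)
    refine ⟨k, ?_, by simp [πt]⟩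
    rw [← pow_mul, mul_comm k, pow_mul, h.comm.mul_pow, show t ^ 4 = (t ^ 2) ^ 2 by group, t2, pow_succ y, y3]
    simp
  have cy : ∀ x, Commute y x → π x * π x = 1 → π x = 1 := fun x hx e => by
    obtain ⟨k, -, hk⟩ := cyc x hx
    have : π x ^ 3 = 1 := by rw [hk, ← pow_mul, mul_comm k, pow_mul, ← map_pow, y3, map_one, one_pow]
    rwa [pow_succ, pow_two, e, one_mul] at this
  have f3 : ∀ x, y * (y * (y * x * y⁻¹) * y⁻¹) * y⁻¹ = x := fun x => by
    calc _ = y ^ 3 * x * (y ^ 3)⁻¹ := by rw [pow_three']; group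
      _ = x := by rw [y3]; group
  obtain ⟨s, hs⟩ := hM.rat.real y
  refine L6A.Cx.fin (π := π) (t := t) ⟨hπ, ht, by rwa [← pow_two], t1, by rwa [← pow_three'], fun u hu => ?_, cy,
    fun A hA hab a ha => ?_⟩ πy hs ?_ fun x => isConj_iff.1 (hM.rat x 5 ((Nat.Prime.coprime_iff_not_dvd (by norm_num)).2
      fun e => hM.cop (e.trans (orderOf_dvd_natCard x))))
  · have h2 : Commute (y * u * y⁻¹) (y * (y * u * y⁻¹) * y⁻¹) := hu.map (MulAut.conj y)
    have h3 : Commute (y * (y * u * y⁻¹) * y⁻¹) u := by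
      have : Commute _ (y * (y * (y * u * y⁻¹) * y⁻¹) * y⁻¹) := h2.map (MulAut.conj y)
      rwa [f3] at this
    refine hM.l1 hq (closure {u, y * u * y⁻¹, y * (y * u * y⁻¹) * y⁻¹}) (fun a ha b hb => ?_) (fun a ha => ?_) u
      (subset_closure (by simp))
    · refine ((centralizer_closure _).ge ((closure_le (centralizer _)).2 ?_ hb)) a ha
      rintro v (rfl | rfl | rfl) w (rfl | rfl | rfl)
      exacts [rfl, hu.symm, h3, hu, rfl, h2.symm, h3.symm, h2, rfl]
    · induction ha using closure_induction with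
      | mem v hv =>
        rcases hv with rfl | rfl | rfl
        exacts [subset_closure (by simp), subset_closure (by simp), subset_closure (by simp [f3])]
      | one => simp
      | mul v w _ _ hv hw => rw [← @conj_mul _ _ v y w]; exact mul_mem hv hw
      | inv v _ hv => rw [← conj_inv]; exact inv_mem hv
  · have l := hM.l1 hq A hab fun a ha => hA.conj_mem a ha y
    obtain ⟨k, hk, hk'⟩ := cyc a (l a ha)
    by_contra e
    have hy : y ∈ A := by
      have h4 : y ^ (k % 3) ∈ A := by rw [← h.oy, pow_mod_orderOf, ← hk]; exact pow_mem ha 4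
      have h5 : k % 3 ≠ 0 := fun e' => e (by
        rw [hk', ← map_pow, ← pow_mod_orderOf, h.oy, e', pow_zero, map_one])
      rcases (by omega : k % 3 = 1 ∨ k % 3 = 2) with e' | e' <;> rw [e'] at h4
      · rwa [pow_one] at h4
      · have := pow_mem h4 2
        rwa [← pow_mul, pow_succ, y3, one_mul] at this
    obtain ⟨c, hc⟩ := hM.not_normal hq (k := 1) (by
      have : centralizer ({y} : Set H) = zpowers (t * y) := le_antisymm (fun g hg => h.cen g (ht g) (mem_cz.1 hg))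
        (by rw [zpowers_le, mem_cz]; exact h.comm.mul_left (Commute.refl y))
      rw [cz, this, Nat.card_zpowers, h.comm.orderOf_mul_eq_mul_orderOf_of_coprime (by rw [h.ot, h.oy]; norm_num),
        h.ot, h.oy, pow_one])
    obtain ⟨j, hj, -⟩ := cyc _ (l _ (hA.conj_mem y hy c))
    rw [conj_pow, pow_succ, y3, one_mul] at hj
    exact hc (hj ▸ pow_mem (mem_zpowers y) j)
  · have h1 : Commute y (s * s) := by
      refine Commute.symm (mul_inv_eq_iff_eq_mul.1 ?_)
      calc _ = s * (s * y * s⁻¹) * s⁻¹ := by group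
        _ = (s * y * s⁻¹)⁻¹ := by nth_rewrite 1 [hs]; group
        _ = y := by rw [hs, inv_inv]
    obtain ⟨k, -, hk⟩ := cyc _ h1
    rw [← map_mul]
    refine cy _ h1 ?_
    have h2 : π (s * s) = (π y)⁻¹ ^ k := by
      rw [← map_inv, ← hs, map_mul π (s * y), map_mul π s y, map_inv, conj_pow, ← hk, map_mul]
      group
    nth_rewrite 1 [h2]
    rw [hk, inv_pow, inv_mul_cancel]

end H42.S3
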