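import Mathlib
import Cfsg.Agent.Base
import Cfsg.Agent.Lib.S3C.Defs
import Cfsg.Agent.Lib.S3C.Q0
import Cfsg.Agent.Lib.Perm.MinNormal
import Cfsg.Agent.Lib.Core.Fitting

/-! The case without normal two-subgroup. -/

set_option autoImplicit false

namespace H42.S3

open Subgroup

universe u

namespace L6B

variable {G : Type*} [Group G]

theorem zp3 {y x : G} (hy : orderOf y = 3) (hx : x ∈ zpowers y) : x = 1 ∨ x = y ∨ x = y⁻¹ := by
  have y3 : y ^ 3 = 1 := hy ▸ pow_orderOf_eq_one y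
  obtain ⟨i, rfl⟩ := hx
  show y ^ i = 1 ∨ y ^ i = y ∨ y ^ i = y⁻¹
  rw [← zpow_mod_orderOf, hy]
  have : i % (3 : ℕ) = 0 ∨ i % (3 : ℕ) = 1 ∨ i % (3 : ℕ) = 2 := by omega
  rcases this with e | e | e <;> rw [e]
  · exact .inl (zpow_zero y)
  · exact .inr (.inl (zpow_one y))
  · exact .inr (.inr (eq_inv_of_mul_eq_one_left (by rw [← y3, zpow_two, pow_succ, pow_two])))

theorem sq_ne {y : G} (hy : orderOf y = 3) : y ^ 2 ≠ 1 := fun e => by
  have := orderOf_dvd_of_pow_eq_one e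
  rw [hy] at this
  omega

theorem ne_inv {y : G} (hy : orderOf y = 3) : y ≠ y⁻¹ := fun e =>
  sq_ne hy (by rw [pow_two]; exact mul_eq_one_iff_eq_inv.2 e)

theorem odd_of {g : G} {k : ℕ} (h : g ^ 3 ^ k = 1) : Odd (orderOf g) :=
  Odd.of_dvd_nat (Odd.pow (by decide)) (orderOf_dvd_of_pow_eq_one h)

theorem ord_conj {y a : G} (hy : orderOf y = 3) (h : IsConj y a) : orderOf a = 3 := by
  obtain ⟨c, rfl⟩ := isConj_iff.1 h
  rw [← hy]
  exact (MulAut.conj c).orderOf_eq y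

theorem two_ne {t : G} (ht : orderOf t = 2) (k : ℕ) : t ^ 3 ^ k ≠ 1 := fun e => by
  have := odd_of e
  rw [ht] at this
  exact absurd this (by decide)

end L6B

open L6B

variable {H W : Type*} [Group H] [Finite H] [AddCommGroup W] [DistribMulAction H W]

theorem M5.b00 (hM : M5 H W) {y t : H} (hq : Qd W y) (h : Six y t) {O : Subgroup H} (hO : CY y t O) {b : H}
    (hb : IsConj y b) (hab : Commute y b) (hn : b ∉ zpowers y) {g : H} (hg : Commute g y) :
    g * b * g⁻¹ = b⁻¹ ∨ ∃ k : ℕ, g ^ 3 ^ k = 1 := by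
  have tt : t * t = 1 := by rw [← pow_two, ← h.ot, pow_orderOf_eq_one]
  have ti : t⁻¹ = t := inv_eq_of_mul_eq_one_right tt
  have b3 : b ^ 3 = 1 := ord_conj h.oy hb ▸ pow_orderOf_eq_one b
  have yO : zpowers y ≤ O := zpowers_le.2 hO.mem
  have bO : b ∈ O := by
    refine ((hO.cent b).1 hab.symm).elim id fun m => ?_
    have k := mul_mem (yO (hO.inv t (tt ▸ one_mem O) _ m)) (inv_mem m)
    rw [mul_inv_cancel_right] at k
    have k2 := mul_mem m k
    have e : b * t * (t * (b * t) * t⁻¹) = b * b := by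
      rw [mul_assoc t, mul_inv_cancel_right, mul_assoc, ← mul_assoc t, tt, one_mul]
    rw [e] at k2
    have e2 : b * b * (b * b) = b := by rw [← pow_two b, ← pow_add, show 2 + 2 = 3 + 1 from rfl, pow_succ, b3, one_mul]
    exact e2 ▸ mul_mem k2 k2
  rcases (hO.cent g).1 hg with m | m
  · obtain ⟨k, e⟩ := hO.p3 ⟨g, m⟩
    exact .inr ⟨k, congrArg Subtype.val e⟩
  obtain ⟨c, rfl⟩ := isConj_iff.1 hb
  have qb := hq.conj c
  have qg := qb.conj g
  rcases zp3 h.oy (hO.inv g m _ bO) with e | e | e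
  · exact .inl (eq_inv_of_mul_eq_one_left e)
  · rw [eq_mul_inv_of_mul_eq e] at qg
    refine absurd ?_ hn
    rw [← inv_mem_iff, ← hM.qq hq qb.inv hab.inv_right qg]
    exact mem_zpowers y
  · rw [eq_mul_inv_of_mul_eq e] at qg
    refine absurd ?_ hn
    rw [← inv_injective (hM.qq hq.inv qb.inv hab.inv_inv qg)]
    exact mem_zpowers _

theorem M5.b0 (hM : M5 H W) {y t : H} (hq : Qd W y) (h : Six y t) {O : Subgroup H} (hO : CY y t O) {a b : H}
    (ha : IsConj y a) (hb : IsConj y b) (hab : Commute a b) (hn : b ∉ zpowers a) {g : H} (hg : Commute g a) :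
    g * b * g⁻¹ = b⁻¹ ∨ ∃ k : ℕ, g ^ 3 ^ k = 1 := by
  obtain ⟨c, e⟩ := isConj_iff.1 ha.symm
  let φ := MulAut.conj c
  have ea : φ a = y := e
  rcases hM.b00 hq h hO (b := φ b) (g := φ g) (hb.trans (isConj_iff.2 ⟨c, rfl⟩)) (ea ▸ hab.map φ)
    (fun ⟨i, m⟩ => hn ⟨i, φ.injective (by rw [← m, ← ea]; exact map_zpow φ a i)⟩) (ea ▸ hg.map φ) with k | ⟨k, m⟩
  · exact .inl (φ.injective (by rw [map_mul, map_mul, map_inv, map_inv, k]))
  · exact .inr ⟨k, φ.injective (by rw [map_pow, m, map_one])⟩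

theorem M5.b1 (hM : M5 H W) {y t : H} (hq : Qd W y) (h : Six y t) {O : Subgroup H} (hO : CY y t O)
    (F : Subgroup H) [F.Normal] (hF : IsPGroup 3 F) : ∀ a ∈ F, Commute y a := by
  have := Fact.mk Nat.prime_three
  have pY : IsPGroup 3 (zpowers y) := IsPGroup.of_card (n := 1) (by rw [Nat.card_zpowers, h.oy, pow_one])
  have pK : IsPGroup 3 ↥(F ⊔ zpowers y) := hF.to_sup_of_normal_left pY
  set K := F ⊔ zpowers y with hK
  have yK : y ∈ K := mem_sup_right (mem_zpowers y)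
  have od : ∀ g ∈ K, Odd (orderOf g) := fun g hg => by
    obtain ⟨k, e⟩ := pK ⟨g, hg⟩
    exact odd_of (k := k) (congrArg Subtype.val e)
  have tK : ∀ g ∈ K, t * g * t⁻¹ ∈ K := fun g hg => by
    obtain ⟨f, hf, z, ⟨i, rfl⟩, rfl⟩ := mem_sup_of_normal_left.1 hg
    have e : t * (f * y ^ i) * t⁻¹ = t * f * t⁻¹ * y ^ i := by
      rw [mul_assoc (t * f), (h.comm.zpow_right i).inv_left.eq]; group
    exact e ▸ mul_mem_sup (Normal.conj_mem inferInstance f hf t) ⟨i, rfl⟩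
  by_contra hc
  push Not at hc
  obtain ⟨a, ha, hya⟩ := hc
  have := pK.isNilpotent
  have lt := normalizerCondition_of_isNilpotent ((centralizer ({y} : Set H)).subgroupOf K)
    (lt_top_iff_ne_top.2 fun e => hya (mem_cz.1 (mem_subgroupOf.1
      (e ▸ mem_top (⟨a, mem_sup_left ha⟩ : K) : (⟨a, mem_sup_left ha⟩ : K) ∈ _))).symm)
  obtain ⟨x, xn, xc⟩ := SetLike.exists_of_lt lt
  have cb : Commute ((x : H)⁻¹ * y * x) y := mem_cz.1 (mem_subgroupOf.1
    ((mem_normalizer_iff''.1 xn ⟨y, yK⟩).1 (mem_subgroupOf.2 (mem_cz.2 (Commute.refl y)))))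
  have cj : IsConj y ((x : H)⁻¹ * y * x) := isConj_iff.2 ⟨(x : H)⁻¹, by rw [inv_inv]⟩
  have nb : (x : H)⁻¹ * y * x ∉ zpowers y := fun m => by
    rcases zp3 h.oy m with e | e | e
    · have := ord_conj h.oy cj
      rw [e, orderOf_one] at this
      omega
    · refine xc (mem_subgroupOf.2 (mem_cz.2 ?_))
      show (x : H) * y = y * x
      nth_rewrite 1 [← e]
      group
    · exact sq_ne h.oy (sq_of_inv (od _ (inv_mem x.2)) (by rw [inv_inv]; exact e))
  rcases hM.b00 hq h hO cj cb.symm nb h.comm with e | ⟨k, e⟩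
  · refine sq_ne h.oy (sq_of_inv (od _ (mul_mem x.2 (tK _ (inv_mem x.2)))) ?_)
    have e1 : t⁻¹ * y * t = y := by rw [h.comm.inv_left.eq, inv_mul_cancel_right]
    calc x * (t * (x : H)⁻¹ * t⁻¹) * y * (x * (t * (x : H)⁻¹ * t⁻¹))⁻¹
        = x * (t * ((x : H)⁻¹ * (t⁻¹ * y * t) * x) * t⁻¹) * (x : H)⁻¹ := by group
      _ = y⁻¹ := by rw [e1, e]; group
  · exact two_ne h.ot k e

theorem M5.b2 (hM : M5 H W) {y t : H} (hq : Qd W y) (h : Six y t) {O : Subgroup H} (hO : CY y t O)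
    (h2 : ∀ R : Subgroup H, R.Normal → IsPGroup 2 R → R = ⊥) {a b : H} (ha : IsConj y a) (hb : IsConj y b) :
    Commute a b := by
  have := Fact.mk Nat.prime_three
  have := hM.solv
  have c0 : Cfsg.pPrimeCore 3 H = ⊥ := by
    by_contra hne
    obtain ⟨M, nM, M1, le, mn⟩ := H26.exists_minNormal_le _ hne
    have ab : M ≤ centralizer (M : Set H) := commutator_eq_bot_iff_le_centralizer.1
      ((mn ⁅M, M⁆ inferInstance (commutator_le_left M M)).resolve_right
        (Group.IsSolvable.commutator_lt_of_ne_bot M1).ne)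
    have k := hM.l1 hq M (fun a ha b hb => (ab ha b hb).symm) fun a ha => nM.conj_mem a ha y
    have d1 : Nat.card M ∣ 2 * Nat.card O := hO.card ▸ card_dvd_of_le fun a ha => mem_cz.2 (k a ha).symm
    obtain ⟨n, e⟩ := IsPGroup.iff_card.1 hO.p3
    have co : (Nat.card M).Coprime 3 := H1.coprime_card_pPrimeCore.coprime_dvd_left (card_dvd_of_le le)
    rw [e] at d1
    have d2 := (co.pow_right n).dvd_of_dvd_mul_right d1
    have := Fact.mk Nat.prime_two
    obtain ⟨j, -, e2⟩ := (Nat.dvd_prime_pow Nat.prime_two (m := 1)).1 d2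
    exact M1 (h2 M nM (IsPGroup.of_card e2))
  have k := hM.b1 hq h hO (Cfsg.pCore 3 H) H1.isPGroup_pCore
  have yO : y ∈ Cfsg.pCore 3 H := H1.centralizer_pCore_le_of_isSolvable c0 fun a ha => (k a ha).symm
  obtain ⟨c, rfl⟩ := isConj_iff.1 ha
  obtain ⟨d, rfl⟩ := isConj_iff.1 hb
  have n : (Cfsg.pCore 3 H).Normal := inferInstance
  have := (k _ (n.conj_mem' _ (n.conj_mem _ yO d) c)).map (MulAut.conj c)
  simpa [mul_assoc] using this

end H42.S3
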