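import Mathlib
import Cfsg.Agent.Base
import Cfsg.Agent.Lib.S3C.Defs
import Cfsg.Agent.Lib.S3C.Q0
import Cfsg.Agent.Lib.S3C.L6B

/-! Commuting conjugates are impossible. -/

set_option autoImplicit false

namespace H42.S3

open Subgroup L6B

universe u

namespace L6C

theorem cz_mul {G : Type*} [Group G] (y : G) : cz y * {x | IsConj y x}.ncard = Nat.card G := by
  have e : MulAction.orbit (ConjAct G) y = {x | IsConj y x} :=
    Set.ext fun x => ConjAct.mem_orbit_conjAct.trans isConj_comm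
  rw [← e, ← MulAction.index_stabilizer, cz, nat_card_centralizer_nat_card_stabilizer]
  exact (MulAction.stabilizer (ConjAct G) y).card_mul_index

theorem nz {G : Type*} [Group G] {a b : G} (ha : orderOf a = 3) (hb : orderOf b = 3) :
    b ∉ zpowers a ↔ b ≠ a ∧ b ≠ a⁻¹ := by
  refine ⟨fun h => ⟨fun e => h (e ▸ mem_zpowers _), fun e => h (e ▸ inv_mem (mem_zpowers _))⟩,
    fun h m => ?_⟩
  rcases zp3 ha m with e | e | e
  · rw [e, orderOf_one] at hb
    omega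
  exacts [h.1 e, h.2 e]

theorem nz_symm {G : Type*} [Group G] {a b : G} (ha : orderOf a = 3) (hb : orderOf b = 3) (h : b ∉ zpowers a) :
    a ∉ zpowers b := by
  rw [nz ha hb] at h
  exact (nz hb ha).2 ⟨h.1.symm, fun e => h.2 (by rw [e, inv_inv])⟩

theorem dbl {W : Type*} [AddCommGroup W] (h5 : ∀ w : W, 5 • w = 0) {u v : W} (h : 2 • u = 2 • v) : u = v := by
  have e : ∀ w : W, w = 3 • 2 • w := fun w => by
    rw [← mul_smul, show 3 * 2 = 5 + 1 from rfl, add_smul, h5, zero_add, one_smul]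
  rw [e u, h, ← e]

end L6C

open L6C

variable {H W : Type*} [Group H] [Finite H] [AddCommGroup W] [DistribMulAction H W]

theorem M5.four_lines (hM : M5 H W) {y t : H} (hq : Qd W y) (h : Six y t) {O : Subgroup H} (hO : CY y t O)
    (hc : ∀ a b : H, IsConj y a → IsConj y b → Commute a b) {a b d : H} (ha : IsConj y a) (hb : IsConj y b)
    (hd : IsConj y d) (n1 : a ∉ zpowers y) (n2 : b ∉ zpowers y) (n3 : d ∉ zpowers y) (n4 : b ∉ zpowers a)
    (n5 : d ∉ zpowers a) (n6 : d ∉ zpowers b) : False := by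
  obtain ⟨c, rfl⟩ := isConj_iff.1 ha
  have o2 : orderOf (c * t * c⁻¹) = 2 := h.ot ▸ (MulAut.conj c).orderOf_eq t
  have i1 : ∀ x, IsConj y x → x ∉ zpowers y → t * x * t⁻¹ = x⁻¹ := fun x hx n =>
    (hM.b0 hq h hO (IsConj.refl y) hx (hc _ _ (IsConj.refl y) hx) n h.comm).resolve_right
      fun ⟨k, e⟩ => two_ne h.ot k e
  have i2 : ∀ x, IsConj y x → x ∉ zpowers (c * y * c⁻¹) → c * t * c⁻¹ * x * (c * t * c⁻¹)⁻¹ = x⁻¹ :=
    fun x hx n => (hM.b0 hq h hO ha hx (hc _ _ ha hx) n (h.comm.map (MulAut.conj c))).resolve_right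
      fun ⟨k, e⟩ => two_ne o2 k e
  generalize c * t * c⁻¹ = s at o2 i2
  have fx : ∀ x, t * x * t⁻¹ = x⁻¹ → s * x * s⁻¹ = x⁻¹ → s * t * x * (s * t)⁻¹ = x := fun x e1 e2 => by
    calc s * t * x * (s * t)⁻¹ = s * (t * x * t⁻¹) * s⁻¹ := by group
      _ = (s * x * s⁻¹)⁻¹ := by rw [e1]; group
      _ = x := by rw [e2, inv_inv]
  rcases hM.b0 hq h hO hb hd (hc _ _ hb hd) n6 (g := s * t)
    (mul_inv_eq_iff_eq_mul.1 (fx b (i1 b hb n2) (i2 b hb n4))) with e | ⟨k, e⟩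
  · exact ne_inv (ord_conj h.oy hd) ((fx d (i1 d hd n3) (i2 d hd n5)).symm.trans e)
  · refine sq_ne h.oy (sq_of_inv (odd_of e) ?_)
    calc s * t * y * (s * t)⁻¹ = s * (t * y * t⁻¹) * s⁻¹ := by group
      _ = y⁻¹ := by
        rw [h.comm.eq, mul_inv_cancel_right]
        exact i2 y (IsConj.refl y) (nz_symm h.oy (ord_conj h.oy ha) n1)

theorem M5.two_lines (hM : M5 H W) {y t : H} (hq : Qd W y) (h : Six y t) {O : Subgroup H} (hO : CY y t O)
    {a : H} (ha : IsConj y a) (hc : Commute y a) (n1 : a ∉ zpowers y)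
    (hS : ∀ x, IsConj y x → x = y ∨ x = y⁻¹ ∨ x = a ∨ x = a⁻¹) : False := by
  have oa := ord_conj h.oy ha
  obtain ⟨d1, d2⟩ := (nz h.oy oa).1 n1
  have qa : Qd W a := by
    obtain ⟨c, rfl⟩ := isConj_iff.1 ha
    exact hq.conj c
  obtain ⟨v, v0, hv⟩ := hM.ex_fix hq qa hc fun e => d2 (eq_inv_of_mul_eq_one_right e)
  obtain ⟨g, hg⟩ := hM.eig v
  let St := MulAction.stabilizer H v
  have x1 : y * a⁻¹ ∈ St := by
    show (y * a⁻¹) • v = v
    rw [hc.inv_right.eq, mul_smul, hv, inv_smul_smul]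
  have ny : y⁻¹ ∉ St := fun m => by
    have m' : y • v = v := inv_mem_iff.1 m
    have k := hq v
    rw [m', m'] at k
    refine v0 (L6C.dbl hM.five ?_)
    rw [smul_zero, ← hM.five v, show 5 = 2 + 3 from rfl, add_smul, show 3 • v = v + v + v by abel, k, add_zero]
  have n2 : y * a ∉ St := fun m => ny (by
    have e : y * a⁻¹ * (y * a) = y⁻¹ := by
      rw [hc.eq, mul_assoc, inv_mul_cancel_left, eq_inv_iff_mul_eq_one, ← pow_two, ← pow_succ]
      exact orderOf_dvd_iff_pow_eq_one.1 (h.oy ▸ dvd_rfl)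
    exact e ▸ mul_mem x1 m)
  have n3 : a * y ∉ St := hc.eq ▸ n2
  have n4 : y⁻¹ * a⁻¹ ∉ St := fun m => n3 (by simpa using inv_mem m)
  have n5 : a⁻¹ * y⁻¹ ∉ St := fun m => n2 (by simpa using inv_mem m)
  let φ := MulAut.conj g
  have x2 : φ y * (φ a)⁻¹ ∈ St := by
    rw [← map_inv, ← map_mul]
    refine L6C.dbl hM.five (u := (g * (y * a⁻¹) * g⁻¹) • v) ?_
    rw [← smul_comm, ← hg, mul_smul, inv_smul_smul, mul_smul, MulAction.mem_stabilizer_iff.1 x1]
  have p1 : φ a ≠ φ y := fun e => d1 (φ.injective e)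
  have p2 : φ a ≠ (φ y)⁻¹ := fun e => d2 (φ.injective (e.trans (map_inv φ y).symm))
  have c1 := hS (φ y) (isConj_iff.2 ⟨g, rfl⟩)
  have c2 := hS (φ a) (ha.trans (isConj_iff.2 ⟨g, rfl⟩))
  have key : φ (φ y) = y ∧ φ (φ a) = a := by
    clear_value φ St
    rcases c1 with e1 | e1 | e1 | e1 <;> rcases c2 with e2 | e2 | e2 | e2 <;>
      rw [e1, e2] at p1 p2 x2 <;>
      first
        | exact absurd rfl p1
        | exact absurd rfl p2
        | exact absurd (inv_inv _).symm p2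
        | (rw [inv_inv] at x2; contradiction)
        | contradiction
        | simp only [e1, e2, map_inv, inv_inv, and_self]
  have e2 : ∀ x, φ (φ x) = g * g * x * (g * g)⁻¹ := fun x => by simp [φ, mul_assoc]
  rw [e2, e2] at key
  rcases hM.b0 hq h hO (IsConj.refl y) ha hc n1 (g := g * g) (mul_inv_eq_iff_eq_mul.1 key.1) with e | ⟨k, e⟩
  · exact ne_inv oa (key.2.symm.trans e)
  · have m1 : (g * g) • v = -v := by
      rw [mul_smul, hg, smul_comm, hg, ← mul_smul, eq_neg_iff_add_eq_zero, ← hM.five v]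
      abel
    obtain ⟨j, hj⟩ : Odd (3 ^ k) := Odd.pow (by decide)
    have m2 : (g * g) ^ 2 ∈ St := by
      show ((g * g) ^ 2) • v = v
      rw [pow_two, mul_smul, m1, smul_neg, m1, neg_neg]
    have m3 : ((g * g) ^ (2 * j)) • v = v := by
      rw [pow_mul]
      exact pow_mem m2 j
    have m4 : ((g * g) ^ 3 ^ k) • v = -v := by rw [hj, pow_succ', mul_smul, m3, m1]
    rw [e, one_smul] at m4
    refine v0 (L6C.dbl hM.five ?_)
    rw [smul_zero, two_smul]
    exact eq_neg_iff_add_eq_zero.1 m4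

theorem M5.caseB (hM : M5 H W) {y t : H} (hq : Qd W y) (h : Six y t) {O : Subgroup H} (hO : CY y t O)
    (hc : ∀ a b : H, IsConj y a → IsConj y b → Commute a b) : False := by
  have := Fact.mk Nat.prime_three
  obtain ⟨k, e⟩ := IsPGroup.iff_card.1 hO.p3
  have hk : cz y = 2 * 3 ^ k := e ▸ hO.card
  obtain ⟨c, n1⟩ := hM.not_normal hq hk
  have ha : IsConj y (c * y * c⁻¹) := isConj_iff.2 ⟨c, rfl⟩
  generalize c * y * c⁻¹ = a at n1 ha
  have oa := ord_conj h.oy ha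
  have d4 : 4 ∣ {x | IsConj y x}.ncard := by
    have d := hM.eight
    rw [← cz_mul y, hk, mul_assoc, show 8 = 2 * 4 from rfl] at d
    exact (Nat.Coprime.pow_right k (by decide)).dvd_of_dvd_mul_left (Nat.dvd_of_mul_dvd_mul_left two_pos d)
  have iv : ∀ x, IsConj y x → IsConj y x⁻¹ := fun x hx => hx.trans (isConj_iff.2 (hM.rat.real x))
  obtain ⟨b, hb⟩ : ∃ b : H, {x | IsConj y x} ⊆ {y, y⁻¹, a, a⁻¹, b, b⁻¹} := by
    by_cases hb : ∃ b, IsConj y b ∧ b ∉ zpowers y ∧ b ∉ zpowers a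
    · obtain ⟨b, hb, n2, n4⟩ := hb
      refine ⟨b, fun d hd => ?_⟩
      have od := ord_conj h.oy hd
      by_contra m
      simp only [Set.mem_insert_iff, Set.mem_singleton_iff, not_or] at m
      exact hM.four_lines hq h hO hc ha hb hd n1 n2 ((nz h.oy od).2 ⟨m.1, m.2.1⟩) n4
        ((nz oa od).2 ⟨m.2.2.1, m.2.2.2.1⟩) ((nz (ord_conj h.oy hb) od).2 m.2.2.2.2)
    · refine ⟨y, fun d hd => ?_⟩
      have od := ord_conj h.oy hd
      by_contra m
      simp only [Set.mem_insert_iff, Set.mem_singleton_iff, not_or] at m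
      exact hb ⟨d, hd, (nz h.oy od).2 ⟨m.1, m.2.1⟩, (nz oa od).2 ⟨m.2.2.1, m.2.2.2.1⟩⟩
  have l6 : {x | IsConj y x}.ncard ≤ 6 := (Set.ncard_le_ncard hb).trans
    ((Set.ncard_insert_le _ _).trans (Nat.succ_le_succ ((Set.ncard_insert_le _ _).trans (Nat.succ_le_succ
      ((Set.ncard_insert_le _ _).trans (Nat.succ_le_succ ((Set.ncard_insert_le _ _).trans (Nat.succ_le_succ
        ((Set.ncard_insert_le _ _).trans (Nat.succ_le_succ (Set.ncard_singleton _).le))))))))))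
  obtain ⟨d1, d2⟩ := (nz h.oy oa).1 n1
  have e4 : ({y, y⁻¹, a, a⁻¹} : Set H).ncard = 4 := Set.ncard_eq_four.2 ⟨y, y⁻¹, a, a⁻¹, ne_inv h.oy, d1.symm,
    fun e => d2 (by rw [e, inv_inv]), d2.symm, fun e => d1 (inv_injective e).symm, ne_inv oa, rfl⟩
  have sub : ({y, y⁻¹, a, a⁻¹} : Set H) ⊆ {x | IsConj y x} := by
    rintro x (rfl | rfl | rfl | rfl)
    exacts [IsConj.refl _, iv _ (IsConj.refl _), ha, iv _ ha]
  have eq := Set.eq_of_subset_of_ncard_le sub (by omega)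
  exact hM.two_lines hq h hO ha (hc _ _ (IsConj.refl y) ha) n1 fun x hx => (eq.ge hx : x ∈ ({y, y⁻¹, a, a⁻¹} : Set H))

end H42.S3
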