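import Mathlib
import Cfsg.Agent.Base
import Cfsg.Agent.Lib.S3C.Defs
import Cfsg.Agent.Lib.S3C.Q0
import Cfsg.Agent.Lib.S3C.F2
import Cfsg.Agent.Lib.S3C.L6A
import Cfsg.Agent.Lib.S3C.L6B
import Cfsg.Agent.Lib.S3C.L6C
import Cfsg.Agent.Lib.Perm.MinNormal

/-! No centralizer of order six. -/

set_option autoImplicit false

namespace H42.S3

open Subgroup

universe u

namespace L6

theorem omega_center {G : Type*} [Group G] [Finite G] {p : ℕ} (hp : p.Prime) (R : Subgroup G) [R.Normal]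
    (hR : IsPGroup p R) (h : R ≠ ⊥) : ∃ V : Subgroup G, V.Normal ∧ V ≤ R ∧ (∀ a ∈ R, ∀ v ∈ V, Commute a v) ∧
      (∀ v ∈ V, v ^ p = 1) ∧ ∃ v ∈ V, v ≠ 1 := by
  have := Fact.mk hp
  have ab : IsMulCommutative (R ⊓ centralizer (R : Set G) : Subgroup G) :=
    ⟨⟨fun a b => Subtype.ext (mem_centralizer_iff.1 b.2.2 a a.2.1)⟩⟩
  refine ⟨H26.powKer _ ab p, H26.powKer_normal _ ab p, fun v hv => (H26.mem_powKer.1 hv).1.1,
    fun a ha v hv => mem_centralizer_iff.1 (H26.mem_powKer.1 hv).1.2 a ha, fun v hv => (H26.mem_powKer.1 hv).2, ?_⟩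
  have := (nontrivial_iff_ne_bot R).2 h
  have := hR.center_nontrivial
  obtain ⟨k, hk, e⟩ := (hR.to_subgroup (center R)).nontrivial_iff_card.1 this
  obtain ⟨v, hv⟩ := exists_prime_orderOf_dvd_card' (G := center R) p (e ▸ dvd_pow_self p hk.ne')
  refine ⟨v.1.1, H26.mem_powKer.2 ⟨⟨v.1.2, mem_centralizer_iff.2 fun a ha =>
    congrArg Subtype.val (mem_center_iff.1 v.2 ⟨a, ha⟩)⟩, ?_⟩, fun e1 => ?_⟩
  · rw [← hv, ← coe_pow, ← coe_pow, pow_orderOf_eq_one]; rfl
  · rw [show v = 1 from Subtype.ext (Subtype.ext e1), orderOf_one] at hv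
    exact hp.one_lt.ne hv

theorem mem_sylow {G : Type*} [Group G] {p : ℕ} (P : Sylow p G) [(P : Subgroup G).Normal] {a : G} {k : ℕ}
    (ha : a ^ p ^ k = 1) : a ∈ P := by
  have h : IsPGroup p (zpowers a) := by
    rintro ⟨_, i, rfl⟩
    exact ⟨k, Subtype.ext (by
      rw [coe_pow, ← zpow_natCast, ← zpow_mul, mul_comm, zpow_mul, zpow_natCast, ha, one_zpow]; rfl)⟩
  exact (P.is_maximal' (h.to_sup_of_normal_right P.isPGroup') le_sup_right).le (mem_sup_left (mem_zpowers a))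

variable {H : Type*} [Group H] {y t : H}

theorem six_pow (h : Six y t) (i : ℤ) : ((t * y) ^ i) ^ 3 = t ^ i ∧ ((t * y) ^ i) ^ 4 = y ^ i := by
  have y3 : y ^ 3 = 1 := by rw [← h.oy, pow_orderOf_eq_one]
  have tt : t ^ 2 = 1 := by rw [← h.ot, pow_orderOf_eq_one]
  have e : ∀ n : ℕ, ((t * y) ^ i) ^ n = (t ^ n * y ^ n) ^ i := fun n => by
    rw [← h.comm.mul_pow, ← zpow_natCast, ← zpow_natCast, ← zpow_mul, ← zpow_mul, mul_comm]
  rw [e, e, y3, mul_one, pow_succ, tt, one_mul, pow_succ y, y3, one_mul, show 4 = 2 * 2 from rfl, pow_mul, tt,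
    one_pow, one_mul]
  exact ⟨rfl, rfl⟩

theorem six_ord (h : Six y t) : orderOf (t * y) = 6 := by
  rw [h.comm.orderOf_mul_eq_mul_orderOf_of_coprime (by rw [h.oy, h.ot]; decide), h.oy, h.ot]

end L6

open L6

theorem M5.six_false {H W : Type*} [Group H] [Finite H] [AddCommGroup W] [DistribMulAction H W] (hM : M5 H W)
    {y t : H} (hq : Qd W y) (h : Six y t) : False := by
  obtain ⟨O, hO⟩ := exists_CY hM.rat h
  by_cases h2 : ∀ R : Subgroup H, R.Normal → IsPGroup 2 R → R = ⊥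
  · exact hM.caseB hq h hO fun a b ha hb => hM.b2 hq h hO h2 ha hb
  push Not at h2
  obtain ⟨R, nR, pR, R0⟩ := h2
  obtain ⟨V, nV, VR, c, e, m, hm, m1⟩ := omega_center Nat.prime_two R pR R0
  have cy := hM.l1 hq V (fun a ha b hb => c a (VR ha) b hb) fun a ha => nV.conj_mem a ha y
  have one : ∀ a ∈ V, a ∈ O → a = 1 := fun a ha ho => by
    obtain ⟨k, hk⟩ := hO.p3 ⟨a, ho⟩
    exact orderOf_eq_one_iff.1 (Nat.eq_one_of_dvd_coprimes (Nat.Coprime.pow_right k (by decide : Nat.Coprime 2 3))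
      (orderOf_dvd_of_pow_eq_one (e a ha)) (orderOf_dvd_of_pow_eq_one (congrArg Subtype.val hk)))
  have mt : ∀ a ∈ V, a ≠ 1 → a * t ∈ O := fun a ha a1 =>
    ((hO.cent a).1 (cy a ha).symm).resolve_left fun k => a1 (one a ha k)
  have cen : ∀ g, Commute g m := fun g => by
    have hm' := nV.conj_mem m hm g
    have := mul_mem (mt _ hm' fun k => m1 (conj_eq_one_iff.1 k)) (inv_mem (mt m hm m1))
    rw [mul_inv_rev, mul_assoc, mul_inv_cancel_left] at this
    exact mul_inv_eq_iff_eq_mul.1 (mul_inv_eq_one.1 (one _ (mul_mem hm' (inv_mem hm)) this))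
  obtain ⟨i, hi⟩ := h.cen m (cen t).symm (cen y).symm
  have e3 := (six_pow h i).1
  rw [show (t * y) ^ i = m from hi, pow_succ, e m hm, one_mul] at e3
  have tt : t ^ (2 : ℤ) = 1 := by rw [zpow_ofNat, ← h.ot, pow_orderOf_eq_one]
  refine hM.caseA hq h fun g => ?_
  rcases Int.even_or_odd' i with ⟨j, rfl | rfl⟩
  · rw [zpow_mul, tt, one_zpow] at e3
    exact absurd e3 m1
  · rw [zpow_add_one, zpow_mul, tt, one_zpow, one_mul] at e3
    exact e3 ▸ cen g

theorem exists_six {H : Type*} [Group H] [Finite H] {x : H} (hx1 : x ≠ 1) (hx : cz x = 6) :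
    ∃ y t : H, Six y t ∧ x ∈ zpowers (t * y) := by
  have key : ∀ y t : H, orderOf y = 3 → orderOf t = 2 → Commute t y → Commute y x → Commute t x →
      ∃ y t : H, Six y t ∧ x ∈ zpowers (t * y) := fun y t oy ot c c1 c2 => by
    have e : zpowers (t * y) = centralizer {x} := eq_of_le_of_card_ge (zpowers_le.2 (mem_cz.2 (c2.mul_left c1))) (by
      rw [Nat.card_zpowers, c.orderOf_mul_eq_mul_orderOf_of_coprime (by rw [oy, ot]; decide), oy, ot]
      exact hx.le)
    have m := e.ge (mem_cz.2 (Commute.refl x))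
    refine ⟨y, t, ⟨oy, ot, c, fun g h1 h2 => e.ge (mem_cz.2 ?_)⟩, m⟩
    obtain ⟨i, hi⟩ := m
    exact hi ▸ (h1.mul_right h2).zpow_right i
  have f2 : Fact (Nat.Prime 2) := ⟨Nat.prime_two⟩
  have f3 : Fact (Nat.Prime 3) := ⟨by decide⟩
  obtain ⟨y, oy⟩ := exists_prime_orderOf_dvd_card' (G := centralizer ({x} : Set H)) 3 (Dvd.intro 2 hx.symm)
  obtain ⟨t, ot⟩ := exists_prime_orderOf_dvd_card' (G := centralizer ({x} : Set H)) 2 (Dvd.intro 3 hx.symm)
  rw [← Subgroup.orderOf_coe] at oy ot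
  have d : orderOf x ∣ 6 := hx ▸ ord_dvd_cz x
  have d1 : orderOf x ≠ 1 := fun e => hx1 (orderOf_eq_one_iff.1 e)
  have d2 := Nat.le_of_dvd (by decide) d
  obtain e | e | e : orderOf x = 2 ∨ orderOf x = 3 ∨ orderOf x = 6 := by
    generalize orderOf x = n at d d1 d2
    interval_cases n <;> simp_all
  · exact key y x oy e (mem_cz.1 y.2).symm (mem_cz.1 y.2) (Commute.refl x)
  · exact key x t e ot (mem_cz.1 t.2) (Commute.refl x) (mem_cz.1 t.2)
  · exact key (x ^ 2) (x ^ 3) (by rw [orderOf_pow, e]; rfl) (by rw [orderOf_pow, e]; rfl)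
      ((Commute.refl x).pow_pow 3 2) ((Commute.refl x).pow_left 2) ((Commute.refl x).pow_left 3)

theorem six_false {G : Type u} [Group G] [Finite G] (hs : Group.IsSolvable G) (hR : Rat G) (hN : NS G)
    (h5 : 5 ∣ Nat.card G) (x : G) : cz x ≠ 6 := fun hx => by
  have x1 : x ≠ 1 := by
    rintro rfl
    rw [cz, show centralizer ({1} : Set G) = ⊤ from eq_top_iff.2 fun g _ => mem_cz.2 (Commute.one_right g),
      card_top] at hx
    exact absurd (hx ▸ h5) (by decide)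
  obtain ⟨y, t, h, -⟩ := exists_six x1 hx
  have p1 := six_pow h 1
  simp only [zpow_one] at p1
  have c6 : cz (t * y) ≤ 6 := by
    rw [← six_ord h, ← Nat.card_zpowers]
    exact card_le_of_le fun g hg => h.cen g (p1.1 ▸ (mem_cz.1 hg).pow_right 3) (p1.2 ▸ (mem_cz.1 hg).pow_right 4)
  obtain ⟨O, hO⟩ := exists_CY hR h
  have f5 : Fact (Nat.Prime 5) := ⟨by decide⟩
  have f3 : Fact (Nat.Prime 3) := ⟨by decide⟩
  obtain ⟨P⟩ : Nonempty (Sylow 5 G) := inferInstance
  have := hN 5 f5.out le_rfl P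
  obtain ⟨V, nV, VP, c, ex, v, hv, v1⟩ := omega_center f5.out (P : Subgroup G) P.isPGroup' fun e => by
    have := P.pow_dvd_card_of_pow_dvd_card (n := 1) h5
    rw [e, card_bot] at this
    exact absurd this (by decide)
  obtain ⟨L, W, _, _, _, _, _, π, e, π1, π2, π3, e1, e2, e3, e4, e5, e6⟩ :=
    bridge V fun a ha b hb => c a (VP ha) b hb
  have o5 : ∀ w, orderOf (e w) ∣ 5 := fun w => orderOf_dvd_of_pow_eq_one (ex _ ((e2 _).2 ⟨w, rfl⟩))
  have hM : M5 L W := by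
    refine ⟨Group.isSolvable_of_surjective π1, hR.map π π1, fun d => ?_, fun w => e1 ?_, π3, ?_, fun w => ?_⟩
    · obtain ⟨l, hl⟩ := exists_prime_orderOf_dvd_card' 5 d
      obtain ⟨g, rfl⟩ := π1 l
      obtain ⟨a, b, k, -, -, rfl, -, ha, hb⟩ := parts g f5.out
      rw [map_mul, (π2 a).2 (c a (mem_sylow P ha)), one_mul] at hl
      exact absurd (Nat.Coprime.coprime_dvd_left (hl ▸ orderOf_map_dvd π b) hb) (by decide)
    · rw [e5, e3, ex _ ((e2 _).2 ⟨w, rfl⟩)]
    · obtain ⟨w, rfl⟩ := (e2 v).1 hv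
      exact ⟨w, fun k => v1 (k ▸ e3)⟩
    · obtain ⟨g, hg⟩ := isConj_iff.1 (hR (e w) 2 (Nat.Coprime.coprime_dvd_right (o5 w) (by decide)))
      exact ⟨π g, e1 (by rw [e6, e5, hg])⟩
  have y3 : π y * π y * π y = 1 := by rw [← pow_three', ← map_pow, ← h.oy, pow_orderOf_eq_one, map_one]
  have hq : Qd W (π y) := fun w => by
    have k : π y • (w + π y • w + π y • π y • w) = w + π y • w + π y • π y • w := by
      rw [smul_add, smul_add, ← mul_smul (π y) (π y) (π y • w), ← mul_smul (π y * π y) (π y) w, y3, one_smul]; abel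
    generalize w + π y • w + π y • π y • w = s at k
    have m : e s ∈ centralizer {y} := mem_cz.2 (mul_inv_eq_iff_eq_mul.1 ((e6 y s).symm.trans (congrArg e k))).symm
    obtain ⟨j, hj⟩ := IsPGroup.iff_card.1 hO.p3
    have d := (centralizer {y}).orderOf_dvd_natCard m
    rw [show Nat.card (centralizer ({y} : Set G)) = 2 * 3 ^ j from hj ▸ hO.card] at d
    exact e1 ((orderOf_eq_one_iff.1 (Nat.eq_one_of_dvd_coprimes (Nat.Coprime.mul_right (by decide)
      (Nat.Coprime.pow_right j (by decide))) (o5 s) d)).trans e3.symm)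
  have o3 := hM.ord hq
  have g4 : π (t * y) ^ 4 = π y := by rw [← map_pow, p1.2]
  have πy1 : π y ≠ 1 := fun k => by rw [k] at o3; simp at o3
  have d3 : 3 ∣ cz (π (t * y)) := (o3 ▸ g4 ▸ orderOf_pow_dvd 4).trans (ord_dvd_cz _)
  have l6 := (cz_map_le π π1 (t * y)).trans c6
  have n0 := cz_ne (π (t * y))
  rcases (show cz (π (t * y)) = 3 ∨ cz (π (t * y)) = 6 by omega) with k | k
  · rw [pow_succ, orderOf_dvd_iff_pow_eq_one.1 (k ▸ ord_dvd_cz _), one_mul] at g4
    exact hM.not_three hq (g4 ▸ k)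
  obtain ⟨y', t', h', i, hi⟩ := exists_six (fun k => πy1 (by rw [← g4, k, one_pow])) k
  have e7 := (six_pow h' i).2
  rw [show (t' * y') ^ i = π (t * y) from hi, g4] at e7
  have y3' : y' ^ (3 : ℤ) = 1 := by rw [zpow_ofNat, ← h'.oy, pow_orderOf_eq_one]
  refine hM.six_false ?_ h'
  rw [← Int.mul_ediv_add_emod i 3, zpow_add, zpow_mul, y3', one_zpow, one_mul] at e7
  rcases (show i % 3 = 0 ∨ i % 3 = 1 ∨ i % 3 = 2 by omega) with r | r | r <;> rw [r] at e7
  · exact absurd (e7.trans (zpow_zero _)) πy1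
  · exact zpow_one y' ▸ e7 ▸ hq
  · have : y' = (π y)⁻¹ := by
      rw [eq_inv_iff_mul_eq_one, e7, ← zpow_one_add]; exact y3'
    exact this ▸ hq.inv

end H42.S3
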