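import Mathlib
import Cfsg.Agent.Base
import Cfsg.Agent.Lib.S3C.Defs
import Cfsg.Agent.Lib.S3C.TL
import Cfsg.Agent.Lib.Perm.MinNormal
import Cfsg.Agent.Lib.Core.Coprime
import Cfsg.Agent.Lib.Core.PCore

/-! Centralizer orders are allowed numbers. -/

set_option autoImplicit false

namespace H42.S3

open Subgroup

universe u

namespace LP

theorem mem_syl {G : Type*} [Group G] {p : ℕ} (P : Sylow p G) [(P : Subgroup G).Normal] {a : G} {k : ℕ}
    (ha : a ^ p ^ k = 1) : a ∈ P := by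
  have h : IsPGroup p (zpowers a) := by
    rintro ⟨_, i, rfl⟩
    exact ⟨k, Subtype.ext (by
      rw [coe_pow, ← zpow_natCast, ← zpow_mul, mul_comm, zpow_mul, zpow_natCast, ha, one_zpow]; rfl)⟩
  exact (P.is_maximal' (h.to_sup_of_normal_right P.isPGroup') le_sup_right).le (mem_sup_left (mem_zpowers a))

/-- the count in the quotient -/
theorem quo {X : Type*} [Group X] [Finite X] (hR : Rat X) {p : ℕ} (hp : p.Prime) (h5 : 5 ≤ p) (V : Subgroup X)
    [V.Normal] (hV : ∀ a ∈ V, ∀ b ∈ V, Commute a b) (he : ∀ a ∈ V, a ^ p = 1)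
    (hc : ∀ (c : X) (k : ℕ), c ^ p ^ k = 1 → ∀ b ∈ V, Commute c b) {v a : X} (hv : v ∈ V) (v1 : v ≠ 1)
    (va : Commute v a) (oa : (orderOf a).Coprime p) :
    p ^ 2 ∣ Nat.card (V ⊓ centralizer (zpowers a : Set X) : Subgroup X) ∧
      (11 ≤ p → p ^ 4 ∣ Nat.card (V ⊓ centralizer (zpowers a : Set X) : Subgroup X)) := by
  have := Fact.mk hp
  have ov : orderOf v = p := orderOf_eq_prime (he v hv) v1
  obtain ⟨l, hl, lp⟩ := exists_prim hp
  obtain ⟨c, c1, c2⟩ := hR.two va (j := l) (k := 1) (ov ▸ oa.symm) (ov ▸ lp) (Nat.coprime_one_left _)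
  rw [pow_one, mul_inv_eq_iff_eq_mul] at c2
  obtain ⟨d, h, k, -, ⟨j, hj⟩, e, -, hd, oh⟩ := parts c hp
  have ha : Commute h a := hj ▸ Commute.pow_left c2 j
  have hv' : h * v * h⁻¹ = v ^ l := by
    rw [← c1, e, mul_inv_rev, mul_assoc d, mul_assoc d, ← mul_assoc (h * v),
      ← mul_assoc d, (hc d k hd _ (Normal.conj_mem inferInstance v hv h)).eq, mul_inv_cancel_right]
  have cop : ∀ x : X, (orderOf x).Coprime p → Cfsg.IsPiSubgroup ({p}ᶜ : Set ℕ) (zpowers x) := fun x hx =>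
    H1.isPiSubgroup_compl_singleton_iff.2 (by rwa [Nat.card_zpowers])
  have hΓ := H1.isPiSubgroup_compl_singleton_iff.1 (H1.isPiSubgroup_sup_of_le_normalizer (cop h oh) (cop a oa)
    (zpowers_le.2 (centralizer_le_normalizer _ (mem_centralizer_iff.2 (by
      rintro _ ⟨i, rfl⟩; exact (ha.zpow_right i).symm.eq)))))
  have nz : ∀ g : X, g * v * g⁻¹ ∈ zpowers v → g ∈ normalizer (zpowers v : Set X) := fun g hg =>
    mem_normalizer_fintype (by
      rintro _ ⟨i, rfl⟩
      rw [← conj_zpow]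
      exact zpow_mem hg i)
  have hn : zpowers h ⊔ zpowers a ≤ normalizer (zpowers v : Set X) := sup_le
    (zpowers_le.2 (nz h (hv' ▸ pow_mem (mem_zpowers v) l)))
    (zpowers_le.2 (nz a (by rw [← va.eq, mul_inv_cancel_right]; exact mem_zpowers v)))
  have := tlg hR hp h5 V hV he (zpowers h ⊔ zpowers a) ((Nat.Prime.coprime_iff_not_dvd hp).1 hΓ.symm) hv v1
    (fun g hg => (mem_normalizer_iff.1 (hn hg) v).1 (mem_zpowers v)) (mem_sup_left (mem_zpowers h)) hl hv'
    (V ⊓ centralizer (((zpowers h ⊔ zpowers a) ⊓ centralizer {v} : Subgroup X) : Set X)) fun x =>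
      and_congr_right fun _ => ⟨fun k g h1 h2 => mem_centralizer_iff.1 k g ⟨h1, mem_cz.2 h2⟩,
        fun k => mem_centralizer_iff.2 fun g hg => k g hg.1 (mem_cz.1 hg.2)⟩
  have d := card_dvd_of_le (inf_le_inf_left V (centralizer_le (G := X)
    (show zpowers a ≤ (zpowers h ⊔ zpowers a) ⊓ centralizer {v} from
      le_inf le_sup_right (zpowers_le.2 (mem_cz.2 va.symm)))))
  exact ⟨this.1.trans d, fun k => (this.2 k).trans d⟩

theorem main {G : Type*} [Group G] [Finite G] (hR : Rat G) (hN : NS G) {p : ℕ} (hp : p.Prime) (h5 : 5 ≤ p)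
    {w a : G} {k : ℕ} (hw : w ^ p ^ k = 1) (w1 : w ≠ 1) (wa : Commute w a) (oa : (orderOf a).Coprime p) :
    p ^ 2 ∣ cz (w * a) ∧ (11 ≤ p → p ^ 4 ∣ cz (w * a)) := by
  have := Fact.mk hp
  obtain ⟨P⟩ : Nonempty (Sylow p G) := inferInstance
  have := hN p hp h5 P
  obtain ⟨K, ⟨nK, KP, wK⟩, mx⟩ := Set.Finite.exists_maximal (Set.toFinite
    {K : Subgroup G | K.Normal ∧ K ≤ P ∧ w ∉ K}) ⟨⊥, inferInstance, bot_le, fun h => w1 (mem_bot.1 h)⟩
  let π := QuotientGroup.mk' K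
  have πs : Function.Surjective π := QuotientGroup.mk'_surjective K
  set R := (P : Subgroup G).map π with hR'
  have nR : R.Normal := Normal.map inferInstance π πs
  have pR : IsPGroup p R := P.isPGroup'.map π
  have π1 : π w ≠ 1 := fun e => wK ((QuotientGroup.eq_one_iff w).1 e)
  have ab : IsMulCommutative (R ⊓ centralizer (R : Set (G ⧸ K)) : Subgroup (G ⧸ K)) :=
    ⟨⟨fun a b => Subtype.ext (mem_centralizer_iff.1 b.2.2 a a.2.1)⟩⟩
  set V := H26.powKer _ ab p with hV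
  have nV : V.Normal := H26.powKer_normal _ ab p
  have VR : V ≤ R := fun v hv => (H26.mem_powKer.1 hv).1.1
  have cV : ∀ a ∈ R, ∀ v ∈ V, Commute a v := fun a ha v hv => mem_centralizer_iff.1 (H26.mem_powKer.1 hv).1.2 a ha
  have MP : V.comap π ≤ P := fun x hx => by
    obtain ⟨y, hy, e⟩ := VR hx
    exact (mul_mem_cancel_left (inv_mem hy)).1 (KP ((QuotientGroup.eq).1 e))
  have wV : π w ∈ V := by
    by_contra h
    have : Nontrivial R := ⟨⟨⟨π w, w, mem_syl P hw, rfl⟩, 1, fun e => π1 (congrArg Subtype.val e)⟩⟩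
    obtain ⟨j, hj, e⟩ := (pR.to_subgroup (center R)).nontrivial_iff_card.1 pR.center_nontrivial
    obtain ⟨v, hv⟩ := exists_prime_orderOf_dvd_card' (G := center R) p (e ▸ dvd_pow_self p hj.ne')
    obtain ⟨x, hx⟩ := πs v.1.1
    have m : x ∈ V.comap π := by
      rw [mem_comap, hx]
      refine H26.mem_powKer.2 ⟨⟨v.1.2, mem_centralizer_iff.2 fun a ha =>
        congrArg Subtype.val (mem_center_iff.1 v.2 ⟨a, ha⟩)⟩, ?_⟩
      rw [← hv, ← coe_pow, ← coe_pow, pow_orderOf_eq_one]; rfl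
    have := (QuotientGroup.eq_one_iff x).2 (mx (y := V.comap π) ⟨inferInstance, MP, h⟩ (fun y hy => by
      rw [mem_comap, show π y = 1 from (QuotientGroup.eq_one_iff y).2 hy]; exact V.one_mem) m)
    rw [show v = 1 from Subtype.ext (Subtype.ext (hx.symm.trans this)), orderOf_one] at hv
    exact hp.one_lt.ne hv
  have q := quo (hR.map π πs) hp h5 V (fun a ha => cV a (VR ha)) (fun v hv => (H26.mem_powKer.1 hv).2)
    (fun c j hc => cV c (by
      obtain ⟨g, rfl⟩ := πs c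
      obtain ⟨d, b, i, -, ⟨n, hn⟩, e, -, hd, ob⟩ := parts g hp
      have : π b = 1 := orderOf_eq_one_iff.1 (Nat.eq_one_of_dvd_coprimes (ob.pow_right j) (orderOf_map_dvd π b)
        (orderOf_dvd_of_pow_eq_one (by rw [← hn, map_pow, ← pow_mul, mul_comm, pow_mul, hc, one_pow])))
      exact ⟨d, mem_syl P hd, by rw [e, map_mul, this, mul_one]⟩))
    wV π1 (wa.map π) (oa.coprime_dvd_left (orderOf_map_dvd π a))
  have pM : IsPGroup p (V.comap π) := P.isPGroup'.to_le MP
  have e := H2.map_inf_centralizer_of_coprime (A := zpowers a) (K := V.comap π) (by rw [normalizer_eq_top]; exact le_top)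
    (H2.coprime_card_of_isPGroup (by rwa [Nat.card_zpowers]) pM) (Or.inl (H2.isSolvable_zpowers a)) π
  rw [map_comap_eq_self_of_surjective πs, MonoidHom.map_zpowers] at e
  rw [← e] at q
  set D := V.comap π ⊓ centralizer (zpowers a : Set G) with hD
  have wD : w ∈ D := ⟨wV, mem_centralizer_iff.2 (by rintro _ ⟨i, rfl⟩; exact (wa.zpow_right i).symm.eq)⟩
  have h1 := cz_map_le (π.subgroupMap D) (π.subgroupMap_surjective D) ⟨w, wD⟩
  rw [cz, show centralizer ({π.subgroupMap D ⟨w, wD⟩} : Set (D.map π)) = ⊤ from eq_top_iff.2 fun x _ =>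
    mem_cz.2 (Subtype.ext (cV _ (VR (e.le x.2).1) _ wV).eq), card_top] at h1
  obtain ⟨j, hj⟩ := IsPGroup.iff_card.1 ((pM.to_le (inf_le_left : D ≤ _)).to_subgroup (centralizer {⟨w, wD⟩}))
  have h2 : p ^ j ∣ cz (w * a) := by
    rw [← hj, ← card_map_of_injective (subtype_injective D)]
    refine card_dvd_of_le ?_
    rintro _ ⟨x, hx, rfl⟩
    exact mem_cz.2 (Commute.mul_right (congrArg Subtype.val (mem_cz.1 hx).eq)
      (mem_centralizer_iff.1 x.2.2 a (mem_zpowers a)).symm)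
  have key : ∀ n, p ^ n ∣ Nat.card (D.map π) → p ^ n ∣ cz (w * a) := fun n hn =>
    (pow_dvd_pow p ((Nat.pow_le_pow_iff_right hp.one_lt).1
      ((Nat.le_of_dvd Nat.card_pos hn).trans (h1.trans hj.le)))).trans h2
  exact ⟨key 2 q.1, fun k => key 4 (q.2 k)⟩

end LP

theorem alw {G : Type*} [Group G] [Finite G] (hR : Rat G) (hN : NS G) (g : G) : Alw (cz g) := by
  refine ⟨cz_ne g, fun p hp h5 hd => ?_⟩
  have := Fact.mk hp
  obtain ⟨w, a, k, -, -, rfl, wa, hw, oa⟩ := parts g hp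
  by_cases w1 : w = 1
  swap
  · exact LP.main hR hN hp h5 hw w1 wa oa
  rw [w1, one_mul] at hd ⊢
  obtain ⟨u, hu⟩ := exists_prime_orderOf_dvd_card' p hd
  rw [← Subgroup.orderOf_coe] at hu
  have ua := mem_cz.1 u.2
  have q := LP.main hR hN hp h5 (w := u) (k := 1) (by rw [pow_one, ← hu, pow_orderOf_eq_one])
    (fun e => hp.one_lt.ne (by rw [← hu, e, orderOf_one])) ua oa
  have d : cz (u * a) ∣ cz a := card_dvd_of_le fun x hx => by
    obtain ⟨m, hm⟩ := exists_pow_eq_self_of_coprime (x := a) oa.symm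
    have := ((mem_cz.1 hx).pow_right p).pow_right m
    rw [ua.mul_pow, ← hu, pow_orderOf_eq_one, one_mul, hu, hm] at this
    exact mem_cz.2 this
  exact ⟨q.1.trans d, fun k => (q.2 k).trans d⟩

end H42.S3
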