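import Mathlib
import Cfsg.Agent.Base
import Cfsg.Agent.Lib.S3C.Defs

/-! Two arithmetic inequalities. -/

set_option autoImplicit false

namespace H42.S3

open Subgroup

universe u

namespace NT

theorem fin {r f φ W : ℕ} (hr : 2 ≤ r) (hf : f ≠ 0) (h1 : 1 ≤ φ) (h2 : φ ^ 3 < (r ^ f) ^ 2)
    (hW : W ^ 3 ≤ r ^ f) : φ * (W - 1) < r ^ f - 1 := by
  have h0 : 1 < r ^ f := Nat.one_lt_pow hf hr
  generalize r ^ f = x at *
  have h3 : φ * W < x := by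
    refine lt_of_pow_lt_pow_left₀ 3 (by omega) ?_
    calc (φ * W) ^ 3 = φ ^ 3 * W ^ 3 := mul_pow _ _ _
      _ ≤ φ ^ 3 * x := Nat.mul_le_mul_left _ hW
      _ < x ^ 2 * x := Nat.mul_lt_mul_of_pos_right h2 (by omega)
      _ = x ^ 3 := by ring
  rcases W with _ | W
  · simp; omega
  · rw [Nat.add_sub_cancel]
    rw [mul_add] at h3
    omega

theorem cast_eq {s r n : ℕ} (hr : 1 ≤ r) (h : s ∣ r ^ n - 1) : (r : ZMod s) ^ n = 1 := by
  have := (ZMod.natCast_eq_zero_iff _ _).2 h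
  rw [Nat.cast_sub (Nat.one_le_pow _ _ hr)] at this
  push_cast at this
  exact sub_eq_zero.1 this

theorem sq_sub (x : ℕ) : x ^ 2 - 1 = (x + 1) * (x - 1) := by
  simpa using Nat.sq_sub_sq x 1

theorem md {s b : ℕ} (hs : s.Prime) (h5 : 5 ≤ s) (h : s - 1 ∣ 2 * 3 ^ b) : s % 4 = 3 ∧ s % 3 = 1 := by
  obtain ⟨d, e, hd, he, hde⟩ := (Nat.dvd_mul).1 h
  obtain ⟨c, -, rfl⟩ := (Nat.dvd_prime_pow Nat.prime_three).1 he
  have h1 : Odd (3 ^ c) := Odd.pow (by decide)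
  have h2 := hs.eq_two_or_odd
  obtain ⟨k, hk⟩ := h1
  rcases (Nat.dvd_prime Nat.prime_two).1 hd with rfl | rfl
  · omega
  · rcases c with _ | c
    · simp at hde; omega
    · rw [pow_succ] at hde hk
      omega

theorem nd_odd {s n : ℕ} (hs : s.Prime) (h4 : s % 4 = 3) (h3 : s % 3 = 1) (hn : Odd n) : ¬ s ∣ 3 ^ n - 1 := by
  intro h
  haveI := Fact.mk hs
  have h1 := cast_eq (by norm_num) h
  obtain ⟨k, rfl⟩ := hn
  have h2 : IsSquare ((3 : ℕ) : ZMod s) := ⟨((3 : ℕ) : ZMod s) ^ (k + 1), by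
    linear_combination (-((3 : ℕ) : ZMod s)) * h1⟩
  refine (ZMod.exists_sq_eq_prime_iff_of_mod_four_eq_three h4 (by norm_num) (by omega)).1 h2 ?_
  rw [← ZMod.natCast_mod s 3, h3]
  exact ⟨1, by simp⟩

theorem nd_even {s n : ℕ} (hs : s.Prime) (h4 : s % 4 = 3) (hn : Even n) : ¬ s ∣ 3 ^ n + 1 := by
  intro h
  haveI := Fact.mk hs
  have h1 := (ZMod.natCast_eq_zero_iff _ _).2 h
  push_cast at h1
  obtain ⟨k, rfl⟩ := hn
  exact ZMod.exists_sq_eq_neg_one_iff.1 ⟨(3 : ZMod s) ^ k, by linear_combination -h1⟩ h4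

theorem cop {φ M : ℕ} (h3 : ¬ 3 ∣ φ) (h2 : ¬ 2 ∣ M) (h : ∀ s : ℕ, s.Prime → 5 ≤ s → s ∣ φ → ¬ s ∣ 2 * M) :
    φ.Coprime M := by
  refine Nat.coprime_of_dvd fun s hs h1 h4 => ?_
  by_cases h5 : 5 ≤ s
  · exact h s hs h5 h1 (h4.mul_left 2)
  · have := hs.two_le
    interval_cases s
    · exact h2 h4
    · exact h3 h1
    · exact absurd hs (by decide)

theorem pow_odd {n : ℕ} (h : Odd n) : 3 ^ n % 4 = 3 := by
  obtain ⟨k, rfl⟩ := h
  rw [pow_succ, pow_mul, Nat.mul_mod, Nat.pow_mod]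
  simp

theorem pow_even {n : ℕ} (h : Even n) : 3 ^ n % 4 = 1 := by
  obtain ⟨k, rfl⟩ := h
  rw [← two_mul, pow_mul, Nat.pow_mod]
  simp

end NT

open NT

theorem nt2 {p a f j W : ℕ} (hp : p.Prime) (h5 : 5 ≤ p) (ha : p - 1 ∣ 2 ^ a) (hf : f ≠ 0) (h1 : p ∣ 2 ^ f - 1)
    (hj : p ^ j ∣ 2 ^ f - 1) (hW : W ^ 3 ≤ 2 ^ f) : p ^ j * (W - 1) < 2 ^ f - 1 := by
  haveI := Fact.mk hp
  refine NT.fin le_rfl hf (Nat.one_le_pow _ _ hp.pos) ?_ hW
  have h2 : ((2 : ℕ) : ZMod p) ≠ 0 := fun e =>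
    absurd (Nat.le_of_dvd two_pos ((ZMod.natCast_eq_zero_iff _ _).1 e)) (by omega)
  have h3 : orderOf ((2 : ℕ) : ZMod p) ∣ f := orderOf_dvd_of_pow_eq_one (cast_eq one_le_two h1)
  obtain ⟨c, -, hc⟩ := (Nat.dvd_prime_pow Nat.prime_two).1 ((ZMod.orderOf_dvd_card_sub_one h2).trans ha)
  have h4 : 2 ∣ f := by
    refine Dvd.dvd.trans ?_ h3
    rw [hc]
    refine dvd_pow_self 2 fun e => ?_
    rw [e, pow_zero, orderOf_eq_one_iff] at hc
    exact one_ne_zero (α := ZMod p) (by push_cast at hc; linear_combination hc)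
  obtain ⟨g, rfl⟩ := h4
  have g2 : 2 ≤ g := by
    by_contra hg
    have : g = 1 := by omega
    subst this
    exact absurd (Nat.le_of_dvd (by norm_num) h1) (by omega)
  rw [mul_comm 2 g, pow_mul] at h1 hj ⊢
  have hx : 4 ≤ 2 ^ g := Nat.pow_le_pow_right two_pos g2
  generalize 2 ^ g = x at *
  rw [sq_sub] at h1 hj
  have h6 : p ^ j ≤ x + 1 := by
    by_cases hA : p ∣ x + 1
    · have hB : ¬ p ∣ x - 1 := fun hB => by
        have := Nat.dvd_sub hA hB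
        rw [show x + 1 - (x - 1) = 2 by omega] at this
        exact absurd (Nat.le_of_dvd two_pos this) (by omega)
      exact Nat.le_of_dvd (by omega)
        ((((Nat.Prime.coprime_iff_not_dvd hp).2 hB).pow_left j).dvd_of_dvd_mul_right hj)
    · exact (Nat.le_of_dvd (by omega)
        ((((Nat.Prime.coprime_iff_not_dvd hp).2 hA).pow_left j).dvd_of_dvd_mul_left hj)).trans (by omega)
  calc (p ^ j) ^ 3 ≤ (x + 1) ^ 3 := Nat.pow_le_pow_left h6 3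
    _ < (x ^ 2) ^ 2 := by
      obtain ⟨y, rfl⟩ := Nat.exists_eq_add_of_le hx
      ring_nf
      omega

theorem nt3 {p f φ W : ℕ} (hp : p.Prime) (h5 : 5 ≤ p) (hf : f ≠ 0) (h1 : p ∣ 3 ^ f - 1) (hφ : φ ∣ 3 ^ f - 1)
    (hs : ∀ s : ℕ, s.Prime → 5 ≤ s → s ∣ φ → ∃ b : ℕ, s - 1 ∣ 2 * 3 ^ b) (hW : W ^ 3 ≤ 3 ^ f) :
    φ * (W - 1) < 3 ^ f - 1 := by
  have h0 : 1 < 3 ^ f := Nat.one_lt_pow hf (by norm_num)
  have hφ1 : 1 ≤ φ := Nat.pos_of_dvd_of_pos hφ (by omega)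
  have hφ3 : ¬ 3 ∣ φ := fun h => by
    have h2 := h.trans hφ
    have h3 : 3 ∣ 3 ^ f := dvd_pow_self 3 hf
    omega
  have hm : ∀ s : ℕ, s.Prime → 5 ≤ s → s ∣ φ → s % 4 = 3 ∧ s % 3 = 1 := fun s a b c =>
    let ⟨_, hb⟩ := hs s a b c
    md a b hb
  have odd : ∀ n, Odd n → ∃ M, 3 ^ n - 1 = 2 * M ∧ φ.Coprime M := by
    intro n hn
    have h2 := pow_odd hn
    refine ⟨(3 ^ n - 1) / 2, by omega, cop hφ3 (by clear * - h2; generalize 3 ^ n = x at *; omega)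
      fun s a b c => ?_⟩
    rw [show 2 * ((3 ^ n - 1) / 2) = 3 ^ n - 1 by omega]
    exact nd_odd a (hm s a b c).1 (hm s a b c).2 hn
  refine NT.fin (by norm_num) hf hφ1 ?_ hW
  rcases Nat.even_or_odd f with ⟨g, rfl⟩ | hodd
  · rw [← mul_two, pow_mul] at h1 hφ ⊢
    rw [sq_sub] at h1 hφ
    rcases Nat.even_or_odd g with hg | hg
    · have h2 := pow_even hg
      have h3 : φ.Coprime ((3 ^ g + 1) / 2) := by
        refine cop hφ3 (by omega) fun s a b c => ?_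
        rw [show 2 * ((3 ^ g + 1) / 2) = 3 ^ g + 1 by omega]
        exact nd_even a (hm s a b c).1 hg
      have g2 : 2 ≤ g := by
        obtain ⟨k, rfl⟩ := hg
        clear * - hf
        omega
      have hx : 9 ≤ 3 ^ g := Nat.pow_le_pow_right (by norm_num : 0 < 3) g2
      generalize 3 ^ g = x at *
      rw [show x + 1 = (x + 1) / 2 * 2 by omega, mul_assoc] at hφ
      have h6 := Nat.le_of_dvd (by omega) (h3.dvd_of_dvd_mul_left hφ)
      calc φ ^ 3 ≤ (2 * x) ^ 3 := Nat.pow_le_pow_left (by omega) 3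
        _ < (x ^ 2) ^ 2 := by
          obtain ⟨y, rfl⟩ := Nat.exists_eq_add_of_le hx
          ring_nf
          omega
    · obtain ⟨M, hM, h3⟩ := odd g hg
      have g3 : 3 ≤ g := by
        by_contra hc
        have : g = 1 := by obtain ⟨k, rfl⟩ := hg; omega
        subst this
        have h8 : p ∣ 2 ^ 3 := h1
        exact absurd (Nat.le_of_dvd two_pos (hp.dvd_of_dvd_pow h8)) (by omega)
      have hx : 27 ≤ 3 ^ g := Nat.pow_le_pow_right (by norm_num : 0 < 3) g3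
      rw [hM, ← mul_assoc] at hφ
      generalize 3 ^ g = x at *
      have h6 := Nat.le_of_dvd (by omega) (h3.dvd_of_dvd_mul_right hφ)
      calc φ ^ 3 ≤ ((x + 1) * 2) ^ 3 := Nat.pow_le_pow_left h6 3
        _ < (x ^ 2) ^ 2 := by
          obtain ⟨y, rfl⟩ := Nat.exists_eq_add_of_le hx
          ring_nf
          omega
  · obtain ⟨M, hM, h3⟩ := odd f hodd
    rw [hM] at hφ
    have h6 := Nat.le_of_dvd two_pos (h3.dvd_of_dvd_mul_right hφ)
    have hx : 3 ≤ 3 ^ f := Nat.le_self_pow hf 3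
    calc φ ^ 3 ≤ 2 ^ 3 := Nat.pow_le_pow_left h6 3
      _ < 3 ^ 2 := by norm_num
      _ ≤ (3 ^ f) ^ 2 := Nat.pow_le_pow_left hx 2

end H42.S3
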