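import Mathlib
import Cfsg.Agent.Base
import Cfsg.Agent.Lib.S3C.Defs
import Cfsg.Agent.Lib.Perm.MinNormal

/-! Self-normalizing Sylow subgroups in real solvable groups. -/

set_option autoImplicit false

namespace H42.S3

open Subgroup

universe u

/-- a real element that is not its own inverse has a centralizer of even index -/
theorem sn_even_index {X : Type*} [Group X] {m c : X} (hc : c * m * c⁻¹ = m⁻¹) (hm : m⁻¹ ≠ m) :
    2 ∣ (centralizer ({m} : Set X)).index := by
  let E : Subgroup X :=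
    { carrier := {g | g * m * g⁻¹ = m ∨ g * m * g⁻¹ = m⁻¹}
      one_mem' := Or.inl (by simp)
      mul_mem' := fun {a b} ha hb => by
        have e : a * b * m * (a * b)⁻¹ = a * (b * m * b⁻¹) * a⁻¹ := by group
        have e' : a * m⁻¹ * a⁻¹ = (a * m * a⁻¹)⁻¹ := by group
        show _ ∨ _
        rw [e]
        rcases hb with hb | hb <;> rw [hb]
        · exact ha
        · rw [e']
          rcases ha with ha | ha <;> rw [ha]
          · exact Or.inr rfl
          · exact Or.inl (inv_inv m)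
      inv_mem' := fun {a} ha => by
        show _ ∨ _
        rcases ha with ha | ha
        · left
          calc a⁻¹ * m * a⁻¹⁻¹ = a⁻¹ * (a * m * a⁻¹) * a := by rw [ha]; group
            _ = m := by group
        · right
          calc a⁻¹ * m * a⁻¹⁻¹ = a⁻¹ * (a * m * a⁻¹)⁻¹ * a := by rw [ha]; group
            _ = m⁻¹ := by group }
  have hC : ∀ g : X, g ∈ centralizer ({m} : Set X) ↔ g * m * g⁻¹ = m := fun g => by
    rw [mem_cz, mul_inv_eq_iff_eq_mul]; rfl
  have hle : centralizer ({m} : Set X) ≤ E := fun g hg => Or.inl ((hC g).1 hg)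
  have h2 : (centralizer ({m} : Set X)).relIndex E = 2 := by
    rw [relIndex, index_eq_two_iff]
    refine ⟨⟨c, Or.inr hc⟩, fun b => ?_⟩
    rw [mem_subgroupOf, mem_subgroupOf, hC, hC]
    have e : ((b * ⟨c, Or.inr hc⟩ : E) : X) * m * ((b * ⟨c, Or.inr hc⟩ : E) : X)⁻¹ = ((b : X) * m * (b : X)⁻¹)⁻¹ := by
      show (b : X) * c * m * ((b : X) * c)⁻¹ = _
      calc (b : X) * c * m * ((b : X) * c)⁻¹ = b * (c * m * c⁻¹) * (b : X)⁻¹ := by group
        _ = _ := by rw [hc]; group
    rw [e]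
    rcases b.2 with hb | hb <;> rw [hb]
    · exact Or.inr ⟨rfl, hm⟩
    · exact Or.inl ⟨inv_inv m, hm⟩
  exact h2 ▸ relIndex_dvd_index_of_le hle

/-- in a finite solvable group all of whose elements are real the Sylow `2`-subgroups are self-normalizing -/
theorem sn_real : ∀ (n : ℕ) (X : Type u) [Group X] [Finite X], Nat.card X = n → Group.IsSolvable X →
    (∀ x : X, ∃ c : X, c * x * c⁻¹ = x⁻¹) → ∀ T : Sylow 2 X, normalizer (T : Set X) ≤ (T : Subgroup X) := by
  intro n
  induction n using Nat.strong_induction_on with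
  | _ n ih =>
  intro X _ _ hn hs hr T g hg
  by_cases htop : (⊤ : Subgroup X) = ⊥
  · have : g = 1 := mem_bot.1 (htop ▸ mem_top g)
    rw [this]; exact one_mem _
  obtain ⟨M, hMn, hM, -, hmin⟩ := H26.exists_minNormal_le (⊤ : Subgroup X) htop
  have hab : ⁅M, M⁆ = ⊥ :=
    (hmin _ inferInstance (commutator_le_left M M)).resolve_right (Group.IsSolvable.commutator_lt_of_ne_bot hM).ne
  have hab' : IsMulCommutative M := by
    rw [← le_centralizer_iff_isMulCommutative]
    exact commutator_eq_bot_iff_le_centralizer.1 hab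
  obtain ⟨q, hq, hMq⟩ := H26.minNormal_elementary M hM hmin hab'
  have hlt : Nat.card (X ⧸ M) < n := by
    rw [← hn, card_eq_card_quotient_mul_card_subgroup M]
    exact lt_mul_of_one_lt_right Nat.card_pos (one_lt_card_iff_ne_bot M |>.2 hM)
  have hf := QuotientGroup.mk'_surjective M
  have h1 := ih _ hlt (X ⧸ M) rfl inferInstance (fun x => by
    obtain ⟨y, rfl⟩ := hf x
    obtain ⟨c, hc⟩ := hr y
    exact ⟨QuotientGroup.mk' M c, by rw [← map_mul, ← map_inv, ← map_mul, hc, map_inv]⟩) (T.mapSurjective hf)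
  have h2 : QuotientGroup.mk' M g ∈ (T : Subgroup X).map (QuotientGroup.mk' M) :=
    h1 (le_normalizer_map (H := (T : Subgroup X)) (QuotientGroup.mk' M) (mem_map_of_mem _ hg))
  obtain ⟨t, ht, htg⟩ := h2
  have hm : t⁻¹ * g ∈ M := QuotientGroup.eq.1 htg
  suffices hh : t⁻¹ * g ∈ (T : Subgroup X) by simpa using mul_mem ht hh
  have hmN : t⁻¹ * g ∈ normalizer ((T : Subgroup X) : Set X) := mul_mem (inv_mem (le_normalizer ht)) hg
  set m := t⁻¹ * g
  have := Fact.mk hq
  have hMp : IsPGroup q M := fun x => ⟨1, Subtype.ext (by rw [pow_one]; exact hMq x x.2)⟩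
  by_cases hq2 : q = 2
  · subst hq2
    exact hMp.le_sylow_of_normal T hm
  by_contra hmT
  have hd : Disjoint M T := IsPGroup.disjoint_of_ne q 2 hq2 _ _ hMp T.isPGroup'
  have hTC : (T : Subgroup X) ≤ centralizer ({m} : Set X) := fun s hs => by
    rw [mem_cz]
    have a1 : m * s * m⁻¹ * s⁻¹ ∈ M := by
      have := mul_mem hm (hMn.conj_mem _ (inv_mem hm) s)
      simpa [mul_assoc] using this
    have a2 : m * s * m⁻¹ * s⁻¹ ∈ (T : Subgroup X) := mul_mem ((mem_normalizer_iff.1 hmN s).1 hs) (inv_mem hs)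
    have a3 := disjoint_def.1 hd a1 a2
    have : m * s = s * m := by
      calc m * s = (m * s * m⁻¹ * s⁻¹) * (s * m) := by group
        _ = s * m := by rw [a3, one_mul]
    exact this.symm
  obtain ⟨c, hc⟩ := hr m
  have hne : m⁻¹ ≠ m := fun e => hmT (by
    have e2 : m ^ 2 = 1 := by rw [pow_two]; nth_rewrite 1 [← e]; exact inv_mul_cancel m
    have : orderOf m = 1 := Nat.eq_one_of_dvd_coprimes ((Nat.coprime_primes hq Nat.prime_two).2 hq2)
      (orderOf_dvd_of_pow_eq_one (hMq m hm)) (orderOf_dvd_of_pow_eq_one e2)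
    rw [orderOf_eq_one_iff.1 this]; exact one_mem _)
  exact T.not_dvd_index ((sn_even_index hc hne).trans (index_dvd_of_le hTC))

theorem sn_aux {X : Type u} [Group X] [Finite X] (hs : Group.IsSolvable X) {p : ℕ} (hp : p.Prime) (P B : Subgroup X)
    [P.Normal] (hP : IsPGroup p P) (h2 : ¬ 2 ∣ B.index) (hr : ∀ x : X ⧸ P, ∃ c : X ⧸ P, c * x * c⁻¹ = x⁻¹) :
    ∃ j : ℕ, B.relIndex (normalizer (B : Set X)) = p ^ j := by
  have := Fact.mk hp
  obtain ⟨T₁⟩ : Nonempty (Sylow 2 B) := inferInstance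
  have hi : ¬ 2 ∣ ((T₁ : Subgroup B).map B.subtype).index := by
    rw [index_map_subtype]
    exact fun h => (Nat.prime_two.dvd_mul.1 h).elim T₁.not_dvd_index h2
  let T : Sylow 2 X := (T₁.isPGroup'.map B.subtype).toSylow hi
  have hTB : (T : Subgroup X) ≤ B := map_subtype_le _
  have hf := QuotientGroup.mk'_surjective P
  have hNT : normalizer ((T : Subgroup X) : Set X) ≤ B ⊔ P := fun g hg => by
    have h1 := sn_real _ (X ⧸ P) rfl inferInstance hr (T.mapSurjective hf)
    obtain ⟨t, ht, htg⟩ : QuotientGroup.mk' P g ∈ (T : Subgroup X).map (QuotientGroup.mk' P) :=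
      h1 (le_normalizer_map (H := (T : Subgroup X)) (QuotientGroup.mk' P) (mem_map_of_mem _ hg))
    have hm : t⁻¹ * g ∈ P := QuotientGroup.eq.1 htg
    simpa using mul_mem (mem_sup_left (T := P) (hTB ht)) (mem_sup_right hm)
  have hTΦ : (T : Subgroup X) ≤ normalizer (B : Set X) := hTB.trans le_normalizer
  have hfr := Sylow.normalizer_sup_eq_top' (N := B.subgroupOf (normalizer (B : Set X))) (T.subtype hTΦ)
    (by rw [Sylow.coe_subtype]; exact fun x hx => hTB hx)
  have hΦ : normalizer (B : Set X) ≤ B ⊔ P := by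
    rw [← subgroupOf_eq_top, eq_top_iff, ← hfr]
    refine sup_le ?_ fun x hx => mem_subgroupOf.2 (mem_sup_left (mem_subgroupOf.1 hx))
    have : normalizer ((T.subtype hTΦ : Sylow 2 (normalizer (B : Set X))) : Set (normalizer (B : Set X))) =
        (normalizer ((T : Subgroup X) : Set X)).subgroupOf (normalizer (B : Set X)) :=
      (subgroupOf_normalizer_eq hTΦ).symm
    rw [this]
    exact fun x hx => mem_subgroupOf.2 (hNT (mem_subgroupOf.1 hx))
  have d1 : B.relIndex (normalizer (B : Set X)) ∣ B.relIndex (B ⊔ P) :=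
    Dvd.intro _ (relIndex_mul_relIndex _ _ _ le_normalizer hΦ)
  have d2 : B.relIndex (B ⊔ P) ∣ Nat.card P := by
    have e1 : Nat.card (B.subgroupOf (B ⊔ P)) * B.relIndex (B ⊔ P) = Nat.card (B ⊔ P :) := card_mul_index _
    have e2 : Nat.card (P.subgroupOf (B ⊔ P)) * P.relIndex (B ⊔ P) = Nat.card (B ⊔ P :) := card_mul_index _
    have e3 : Nat.card (P.subgroupOf B) * P.relIndex B = Nat.card B := card_mul_index _
    rw [Nat.card_congr (subgroupOfEquivOfLe le_sup_left).toEquiv, ← e3] at e1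
    rw [Nat.card_congr (subgroupOfEquivOfLe le_sup_right).toEquiv, relIndex_sup_right, ← e1] at e2
    have e4 : P.relIndex B ≠ 0 := index_ne_zero_of_finite
    refine ⟨Nat.card (P.subgroupOf B), Nat.eq_of_mul_eq_mul_right (Nat.pos_of_ne_zero e4) ?_⟩
    rw [e2]; ring
  obtain ⟨k, hk⟩ := hP.exists_card_eq
  obtain ⟨j, -, hj⟩ := (Nat.dvd_prime_pow hp).1 (hk ▸ d1.trans d2)
  exact ⟨j, hj⟩

theorem sn2 {L : Type*} [Group L] [Finite L] (hs : Group.IsSolvable L) {p : ℕ} (hp : p.Prime) (P Y B : Subgroup L)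
    [P.Normal] (hP : IsPGroup p P) (hi : ¬ p ∣ P.index) (hPY : P ≤ Y) (hBY : B ≤ Y) (h2 : ¬ 2 ∣ B.relIndex Y)
    (hr : ∀ g ∈ Y, (orderOf g).Coprime p → ∃ c ∈ Y, c * g * c⁻¹ = g⁻¹) :
    ∃ j : ℕ, B.relIndex (Y ⊓ normalizer (B : Set L)) = p ^ j := by
  have := Fact.mk hp
  have hmem : ∀ (g : L) (k : ℕ), g ^ p ^ k = 1 → g ∈ P := fun g k hg => by
    have h1 : IsPGroup p (zpowers g) := by
      rintro ⟨_, i, rfl⟩
      refine ⟨k, Subtype.ext ?_⟩
      show (g ^ i) ^ p ^ k = 1
      rw [← zpow_natCast, ← zpow_mul, mul_comm, zpow_mul, zpow_natCast, hg, one_zpow]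
    have h3 : zpowers g ⊔ P = P := (hP.toSylow hi).3 (h1.to_sup_of_normal_right hP) le_sup_right
    exact h3 ▸ mem_sup_left (mem_zpowers g)
  obtain ⟨j, hj⟩ := sn_aux (X := Y) inferInstance hp (P.subgroupOf Y) (B.subgroupOf Y)
    (hP.of_equiv (subgroupOfEquivOfLe hPY).symm) h2 fun x => by
      obtain ⟨y, rfl⟩ := QuotientGroup.mk'_surjective (P.subgroupOf Y) x
      obtain ⟨a, b, k, -, -, hab, -, ha, hb⟩ := parts y hp
      obtain ⟨c, hc, hcb⟩ := hr b b.2 (by rwa [Subgroup.orderOf_coe])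
      have ha1 : QuotientGroup.mk' (P.subgroupOf Y) a = 1 :=
        (QuotientGroup.eq_one_iff _).2 (mem_subgroupOf.2 (hmem a k (by exact_mod_cast congrArg Subtype.val ha)))
      refine ⟨QuotientGroup.mk' _ ⟨c, hc⟩, ?_⟩
      rw [hab, map_mul, ha1, one_mul, ← map_mul, ← map_inv, ← map_mul, ← map_inv]
      exact congrArg _ (Subtype.ext hcb)
  refine ⟨j, ?_⟩
  rw [← hj, ← subgroupOf_normalizer_eq hBY, ← inf_subgroupOf_left (normalizer (B : Set L)) Y,
    relIndex_subgroupOf inf_le_left]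

end H42.S3
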