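import Mathlib
import Cfsg.Agent.Base
import Cfsg.Agent.Lib.S3C.Defs
import Cfsg.Agent.Lib.S3C.UU
import Cfsg.Agent.Lib.S3C.MOD

/-! The shape of the two primes. -/

set_option autoImplicit false

namespace H42.S3

open Subgroup

universe u

variable {L N : Type*} [Group L] [Finite L] [AddCommGroup N] [Finite N] [DistribMulAction L N] {r p : ℕ}

/-- an element raising `u` to a primitive power: the exponents centralizing `u` are multiples of `p - 1` -/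
theorem st1_dvd {X : Type*} [Group X] {p l k : ℕ} {c u : X} (hu : orderOf u = p)
    (hl : orderOf (l : ZMod p) = p - 1) (hc : c * u * c⁻¹ = u ^ l) (hk : Commute (c ^ k) u) : p - 1 ∣ k := by
  have h1 : ∀ i : ℕ, c ^ i * u * (c ^ i)⁻¹ = u ^ l ^ i := fun i => by
    induction i with
    | zero => simp
    | succ i ih =>
      calc c ^ (i + 1) * u * (c ^ (i + 1))⁻¹ = c * (c ^ i * u * (c ^ i)⁻¹) * c⁻¹ := by rw [pow_succ']; group
        _ = u ^ l ^ (i + 1) := by rw [ih, ← conj_pow, hc, ← pow_mul, ← pow_succ']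
  have h2 := h1 k
  rw [hk.eq, mul_inv_cancel_right] at h2
  have h3 : u ^ 1 = u ^ l ^ k := by rw [pow_one]; exact h2
  rw [pow_eq_pow_iff_modEq, hu, ← ZMod.natCast_eq_natCast_iff] at h3
  rw [← hl, orderOf_dvd_iff_pow_eq_one]
  exact_mod_cast h3.symm

theorem AS.step1 (h : AS L N r p) : ∃ b : ℕ, p - 1 ∣ 2 * r ^ b := by
  have hp := h.hp
  have := Fact.mk hp
  obtain ⟨V, Y, U, hU⟩ := exists_UU h.rat h.ns hp h.five h.dvd
  obtain ⟨hUV, hVY, u₀, hu₀, hu₀1⟩ := hU.le hp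
  obtain ⟨n₀, hn₀⟩ : ∃ n : N, u₀ • n ≠ n := by
    by_contra hn
    push Not at hn
    exact hu₀1 (h.faith _ hn)
  obtain ⟨n, hn, hidx⟩ := hy hp h.inj V hU.comm hU.expV (hUV hu₀) hn₀
  set S := MulAction.stabilizer L n with hS
  have hu₀S : u₀ ∉ S := hn
  obtain ⟨u, hu, huS, hu1⟩ : ∃ u ∈ U, u ∈ S ∧ u ≠ 1 := by
    by_contra hne
    push Not at hne
    have hb : S.subgroupOf U = ⊥ := by
      rw [eq_bot_iff_forall]
      exact fun x hx => Subtype.ext (hne x x.2 (mem_subgroupOf.1 hx))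
    have h1 : S.relIndex U = Nat.card U := by rw [relIndex, hb, index_bot]
    have h2 : S.relIndex U ≤ S.relIndex V := relIndex_le_of_le_right hUV (by rw [hidx]; exact hp.ne_zero)
    have h3 := Nat.le_of_dvd Nat.card_pos hU.big
    have h4 := hp.one_lt
    rw [h1, hidx] at h2
    nlinarith
  have hou : orderOf u = p := orderOf_eq_prime (hU.expV u (hUV hu)) hu1
  obtain ⟨l, hl, hlc⟩ := exists_prim hp
  obtain ⟨α, hαn, hα⟩ := h.rat2 n u l huS (hou ▸ (Nat.coprime_primes hp h.hr).2 h.ne) (hou ▸ hlc)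
  have hαS : α ∈ S := hαn
  obtain ⟨-, hαU⟩ := hU.norm hu hu1 (hα ▸ pow_mem hu l)
  obtain ⟨δ, β, b, -, ⟨j, hj⟩, hδβ, hcomm, hδ, hβ⟩ := parts α h.hr
  have hβS : β ∈ S := hj ▸ pow_mem hαS j
  have hβU : β ∈ normalizer (U : Set L) := hj ▸ pow_mem hαU j
  obtain ⟨γ, hγn, hγ⟩ := h.rat2 n β _ hβS hβ (coprime_pred β)
  have hγS : γ ∈ S := hγn
  rw [pow_pred_eq_inv] at hγ
  have hgen : ∀ x ∈ V, ∃ e : ℤ, (u₀ ^ e)⁻¹ * x ∈ S := by
    intro x hx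
    have : (S.subgroupOf V).Normal := ⟨fun a ha g => by
      have : g * a * g⁻¹ = a := by
        rw [mul_inv_eq_iff_eq_mul]
        exact Subtype.ext (hU.comm _ g.2 _ a.2).eq
      rwa [this]⟩
    have hc : Nat.card (V ⧸ S.subgroupOf V) = p := hidx
    have hne : ((⟨u₀, hUV hu₀⟩ : V) : V ⧸ S.subgroupOf V) ≠ 1 := fun e =>
      hu₀S (mem_subgroupOf.1 ((QuotientGroup.eq_one_iff _).1 e))
    obtain ⟨e, he⟩ := mem_zpowers_of_prime_card hc hne (g' := ((⟨x, hx⟩ : V) : V ⧸ S.subgroupOf V))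
    refine ⟨e, ?_⟩
    have he' : (((⟨u₀, hUV hu₀⟩ : V) ^ e : V) : V ⧸ S.subgroupOf V) = ((⟨x, hx⟩ : V) : V ⧸ S.subgroupOf V) := by
      rw [QuotientGroup.mk_zpow]; exact he
    exact mem_subgroupOf.1 (QuotientGroup.eq.1 he')
  have Rconj : ∀ {g x y : L}, g ∈ S → x⁻¹ * y ∈ S → (g * x * g⁻¹)⁻¹ * (g * y * g⁻¹) ∈ S := fun {g x y} hg hxy => by
    have : (g * x * g⁻¹)⁻¹ * (g * y * g⁻¹) = g * (x⁻¹ * y) * g⁻¹ := by group
    rw [this]
    exact mul_mem (mul_mem hg hxy) (inv_mem hg)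
  have Rpow : ∀ {x y : L} (e : ℤ), x ∈ V → y ∈ V → x⁻¹ * y ∈ S → (x ^ e)⁻¹ * y ^ e ∈ S := fun {x y} e hx hy hxy => by
    rw [← inv_zpow, ← (hU.comm _ (inv_mem hx) _ hy).mul_zpow]
    exact zpow_mem hxy e
  have Rsymm : ∀ {x y : L}, x⁻¹ * y ∈ S → y⁻¹ * x ∈ S := fun {x y} hxy => by
    simpa using inv_mem hxy
  have Rtrans : ∀ {x y z : L}, x⁻¹ * y ∈ S → y⁻¹ * z ∈ S → x⁻¹ * z ∈ S := fun {x y z} hxy hyz => by
    simpa [mul_assoc] using mul_mem hxy hyz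
  have hV₀ := hUV hu₀
  have hβV := hU.nV.conj_mem _ hV₀ β
  have hγV := hU.nV.conj_mem _ hV₀ γ
  obtain ⟨a, ha⟩ := hgen _ hβV
  obtain ⟨c, hc⟩ := hgen _ hγV
  have e1 : (u₀ ^ (a * c))⁻¹ * (β * (γ * u₀ * γ⁻¹) * β⁻¹) ∈ S := by
    have t1 := Rpow c (zpow_mem hV₀ a) hβV ha
    rw [← zpow_mul, conj_zpow] at t1
    exact Rtrans t1 (Rconj hβS hc)
  have e2 : (u₀ ^ (a * c))⁻¹ * (β⁻¹ * (γ * u₀ * γ⁻¹) * β) ∈ S := by
    have t1 := Rpow a (zpow_mem hV₀ c) hγV hc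
    rw [← zpow_mul, conj_zpow, mul_comm c a] at t1
    have t2 := Rtrans t1 (Rconj hγS ha)
    have : γ * (β * u₀ * β⁻¹) * γ⁻¹ = β⁻¹ * (γ * u₀ * γ⁻¹) * β := by
      calc γ * (β * u₀ * β⁻¹) * γ⁻¹ = (γ * β * γ⁻¹) * (γ * u₀ * γ⁻¹) * (γ * β * γ⁻¹)⁻¹ := by group
        _ = _ := by rw [hγ, inv_inv]
    rwa [this] at t2
  have e3 : (γ * u₀ * γ⁻¹)⁻¹ * (β ^ 2 * (γ * u₀ * γ⁻¹) * (β ^ 2)⁻¹) ∈ S := by
    have t := Rconj hβS (Rtrans (Rsymm e2) e1)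
    have s1 : β * (β⁻¹ * (γ * u₀ * γ⁻¹) * β) * β⁻¹ = γ * u₀ * γ⁻¹ := by group
    have s2 : β * (β * (γ * u₀ * γ⁻¹) * β⁻¹) * β⁻¹ = β ^ 2 * (γ * u₀ * γ⁻¹) * (β ^ 2)⁻¹ := by
      rw [pow_two]; group
    rwa [s1, s2] at t
  have e4 : (u₀ ^ c)⁻¹ * (β ^ 2 * u₀ ^ c * (β ^ 2)⁻¹) ∈ S :=
    Rtrans (Rtrans hc e3) (Rsymm (Rconj (pow_mem hβS 2) hc))
  have hzS : u₀ ^ c ∉ S := fun hz => hu₀S (by
    have t : γ * u₀ * γ⁻¹ ∈ S := by simpa using mul_mem hz hc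
    simpa [mul_assoc] using mul_mem (mul_mem (inv_mem hγS) t) hγS)
  have hβY : β ^ 2 ∈ Y := hU.u2 hp S (zpow_mem hu₀ c) hzS
    (fun x hx => (mem_normalizer_iff.1 (pow_mem hβU 2) x).1 hx)
    (fun x _ hx => mul_mem (mul_mem (pow_mem hβS 2) hx) (inv_mem (pow_mem hβS 2))) e4
  refine ⟨b, st1_dvd hou hl hα ?_⟩
  have : α ^ (2 * r ^ b) = (β ^ 2) ^ r ^ b := by
    rw [hδβ, hcomm.mul_pow, mul_comm 2, pow_mul, hδ, one_pow, one_mul, ← pow_mul, mul_comm]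
  rw [this]
  rw [← hU.eqY u hu hu1, mem_cz] at hβY
  exact hβY.pow_left _

theorem AS.r23 (h : AS L N r p) : r = 2 ∨ r = 3 := by
  by_contra hne
  push Not at hne
  have hp := h.hp
  have hr := h.hr
  have := Fact.mk hp
  have := Fact.mk hr
  have hr5 : 5 ≤ r := hr.five_le_of_ne_two_of_ne_three hne.1 hne.2
  obtain ⟨b, hb⟩ := h.step1
  have hrp : r ∣ p - 1 := by
    by_contra hn
    have := ((Nat.Prime.coprime_iff_not_dvd hr).2 hn).symm.pow_right b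
    have h2 := Nat.le_of_dvd two_pos (this.dvd_of_dvd_mul_right hb)
    have := h.five
    omega
  obtain ⟨V, Y, U, hU⟩ := exists_UU h.rat h.ns hp h.five h.dvd
  obtain ⟨hUV, hVY, u, hu, hu1⟩ := hU.le hp
  have hou : orderOf u = p := orderOf_eq_prime (hU.expV u (hUV hu)) hu1
  obtain ⟨l, hl, hlc⟩ := exists_prim hp
  obtain ⟨c, hc⟩ := isConj_iff.1 (h.rat u l (hou ▸ hlc))
  obtain ⟨δ, β, k, -, -, hδβ, -, hδ, hβ⟩ := parts c hr
  obtain ⟨P⟩ : Nonempty (Sylow p L) := inferInstance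
  obtain ⟨R⟩ : Nonempty (Sylow r L) := inferInstance
  have hPn := h.ns p hp h.five P
  have hRn := h.ns r hr hr5 R
  have hw : β * u * β⁻¹ ∈ (P : Subgroup L) :=
    uu_mem_sylow P hPn (k := 1) (by rw [pow_one]; exact hU.expV _ (hU.nV.conj_mem u (hUV hu) β))
  have hcom : Commute δ (β * u * β⁻¹) :=
    commute_of_normal_of_disjoint _ _ hRn hPn
      (IsPGroup.disjoint_of_ne r p h.ne.symm _ _ R.isPGroup' P.isPGroup') _ _ (uu_mem_sylow R hRn hδ) hw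
  have hβu : β * u * β⁻¹ = u ^ l := by
    rw [← hc, hδβ]
    calc β * u * β⁻¹ = δ * (β * u * β⁻¹) * δ⁻¹ := by rw [hcom.eq]; group
      _ = _ := by group
  have h1 : p - 1 ∣ orderOf β := st1_dvd hou hl hβu (by rw [pow_orderOf_eq_one]; exact Commute.one_left u)
  exact (Nat.Prime.coprime_iff_not_dvd hr).1 hβ.symm (hrp.trans h1)

end H42.S3
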