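import Mathlib
import Cfsg.Agent.Base
import Cfsg.Agent.Lib.S3C.Defs
import Cfsg.Agent.Lib.S3C.UU
import Cfsg.Agent.Lib.S3C.MOD

/-! Covering by fixed point sets. -/

set_option autoImplicit false

namespace H42.S3

open Subgroup

universe u

variable {L N : Type*} [Group L] [Finite L] [AddCommGroup N] [Finite N] [DistribMulAction L N] {r p : ℕ}
  {V Y U κ B : Subgroup L} {z u : L} {D : AddSubgroup N}

omit [Finite N] in
theorem Cfg.st2_pow (h : AS L N r p) (c : Cfg r p V Y U κ B z u D) {x : L} (hx : x ∈ U) :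
    ∃ e : ℕ, (z ^ e)⁻¹ * x ∈ κ := by
  have := Fact.mk h.hp
  have hU := (c.uu.le h.hp).1
  have : (κ.subgroupOf U).Normal := ⟨fun a ha g => by
    rw [mem_subgroupOf] at ha ⊢
    simpa [(c.uu.comm _ (hU g.2) _ (hU a.2)).eq] using ha⟩
  obtain ⟨e, he⟩ := mem_powers_of_prime_card (G := U ⧸ κ.subgroupOf U) (p := p) c.idx
    (g := ((⟨z, c.zU⟩ : U) : U ⧸ κ.subgroupOf U)) (g' := ((⟨x, hx⟩ : U) : U ⧸ κ.subgroupOf U))
    fun e => c.zκ (mem_subgroupOf.1 ((QuotientGroup.eq_one_iff _).1 e))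
  exact ⟨e, mem_subgroupOf.1 (QuotientGroup.eq.1 ((QuotientGroup.mk_pow _ _ _).trans he))⟩

theorem Cfg.st2_fix (h : AS L N r p) (c : Cfg r p V Y U κ B z u D) {l : ℕ} (hl : orderOf (l : ZMod p) = p - 1) {a : L}
    (hu : a * u * a⁻¹ = u ^ l) (aU : a ∈ normalizer (U : Set L)) (aκ : a ∈ normalizer (κ : Set L))
    (aB : a ∈ normalizer (B : Set L)) : Nat.card {n : N // n ∈ D ∧ a • n = n} ^ 3 ≤ Nat.card D := by
  have := Fact.mk h.hp
  obtain ⟨hU, hY, -⟩ := c.uu.le h.hp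
  have zp : z ^ p = 1 := c.uu.expV z (hU c.zU)
  have cU : ∀ x ∈ U, a * x * a⁻¹ ∈ U := fun x => (mem_normalizer_iff.1 aU x).1
  have cκ : ∀ x ∈ κ, a * x * a⁻¹ ∈ κ := fun x => (mem_normalizer_iff.1 aκ x).1
  have zn : ∀ K ≤ Y, z ∈ normalizer (K : Set L) := fun K hK => mem_normalizer_iff.2 fun x =>
    ⟨fun hx => by rwa [← (((c.uu.memU z).1 c.zU).2 x (hK hx)).eq, mul_inv_cancel_right], fun hx => by
      have := (((c.uu.memU z).1 c.zU).2 _ (hK hx)).eq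
      rwa [show x = z * x * z⁻¹ from mul_left_cancel (a := z) (by rw [← this]; group)]⟩
  obtain ⟨e, he⟩ := c.st2_pow h (cU z c.zU)
  obtain ⟨k, hk, hz⟩ : ∃ k ∈ κ, a * z * a⁻¹ = z ^ e * k := ⟨_, he, by group⟩
  have fx : ∀ k ∈ κ, ∀ n ∈ D, k • n = n := fun k hk n hn => by
    by_cases n0 : n = 0
    · rw [n0, smul_zero]
    · exact (c.stU n hn n0 k (c.κU hk)).2 hk
  refine v3 D (z := z) (e := e) h.hp (c.pres z (zn U (hU.trans hY)) (zn κ (c.κU.trans (hU.trans hY))) (zn B c.BY))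
    (fun n hn => ?_) (fun j hj n hn e1 => ?_) (fun hd => ?_) fun h2 => ?_
  · rw [← fx k hk _ (c.pres a aU aκ aB n hn), ← mul_smul (z ^ e), ← hz, ← mul_smul, ← mul_smul, inv_mul_cancel_right]
  · by_contra n0
    have h1 := (c.stU n hn n0 _ (pow_mem c.zU j)).1 e1
    obtain ⟨m, hm⟩ := exists_pow_eq_self_of_coprime (x := z) (n := j)
      (Nat.Coprime.coprime_dvd_right (orderOf_dvd_of_pow_eq_one zp) ((h.hp.coprime_iff_not_dvd.2 hj).symm))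
    exact c.zκ (hm ▸ pow_mem h1 m)
  · obtain ⟨m, rfl⟩ := hd
    rw [pow_mul, zp, one_pow, one_mul] at hz
    exact c.zκ ((mem_normalizer_iff.1 aκ z).2 (hz ▸ hk))
  · have h3 : z ^ e ^ 2 = z := by
      nth_rw 2 [← pow_one z]
      exact pow_eq_pow_iff_modEq.2 (h2.of_dvd (orderOf_dvd_of_pow_eq_one zp))
    have h4 : a * a ∈ Y := by
      refine c.uu.u2 h.hp κ c.zU c.zκ (fun x => (mem_normalizer_iff.1 (mul_mem aU aU) x).1)
        (fun x _ => (mem_normalizer_iff.1 (mul_mem aκ aκ) x).1) ?_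
      rw [show a * a * z * (a * a)⁻¹ = a * (a * z * a⁻¹) * a⁻¹ by group, hz,
        show a * (z ^ e * k) * a⁻¹ = (a * z ^ e * a⁻¹) * (a * k * a⁻¹) by group, ← conj_pow, hz,
        (c.uu.comm _ (pow_mem (hU c.zU) e) _ (hU (c.κU hk))).mul_pow, ← pow_mul, ← pow_two, h3, mul_assoc,
        inv_mul_cancel_left]
      exact mul_mem (pow_mem hk e) (cκ k hk)
    rw [← c.uu.eqY u (c.κU c.uκ) c.u1, mem_cz] at h4
    have h5 : u ^ l ^ 2 = u ^ 1 := by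
      rw [pow_two, pow_mul, ← hu, conj_pow, ← hu, pow_one, show a * (a * u * a⁻¹) * a⁻¹ = a * a * u * (a * a)⁻¹ by group,
        h4.eq, mul_inv_cancel_right]
    rw [pow_eq_pow_iff_modEq, orderOf_eq_prime (c.uu.expV u (hU (c.κU c.uκ))) c.u1,
      ← ZMod.natCast_eq_natCast_iff, Nat.cast_pow, Nat.cast_one, ← orderOf_dvd_iff_pow_eq_one, hl] at h5
    have := Nat.le_of_dvd two_pos h5
    have := h.five
    omega

theorem Cfg.count (h : AS L N r p) (c : Cfg r p V Y U κ B z u D) : ∃ W : ℕ, W ^ 3 ≤ Nat.card D ∧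
    Nat.card D - 1 ≤ B.relIndex (Y ⊓ normalizer (B : Set L)) * (W - 1) := by
  have := Fact.mk h.hp
  obtain ⟨hU, hY, -⟩ := c.uu.le h.hp
  obtain ⟨l, hl, lp⟩ := exists_prim h.hp
  have uU := c.κU c.uκ
  have ou : orderOf u = p := orderOf_eq_prime (c.uu.expV u (hU uU)) c.u1
  have key : ∀ n ∈ D, n ≠ 0 → ∃ a : L, a • n = n ∧ a * u * a⁻¹ = u ^ l ∧ a ∈ normalizer (U : Set L) ∧
      a ∈ normalizer (κ : Set L) ∧ a ∈ normalizer (B : Set L) := fun n hn n0 => by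
    obtain ⟨a, a1, a2⟩ := h.rat2 n u l ((c.stU n hn n0 u uU).2 c.uκ)
      (ou ▸ (Nat.coprime_primes h.hp h.hr).2 h.ne) (ou ▸ lp)
    obtain ⟨aY, aU⟩ := c.uu.norm uU c.u1 (a2 ▸ pow_mem uU l)
    have a3 : ∀ x : L, x • n = n → (a * x * a⁻¹) • n = n := fun x hx => by
      rw [mul_smul, mul_smul, inv_smul_eq_iff.2 a1.symm, hx, a1]
    exact ⟨a, a1, a2, aU, mem_normalizer_fintype fun x hx =>
      (c.stU n hn n0 _ ((mem_normalizer_iff.1 aU x).1 (c.κU hx))).1 (a3 x ((c.stU n hn n0 x (c.κU hx)).2 hx)),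
      mem_normalizer_fintype fun x hx =>
      (c.stY n hn n0 _ ((mem_normalizer_iff.1 aY x).1 (c.BY hx))).1 (a3 x ((c.stY n hn n0 x (c.BY hx)).2 hx))⟩
  obtain ⟨⟨n₀, hn₀⟩, n0⟩ := (AddSubgroup.ne_bot_iff_exists_ne_zero).1 c.nt
  obtain ⟨α, -, α2, αU, ακ, αB⟩ := key n₀ hn₀ fun e => n0 (Subtype.ext e)
  set Φ := Y ⊓ normalizer (B : Set L)
  let F : Φ ⧸ B.subgroupOf Φ → Set N := fun q => {n | n ∈ D ∧ (α * q.out) • n = n}
  obtain ⟨q₀, hq⟩ := Finite.exists_max fun q => (F q).ncard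
  have cn : ∀ y ∈ Y, ∀ K ≤ U, y ∈ normalizer (K : Set L) := fun y hy K hK => mem_normalizer_fintype fun x hx => by
    rwa [(((c.uu.memU x).1 (hK hx)).2 y hy).eq, mul_inv_cancel_right]
  refine ⟨(F q₀).ncard, c.st2_fix h hl ?_ (mul_mem αU (cn _ q₀.out.2.1 U le_rfl)) (mul_mem ακ (cn _ q₀.out.2.1 κ c.κU))
    (mul_mem αB q₀.out.2.2), ?_⟩
  · rw [mul_assoc α, (((c.uu.memU u).1 uU).2 _ q₀.out.2.1).eq, ← α2]; group
  have := Fintype.ofFinite (Φ ⧸ B.subgroupOf Φ)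
  have h1 : (D : Set N) \ {0} ⊆ ⋃ q, F q \ {0} := fun n hn => by
    obtain ⟨a, a1, a2, -, -, aB⟩ := key n hn.1 hn.2
    have h2 : α⁻¹ * a ∈ Φ := ⟨by
      rw [← c.uu.eqY u uU c.u1]
      refine mem_cz.2 (mul_inv_eq_iff_eq_mul.1 ?_)
      rw [show α⁻¹ * a * u * (α⁻¹ * a)⁻¹ = α⁻¹ * (a * u * a⁻¹) * α by group, a2, ← α2]; group,
      (normalizer (B : Set L)).mul_mem (inv_mem αB) aB⟩
    obtain ⟨b, hb⟩ := QuotientGroup.mk_out_eq_mul (B.subgroupOf Φ) ⟨_, h2⟩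
    refine Set.mem_iUnion.2 ⟨(⟨_, h2⟩ : Φ), ⟨hn.1, ?_⟩, hn.2⟩
    rw [hb, Subgroup.coe_mul, ← mul_assoc, mul_inv_cancel_left, mul_smul,
      (c.stY n hn.1 hn.2 _ b.1.2.1).2 (mem_subgroupOf.1 b.2), a1]
  calc Nat.card D - 1 = ((D : Set N) \ {0}).ncard := (Set.ncard_sdiff_singleton_of_mem D.zero_mem).symm
    _ ≤ ∑ q, (F q \ {0}).ncard := (Set.ncard_le_ncard h1).trans (Set.ncard_iUnion_le_of_fintype _)
    _ ≤ ∑ _q : Φ ⧸ B.subgroupOf Φ, ((F q₀).ncard - 1) := Finset.sum_le_sum fun q _ => by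
      rw [Set.ncard_sdiff_singleton_of_mem (show (0 : N) ∈ F q from ⟨D.zero_mem, smul_zero _⟩)]
      exact Nat.sub_le_sub_right (hq q) 1
    _ = _ := by rw [Finset.sum_const, Finset.card_univ, smul_eq_mul, ← Nat.card_eq_fintype_card]; rfl

end H42.S3
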