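import Mathlib
import Cfsg.Agent.Base
import Cfsg.Agent.Lib.S3C.Defs
import Cfsg.Agent.Lib.S3C.UU
import Cfsg.Agent.Lib.S3C.SN
import Cfsg.Agent.Lib.S3C.NT
import Cfsg.Agent.Lib.S3C.ST1
import Cfsg.Agent.Lib.S3C.CFG
import Cfsg.Agent.Lib.S3C.ST2

/-! The contradiction in the minimal setting. -/

set_option autoImplicit false

namespace H42.S3

open Subgroup

universe u

variable {L N : Type*} [Group L] [Finite L] [AddCommGroup N] [Finite N] [DistribMulAction L N] {r p : ℕ}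
  {V Y U κ B : Subgroup L} {z u : L} {D : AddSubgroup N}

theorem ST3.dvd_card {K X : Type*} [Group K] [MulAction K X] [Finite X] {m : ℕ}
    (h : ∀ x : X, (MulAction.stabilizer K x).index = m) : m ∣ Nat.card X := by
  classical
  haveI := Fintype.ofFinite (MulAction.orbitRel.Quotient K X)
  rw [Nat.card_congr (MulAction.selfEquivSigmaOrbits K X), Nat.card_sigma]
  refine Finset.dvd_sum fun ω _ => ?_
  rw [← h ω.out, MulAction.index_stabilizer]
  rfl

omit [Finite L] in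
theorem ST3.dvd_sub (K S : Subgroup L) (hK : ∀ g ∈ K, ∀ n ∈ D, g • n ∈ D)
    (hS : ∀ n ∈ D, n ≠ 0 → ∀ g ∈ K, g • n = n ↔ g ∈ S) : S.relIndex K ∣ Nat.card D - 1 := by
  let X : SubMulAction K N :=
    { carrier := (D : Set N) \ {0}
      smul_mem' := fun g n hn => ⟨hK g g.2 n hn.1, fun e => hn.2 ((smul_eq_zero_iff_eq g).1 e)⟩ }
  have h1 : Nat.card X = Nat.card D - 1 := by
    show Nat.card ((D : Set N) \ {0} : Set N) = Nat.card (D : Set N) - 1
    rw [Nat.card_coe_set_eq, Nat.card_coe_set_eq, Set.ncard_diff_singleton_of_mem D.zero_mem]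
  rw [← h1]
  refine ST3.dvd_card (K := K) fun x => ?_
  congr 1
  ext g
  rw [MulAction.mem_stabilizer_iff, mem_subgroupOf, ← hS x.1 x.2.1 x.2.2 g g.2, Subtype.ext_iff]
  rfl

omit [Finite L] in
theorem ST3.norm_of {g : L} {S : Subgroup L} (h : ∀ s ∈ S, Commute g s) : g ∈ normalizer (S : Set L) :=
  centralizer_le_normalizer _ fun s hs => (h s hs).eq.symm

theorem Cfg.dvd (h : AS L N r p) (c : Cfg r p V Y U κ B z u D) :
    B.relIndex (Y ⊓ normalizer (B : Set L)) ∣ Nat.card D - 1 ∧ p ∣ Nat.card D - 1 := by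
  have hUY : U ≤ Y := (c.uu.le h.hp).1.trans (c.uu.le h.hp).2.1
  have hc : ∀ y ∈ Y, ∀ x ∈ U, Commute y x := fun y hy x hx => ((c.uu.memU x).1 hx).2 y hy
  have pres : ∀ g ∈ Y, g ∈ normalizer (B : Set L) → ∀ n ∈ D, g • n ∈ D := fun g hg hB =>
    c.pres g (ST3.norm_of (hc g hg)) (ST3.norm_of fun s hs => hc g hg s (c.κU hs)) hB
  constructor
  · exact ST3.dvd_sub _ _ (fun g hg => pres g hg.1 hg.2) fun n hn h0 g hg => c.stY n hn h0 g hg.1
  · rw [← c.idx]
    exact ST3.dvd_sub _ _ (fun g hg => pres g (hUY hg) (ST3.norm_of fun s hs => (hc s (c.BY hs) g hg).symm))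
      c.stU

theorem AS.false (h : AS L N r p) : False := by
  obtain ⟨V, Y, U, κ, B, z, u, D, c⟩ := h.exists_cfg
  haveI := Fact.mk h.hr
  haveI := Fact.mk h.hp
  have hD : IsPGroup r (Multiplicative D) := fun x => ⟨1, by
    rw [pow_one]
    exact Multiplicative.toAdd.injective (Subtype.ext (by simpa using h.expN x.toAdd.1))⟩
  obtain ⟨f, hf⟩ := IsPGroup.iff_card.1 hD
  have hf' : Nat.card D = r ^ f := hf
  have f0 : f ≠ 0 := by
    rintro rfl
    exact c.nt (AddSubgroup.card_eq_one.1 (by simpa using hf'))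
  obtain ⟨W, hW, hcount⟩ := c.count h
  obtain ⟨d1, d2⟩ := c.dvd h
  rw [hf'] at hW hcount d1 d2
  have uU : u ∈ U := c.κU c.uκ
  have uV : u ∈ V := (c.uu.le h.hp).1 uU
  have hY := c.uu.eqY u uU c.u1
  rcases h.r23 with rfl | rfl
  · obtain ⟨P⟩ : Nonempty (Sylow p L) := inferInstance
    haveI := h.ns p h.hp h.five P
    have hPY : (P : Subgroup L) ≤ Y := by
      intro g hg
      obtain ⟨k, hk⟩ := P.isPGroup' ⟨g, hg⟩
      rw [← hY, mem_cz]
      exact c.uu.cen g k (congrArg Subtype.val hk) u uV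
    obtain ⟨j, hj⟩ := sn2 h.solv h.hp P Y B P.isPGroup' P.not_dvd_index hPY c.BY (c.two rfl) (by
      intro g hg hcop
      rw [← hY] at hg ⊢
      obtain ⟨d, e1, e2⟩ := h.rat.two_inv (mem_cz.1 hg)
        (by rwa [orderOf_eq_prime (c.uu.expV u uV) c.u1])
      exact ⟨d, mem_cz.2 (mul_inv_eq_iff_eq_mul.1 e2), e1⟩)
    obtain ⟨b, hb⟩ := h.step1
    rw [hj] at hcount d1
    exact (nt2 h.hp h.five (by rwa [← pow_succ'] at hb) f0 d2 d1 hW).not_ge hcount
  · refine (nt3 h.hp h.five f0 d2 d1 (fun s hs h5 hd => ?_) hW).not_ge hcount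
    exact AS.step1 (L := L) (N := N) (r := 3) (p := s)
      { h with
        hp := hs
        five := h5
        ne := by omega
        dvd := hd.trans ((relIndex_dvd_card _ _).trans (card_subgroup_dvd_card _)) }

end H42.S3
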