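import Mathlib
import Cfsg.Agent.Base
import Cfsg.Agent.Lib.S3C.Defs
import Cfsg.Agent.Lib.S3C.ST3
import Cfsg.Agent.Lib.Perm.MinNormal

/-! Normal Sylow subgroups in solvable rational groups. -/

set_option autoImplicit false

namespace H42.S3

open Subgroup

universe u

namespace NRM

variable {G : Type*} [Group G] [Finite G]

theorem exists_min (hs : Group.IsSolvable G) [Nontrivial G] : ∃ (N : Subgroup G) (r : ℕ), N.Normal ∧ N ≠ ⊥ ∧
    (∀ a ∈ N, ∀ b ∈ N, Commute a b) ∧ r.Prime ∧ ∀ a ∈ N, a ^ r = 1 := by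
  obtain ⟨N, hN, h1, -, hmin⟩ := H26.exists_minNormal_le (⊤ : Subgroup G) top_ne_bot
  have h2 : ⁅N, N⁆ = ⊥ :=
    (hmin _ inferInstance (commutator_le_left N N)).resolve_right
      (Group.IsSolvable.commutator_lt_of_ne_bot h1).ne
  have h3 : ∀ a ∈ N, ∀ b ∈ N, Commute a b := fun a ha b hb =>
    commutatorElement_eq_one_iff_commute.1 (mem_bot.1 (h2 ▸ commutator_mem_commutator ha hb))
  obtain ⟨r, hr, he⟩ := H26.minNormal_elementary N h1 hmin ⟨⟨fun a b => Subtype.ext (h3 a a.2 b b.2).eq⟩⟩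
  exact ⟨N, r, hN, h1, h3, hr, he⟩

theorem sup_normal {p : ℕ} [Fact p.Prime] (P : Sylow p G) (N : Subgroup G) [N.Normal]
    (h : ∀ Q : Sylow p (G ⧸ N), (Q : Subgroup (G ⧸ N)).Normal) : ((P : Subgroup G) ⊔ N).Normal := by
  have h1 := (h (P.mapSurjective (QuotientGroup.mk'_surjective N))).comap (QuotientGroup.mk' N)
  rwa [Sylow.coe_mapSurjective, comap_map_eq, QuotientGroup.ker_mk'] at h1

theorem normal_of {p : ℕ} [Fact p.Prime] (P : Sylow p G) {N : Subgroup G} [((P : Subgroup G) ⊔ N).Normal]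
    (h : ∀ g ∈ P, ∀ a ∈ N, Commute g a) : (P : Subgroup G).Normal := by
  have h1 : (P : Subgroup G) ⊔ N ≤ normalizer P :=
    sup_le le_normalizer fun a ha => centralizer_le_normalizer _ fun g hg => (h g hg a ha).eq
  rw [← normalizer_eq_top_iff, eq_top_iff, ← Sylow.normalizer_sup_eq_top' P (le_sup_left (b := N))]
  exact sup_le le_rfl h1

end NRM

open NRM

theorem ns_of_rat {G : Type u} [Group G] [Finite G] (hs : Group.IsSolvable G) (hR : Rat G) : NS G := by
  induction hn : Nat.card G using Nat.strong_induction_on generalizing G with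
  | _ n ih =>
  intro p hp h5 P
  haveI := Fact.mk hp
  rcases subsingleton_or_nontrivial G with hG | hG
  · exact ⟨fun a ha g => by rwa [Subsingleton.elim (g * a * g⁻¹) a]⟩
  obtain ⟨N, r, hN, h1, hc, hr, he⟩ := exists_min hs
  have small : ∀ (L : Type u) [Group L] [Finite L] (π : G →* L), Function.Surjective π → N ≤ π.ker → NS L := by
    intro L _ _ π hπ hk
    refine ih (Nat.card L) ?_ (solvable_of_surjective hπ) (hR.map π hπ) rfl
    have e := π.ker.card_mul_index
    rw [index_ker, π.range_eq_top.2 hπ, card_top] at e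
    have h2 : 1 < Nat.card π.ker := (one_lt_card_iff_ne_bot _).2 fun e => h1 (le_bot_iff.1 (e ▸ hk))
    rw [← hn, ← e]
    exact lt_mul_of_one_lt_left Nat.card_pos h2
  haveI := sup_normal P N (small _ (QuotientGroup.mk' N) (QuotientGroup.mk'_surjective N)
    (QuotientGroup.ker_mk' N).ge p hp h5)
  by_cases hrp : r = p
  · subst hrp
    have h2 : N ≤ P := IsPGroup.le_sylow_of_normal (fun a => ⟨1, Subtype.ext (by simpa using he a a.2)⟩) P
    rwa [sup_eq_left.2 h2] at this
  obtain ⟨L, W, _, _, _, _, _, π, e, hπ, hk, hf, inj, mem, e0, eadd, esm, ecj⟩ := bridge N hc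
  have hL : NS L := small L π hπ fun a ha => (hk a).2 (hc a ha)
  by_cases hd : p ∣ Nat.card L
  · refine (AS.false (L := L) (N := W) (r := r) (p := p) ⟨solvable_of_surjective hπ, hR.map π hπ, hL, hr, hp, h5,
      Ne.symm hrp, fun w => inj ?_, hf, ?_, hd⟩).elim
    · rw [esm, e0]; exact he _ ((mem _).2 ⟨w, rfl⟩)
    · intro w g k hw hg hkc
      obtain ⟨g0, rfl⟩ := hπ g
      have c0 : Commute g0 (e w) := mul_inv_eq_iff_eq_mul.1 (by rw [← ecj, hw])
      obtain ⟨a, b, m, ⟨i, hi⟩, ⟨j, hj⟩, hab, -, ha, hb⟩ := parts g0 hr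
      have h2 : π a = 1 := by
        rw [← orderOf_eq_one_iff]
        refine Nat.eq_one_of_dvd_coprimes (hg.pow_right m) ?_ ?_
        · rw [← hi, map_pow]; exact orderOf_pow_dvd i
        · exact orderOf_dvd_of_pow_eq_one (by rw [← map_pow, ha, map_one])
      have h3 : π g0 = π b := by rw [hab, map_mul, h2, one_mul]
      obtain ⟨l, hl, hlc⟩ := exists_coprime (ord_ne _) hkc (ord_ne b)
      obtain ⟨c, c1, c2⟩ := hR.two (x := e w) (y := b) (hj ▸ (c0.pow_left j).symm)
        (Nat.Coprime.coprime_dvd_left (orderOf_dvd_of_pow_eq_one (he _ ((mem _).2 ⟨w, rfl⟩))) hb.symm)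
        (Nat.coprime_one_left _) hlc
      refine ⟨π c, inj (by rw [ecj, c1, pow_one]), ?_⟩
      rw [← pow_eq_pow_iff_modEq.2 hl, h3, ← map_inv, ← map_mul, ← map_mul, c2, map_pow]
  · refine normal_of P (N := N) fun g hg => (hk g).1 ?_
    obtain ⟨k, hk'⟩ := P.isPGroup' ⟨g, hg⟩
    rw [← orderOf_eq_one_iff]
    refine Nat.eq_one_of_dvd_coprimes (((Nat.Prime.coprime_iff_not_dvd hp).2 hd).pow_left k) ?_
      (orderOf_dvd_natCard _)
    exact orderOf_dvd_of_pow_eq_one (by rw [← map_pow, show g ^ p ^ k = 1 from congrArg Subtype.val hk', map_one])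

end H42.S3
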