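import Mathlib
import Cfsg.Agent.Base
import Cfsg.Agent.Lib.S3C.Defs
import Cfsg.Agent.Lib.S3C.Q0
import Cfsg.Agent.Lib.S3C.NRM
import Cfsg.Agent.Lib.S3C.LP
import Cfsg.Agent.Lib.S3C.AR
import Cfsg.Agent.Lib.S3C.F2
import Cfsg.Agent.Lib.S3C.C4
import Cfsg.Agent.Lib.S3C.L6

/-! Solvable groups whose elements with equal centralizer orders are conjugate. -/

set_option autoImplicit false

namespace H42.S3

open Subgroup

universe u

variable {G : Type u} [Group G] [Finite G]

theorem ah_of_inj (h : Function.Injective fun C : ConjClasses G => Nat.card C.carrier) : AH G := by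
  intro x y hxy
  have e : ∀ x : G, Nat.card (ConjClasses.mk x).carrier = Nat.card {g : G // IsConj x g} := fun x =>
    Nat.card_congr (Equiv.subtypeEquivRight fun g => by
      rw [ConjClasses.mem_carrier_iff_mk_eq, ConjClasses.mk_eq_mk_iff_isConj, isConj_comm])
  rw [← ConjClasses.mk_eq_mk_iff_isConj]
  refine h ?_
  show Nat.card (ConjClasses.mk x).carrier = Nat.card (ConjClasses.mk y).carrier
  rw [e, e]
  refine Nat.eq_of_mul_eq_mul_right (Nat.pos_of_ne_zero (cz_ne x)) ?_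
  rw [← card_eq_class_mul, hxy, ← card_eq_class_mul]

theorem AH.sum (hA : AH G) : ∃ C : Finset ℕ, (∀ c, c ∈ C ↔ ∃ g : G, cz g = c) ∧ ∑ c ∈ C, (1 / c : ℚ) = 1 := by
  classical
  have := Fintype.ofFinite G
  refine ⟨Finset.univ.image (cz (G := G)), fun c => by simp only [Finset.mem_image, Finset.mem_univ, true_and], ?_⟩
  have h1 := Finset.card_eq_sum_card_image (cz (G := G)) Finset.univ
  have h0 : (Nat.card G : ℚ) ≠ 0 := Nat.cast_ne_zero.2 Nat.card_pos.ne'
  refine mul_left_cancel₀ h0 ?_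
  rw [mul_one, Finset.mul_sum]
  nth_rewrite 2 [Nat.card_eq_fintype_card]
  rw [← Finset.card_univ, h1, Nat.cast_sum]
  refine Finset.sum_congr rfl fun c hc => ?_
  obtain ⟨x, -, rfl⟩ := Finset.mem_image.1 hc
  have h2 : Nat.card {g : G // IsConj x g} = (Finset.univ.filter fun a : G => cz a = cz x).card := by
    rw [← Fintype.card_subtype, ← Nat.card_eq_fintype_card]
    exact Nat.card_congr (Equiv.subtypeEquivRight fun g => ⟨fun h => (cz_conj h).symm, fun h => hA _ _ h.symm⟩)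
  have h3 : (cz x : ℚ) ≠ 0 := Nat.cast_ne_zero.2 (cz_ne x)
  rw [card_eq_class_mul x, h2, Nat.cast_mul]
  field_simp

omit [Finite G] in
theorem cz_one : cz (1 : G) = Nat.card G := by
  rw [cz, show centralizer ({1} : Set G) = ⊤ from eq_top_iff.2 fun g _ => mem_cz.2 (Commute.one_right g), card_top]

theorem AH.not_pgroup [Nontrivial G] (hA : AH G) {p k : ℕ} (hp : p.Prime) : Nat.card G ≠ p ^ k := by
  intro hk
  have := Fact.mk hp
  have := (IsPGroup.of_card hk).center_nontrivial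
  obtain ⟨z, hz⟩ := exists_ne (1 : center G)
  have h1 : cz (z : G) = cz (1 : G) := by
    rw [cz_one, cz, show centralizer ({(z : G)} : Set G) = ⊤ from
      eq_top_iff.2 fun g _ => mem_cz.2 (mem_center_iff.1 z.2 g), card_top]
  exact hz (Subtype.ext (isConj_one_left.1 (hA _ _ h1)))

theorem AH.main [Nontrivial G] (hs : Group.IsSolvable G) (hA : AH G) : Nonempty (G ≃* Equiv.Perm (Fin 3)) := by
  have hR := hA.rat
  have hN := ns_of_rat hs hR
  have h1 : 1 < Nat.card G := Finite.one_lt_card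
  have n2 : Nat.card G ≠ 2 := hA.not_pgroup (k := 1) Nat.prime_two
  have n3 : Nat.card G ≠ 3 := hA.not_pgroup (k := 1) Nat.prime_three
  have n8 : Nat.card G ≠ 8 := hA.not_pgroup (k := 3) Nat.prime_two
  by_cases c2 : ∃ x : G, cz x = 2
  · obtain ⟨x, hx⟩ := c2
    exact s3_of_two hA (by omega) hx
  exfalso
  obtain ⟨C, hC, hsum⟩ := hA.sum
  have hal : ∀ c ∈ C, Alw c := fun c hc => by
    obtain ⟨g, rfl⟩ := (hC c).1 hc
    exact alw hR hN g
  have hd : ∀ c ∈ C, c ∣ Nat.card G := fun c hc => by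
    obtain ⟨g, rfl⟩ := (hC c).1 hc
    exact cz_dvd g
  have g3 : ∀ c ∈ C, 3 ≤ c := fun c hc => by
    obtain ⟨g, rfl⟩ := (hC c).1 hc
    have k0 := cz_ne g
    have k2 : cz g ≠ 2 := fun h => c2 ⟨g, h⟩
    have k1 : cz g ≠ 1 := fun h => by
      have := ord_dvd_cz g
      rw [h, Nat.dvd_one, orderOf_eq_one_iff] at this
      rw [this, cz_one] at h
      omega
    omega
  have h5 : (∀ c ∈ C, ¬ 5 ∣ c) ∨ 6 ∉ C := by
    by_cases k : 5 ∣ Nat.card G
    · refine Or.inr fun h6 => ?_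
      obtain ⟨g, hg⟩ := (hC 6).1 h6
      exact six_false hs hR hN k g hg
    · exact Or.inl fun c hc h => k (h.trans (hd c hc))
  refine hsum.not_lt ?_
  by_cases c3 : ∃ x : G, cz x = 3
  · obtain ⟨x, hx⟩ := c3
    obtain ⟨k9, k⟩ := three_vals hx
    refine ar2 C hal g3 (hx ▸ cz_dvd x) k9 n3 hd fun c hc h3 => ?_
    obtain ⟨g, rfl⟩ := (hC c).1 hc
    exact (k g h3).symm.imp_right fun h => by rw [h, cz_one]
  have g4 : ∀ c ∈ C, 4 ≤ c := fun c hc => by
    have := g3 c hc
    have : c ≠ 3 := fun h => c3 ((hC 3).1 (h ▸ hc))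
    omega
  by_cases c4 : ∃ x : G, cz x = 4
  · obtain ⟨x, hx⟩ := c4
    have k16 := four_sylow hR hx
    by_cases k8 : 8 ∣ Nat.card G
    · obtain ⟨z, hz⟩ := eight_vals hx k16
      refine ar4 C hal g4 h5 (c₀ := cz z) k8 k16 n8 hd fun c hc h8 => ?_
      obtain ⟨g, rfl⟩ := (hC c).1 hc
      exact (hz g h8).imp (fun h => by rw [h, cz_one]) cz_conj
    · exact ar3 C hal g4 fun c hc h => k8 (h.trans (hd c hc))
  · refine ar1 C hal (fun c hc => ?_) h5
    have := g4 c hc
    have : c ≠ 4 := fun h => c4 ((hC 4).1 (h ▸ hc))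
    omega

end H42.S3
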